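/-
Bryukhanova's theorem, derived length version (forum topic bry-s4259): basic definitions.
-/
import Mathlib

set_option autoImplicit false

namespace Cfsg.Agent.Lib.BryD.Basic

open Module
open scoped commutatorElement

universe u v w

section Series

variable {G : Type w} [Group G]

/-- The derived series of a subgroup `P`, as subgroups of `G`. -/
def dser (P : Subgroup G) : ℕ → Subgroup G
  | 0 => P
  | n + 1 => ⁅dser P n, dser P n⁆

/-- `T^0 = T₀`, `T^(j+1) = [T^j, A_j]`, where `A_j = dser P j`. -/
def tser (P T₀ : Subgroup G) : ℕ → Subgroup G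
  | 0 => T₀
  | n + 1 => ⁅tser P T₀ n, dser P n⁆

@[simp] theorem dser_zero (P : Subgroup G) : dser P 0 = P := rfl
@[simp] theorem dser_succ (P : Subgroup G) (n : ℕ) : dser P (n + 1) = ⁅dser P n, dser P n⁆ := rfl
@[simp] theorem tser_zero (P T₀ : Subgroup G) : tser P T₀ 0 = T₀ := rfl
@[simp] theorem tser_succ (P T₀ : Subgroup G) (n : ℕ) : tser P T₀ (n + 1) = ⁅tser P T₀ n, dser P n⁆ := rfl

theorem dser_succ_le (P : Subgroup G) (n : ℕ) : dser P (n + 1) ≤ dser P n := by
  rw [dser_succ, Subgroup.commutator_le]
  intro a ha b hb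
  rw [commutatorElement_def]
  exact Subgroup.mul_mem _ (Subgroup.mul_mem _ (Subgroup.mul_mem _ ha hb) (Subgroup.inv_mem _ ha))
    (Subgroup.inv_mem _ hb)

theorem dser_anti (P : Subgroup G) {a b : ℕ} (h : a ≤ b) : dser P b ≤ dser P a := by
  induction h with
  | refl => exact le_rfl
  | step _ ih => exact (dser_succ_le P _).trans ih

theorem dser_le (P : Subgroup G) (n : ℕ) : dser P n ≤ P := dser_anti P (Nat.zero_le n)

theorem dser_mono {P Q : Subgroup G} (h : P ≤ Q) (n : ℕ) : dser P n ≤ dser Q n := by
  induction n with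
  | zero => exact h
  | succ n ih => exact Subgroup.commutator_mono ih ih

theorem dser_add (P : Subgroup G) (a b : ℕ) : dser (dser P a) b = dser P (a + b) := by
  induction b with
  | zero => rfl
  | succ b ih => simp only [dser_succ, ih, ← add_assoc]

theorem tser_add (P T₀ : Subgroup G) (a b : ℕ) :
    tser (dser P a) (tser P T₀ a) b = tser P T₀ (a + b) := by
  induction b with
  | zero => rfl
  | succ b ih => simp only [tser_succ, ih, dser_add, ← add_assoc]

theorem dser_map {H : Type*} [Group H] (f : G →* H) (P : Subgroup G) (n : ℕ) :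
    (dser P n).map f = dser (P.map f) n := by
  induction n with
  | zero => rfl
  | succ n ih => simp only [dser_succ, Subgroup.map_commutator, ih]

theorem tser_map {H : Type*} [Group H] (f : G →* H) (P T₀ : Subgroup G) (n : ℕ) :
    (tser P T₀ n).map f = tser (P.map f) (T₀.map f) n := by
  induction n with
  | zero => rfl
  | succ n ih => simp only [tser_succ, Subgroup.map_commutator, ih, dser_map]

/-- If `T₀ ≤ P` then `T^j ≤ A_j`. -/
theorem tser_le_dser {P T₀ : Subgroup G} (h : T₀ ≤ P) (n : ℕ) : tser P T₀ n ≤ dser P n := by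
  induction n with
  | zero => exact h
  | succ n ih => exact Subgroup.commutator_mono ih le_rfl

end Series

section Chain

variable {K : Type u} [Field K] {V : Type v} [AddCommGroup V] [Module K V] {G : Type w} [Group G]

/-- `(ρ u_{n-1} - 1) ⋯ (ρ u_0 - 1)`. -/
def chainProd (ρ : G →* End K V) (u : ℕ → G) : ℕ → End K V
  | 0 => 1
  | n + 1 => (ρ (u n) - 1) * chainProd ρ u n

@[simp] theorem chainProd_zero (ρ : G →* End K V) (u : ℕ → G) : chainProd ρ u 0 = 1 := rfl
@[simp] theorem chainProd_succ (ρ : G →* End K V) (u : ℕ → G) (n : ℕ) :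
    chainProd ρ u (n + 1) = (ρ (u n) - 1) * chainProd ρ u n := rfl

theorem chainProd_add (ρ : G →* End K V) (u : ℕ → G) (m s : ℕ) :
    chainProd ρ u (m + s) = chainProd ρ (fun j => u (m + j)) s * chainProd ρ u m := by
  induction s with
  | zero => simp
  | succ s ih =>
    rw [← add_assoc, chainProd_succ, chainProd_succ, ih, mul_assoc]

/-- The chain condition for the `2`-subgroup `P`. -/
def ChainCond (ρ : G →* End K V) (P : Subgroup G) (d : ℕ) : Prop :=
  ∀ u : ℕ → G, (∀ j < d, u j ∈ dser P j) → chainProd ρ u d = 0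

end Chain

end Cfsg.Agent.Lib.BryD.Basic
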