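/-
Bryukhanova's theorem, derived length version (forum topic bry-s4259).
MODULE I: homogeneous components of a module for a normal subgroup of odd order.
-/
import Cfsg.Agent.Lib.BryD.Basic

set_option autoImplicit false
set_option linter.unusedSectionVars false

namespace Cfsg.Agent.Lib.BryD.Iso

open Module

universe u v w

section Abstract

variable {K : Type u} [Field K] {H : Type w} [Group H] {V : Type v} [AddCommGroup V] [Module K V]
  [Module (MonoidAlgebra K H) V] [IsScalarTower K (MonoidAlgebra K H) V]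

/-- The element of the group algebra of `h`. -/
noncomputable abbrev sg (K : Type u) [Field K] {H : Type w} [Group H] (h : H) : MonoidAlgebra K H :=
  MonoidAlgebra.single h (1 : K)

theorem sg_mul (g h : H) (v : V) : (sg K (g * h)) • v = sg K g • (sg K h) • v := by
  rw [smul_smul, sg, sg, sg, MonoidAlgebra.single_mul_single, one_mul]

theorem sg_one (v : V) : (sg K (1 : H)) • v = v := by
  have : sg K (1 : H) = 1 := rfl
  rw [this, one_smul]

/-- A `K`-subspace stable under the group is a submodule for the group algebra. -/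
noncomputable def mkSub (W : Submodule K V)
    (hW : ∀ h : H, ∀ v ∈ W, sg K h • v ∈ W) : Submodule (MonoidAlgebra K H) V where
  carrier := W
  add_mem' := W.add_mem
  zero_mem' := W.zero_mem
  smul_mem' a v hv := by
    induction a using MonoidAlgebra.induction_on with
    | of m => exact hW m v hv
    | add x y hx hy =>
      rw [add_smul]
      exact W.add_mem hx hy
    | smul r x hx =>
      rw [smul_assoc]
      exact W.smul_mem r hx

theorem mem_mkSub (W : Submodule K V) (hW : ∀ h : H, ∀ v ∈ W, sg K h • v ∈ W) (x : V) :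
    x ∈ mkSub W hW ↔ x ∈ W := Iff.rfl

/-- Induction along a `sSup` of submodules. -/
theorem sSup_ind {P : V → Prop} (s : Set (Submodule (MonoidAlgebra K H) V)) {x : V}
    (hx : x ∈ sSup s) (mem : ∀ m ∈ s, ∀ y ∈ m, P y) (zero : P 0)
    (add : ∀ a b, P a → P b → P (a + b)) : P x := by
  rw [sSup_eq_iSup'] at hx
  exact Submodule.iSup_induction _ (motive := P) hx (fun m y hy => mem m m.2 y hy) zero add

variable [IsSemisimpleModule (MonoidAlgebra K H) V]

/-- Characterisation of the isotypic components. -/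
theorem mem_comp_iff {C : Submodule (MonoidAlgebra K H) V} :
    C ∈ isotypicComponents (MonoidAlgebra K H) V ↔ C ≠ ⊥ ∧ C.IsFullyInvariant ∧
      ∀ D : Submodule (MonoidAlgebra K H) V, D.IsFullyInvariant → D ≤ C → D = ⊥ ∨ D = C := by
  constructor
  · intro hC
    refine ⟨(bot_lt_isotypicComponents hC).ne', .of_mem_isotypicComponents hC, ?_⟩
    intro D hD hle
    by_cases hbot : D = ⊥
    · exact Or.inl hbot
    right
    obtain ⟨S', le, hS'⟩ := (IsSemisimpleModule.eq_bot_or_exists_simple_le D).resolve_left hbot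
    have h1 := eq_isotypicComponent_of_le hC (le.trans hle)
    apply le_antisymm hle
    rw [h1]
    exact (isFullyInvariant_iff_le_imp_isotypicComponent_le.mp hD) S' le
  · rintro ⟨hne, hinv, hmin⟩
    obtain ⟨S, le, hS⟩ := (IsSemisimpleModule.eq_bot_or_exists_simple_le C).resolve_left hne
    have h1 := (isFullyInvariant_iff_le_imp_isotypicComponent_le.mp hinv) S le
    have h2 := hmin _ (Submodule.IsFullyInvariant.isotypicComponent _ V S) h1
    rcases h2 with h2 | h2
    · exact absurd h2 (bot_lt_isotypicComponent S).ne'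
    · exact ⟨S, hS, h2.symm⟩

/-- The transport of a submodule along a map which intertwines the group with a twist. -/
noncomputable def mapSub (τ : V ≃ₗ[K] V) (θ : H ≃* H)
    (hτ : ∀ h v, τ (sg K h • v) = sg K (θ h) • τ v) (m : Submodule (MonoidAlgebra K H) V) :
    Submodule (MonoidAlgebra K H) V :=
  mkSub ((m.restrictScalars K).comap (τ.symm : V →ₗ[K] V)) (by
    intro h v hv
    have h1 : τ.symm (sg K h • v) = sg K (θ.symm h) • τ.symm v := by
      apply τ.injective
      rw [hτ, LinearEquiv.apply_symm_apply, LinearEquiv.apply_symm_apply, MulEquiv.apply_symm_apply]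
    change τ.symm (sg K h • v) ∈ m
    rw [h1]
    exact m.smul_mem _ hv)

theorem mem_mapSub (τ : V ≃ₗ[K] V) (θ : H ≃* H)
    (hτ : ∀ h v, τ (sg K h • v) = sg K (θ h) • τ v) (m : Submodule (MonoidAlgebra K H) V) (x : V) :
    x ∈ mapSub τ θ hτ m ↔ τ.symm x ∈ m := Iff.rfl

theorem intw_symm (τ : V ≃ₗ[K] V) (θ : H ≃* H)
    (hτ : ∀ h v, τ (sg K h • v) = sg K (θ h) • τ v) :
    ∀ h v, τ.symm (sg K h • v) = sg K (θ.symm h) • τ.symm v := by
  intro h v
  apply τ.injective
  rw [hτ, LinearEquiv.apply_symm_apply, LinearEquiv.apply_symm_apply, MulEquiv.apply_symm_apply]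

theorem mapSub_inv (τ : V ≃ₗ[K] V) (θ : H ≃* H)
    (hτ : ∀ h v, τ (sg K h • v) = sg K (θ h) • τ v) {D : Submodule (MonoidAlgebra K H) V}
    (hD : D.IsFullyInvariant) : (mapSub τ θ hτ D).IsFullyInvariant := by
  intro f x hx
  have hx' : τ.symm x ∈ D := hx
  change τ.symm (f x) ∈ D
  -- the conjugate of `f`
  let g0 : V →ₗ[K] V := (τ.symm : V →ₗ[K] V) ∘ₗ (f.restrictScalars K) ∘ₗ (τ : V →ₗ[K] V)
  have hg0 : ∀ (h : H) (v : V), g0 (MonoidAlgebra.single h (1 : K) • v) =
      MonoidAlgebra.single h (1 : K) • g0 v := by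
    intro h v
    change τ.symm (f (τ (sg K h • v))) = sg K h • τ.symm (f (τ v))
    rw [hτ, map_smul f, intw_symm τ θ hτ, MulEquiv.symm_apply_apply]
  let g : Module.End (MonoidAlgebra K H) V := MonoidAlgebra.equivariantOfLinearOfComm g0 hg0
  have h1 := hD g hx'
  change τ.symm (f (τ (τ.symm x))) ∈ D at h1
  rwa [LinearEquiv.apply_symm_apply] at h1

/-- Transport of components. -/
theorem mapSub_comp (τ : V ≃ₗ[K] V) (θ : H ≃* H)
    (hτ : ∀ h v, τ (sg K h • v) = sg K (θ h) • τ v) {C : Submodule (MonoidAlgebra K H) V}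
    (hC : C ∈ isotypicComponents (MonoidAlgebra K H) V) :
    mapSub τ θ hτ C ∈ isotypicComponents (MonoidAlgebra K H) V := by
  rw [mem_comp_iff] at hC ⊢
  obtain ⟨hne, hinv, hmin⟩ := hC
  refine ⟨?_, mapSub_inv τ θ hτ hinv, ?_⟩
  · intro h0
    apply hne
    rw [eq_bot_iff]
    intro x hx
    have h1 : τ x ∈ mapSub τ θ hτ C := by
      change τ.symm (τ x) ∈ C
      rwa [LinearEquiv.symm_apply_apply]
    rw [h0, Submodule.mem_bot] at h1
    rw [Submodule.mem_bot]
    exact τ.map_eq_zero_iff.1 h1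
  · intro D hD hle
    have hτ' := intw_symm τ θ hτ
    have hDinv := mapSub_inv τ.symm θ.symm hτ' hD
    have hmem : ∀ x, x ∈ mapSub τ.symm θ.symm hτ' D ↔ τ x ∈ D := fun x => Iff.rfl
    have hle' : mapSub τ.symm θ.symm hτ' D ≤ C := by
      intro x hx
      have h1 : τ x ∈ mapSub τ θ hτ C := hle ((hmem x).1 hx)
      have h2 : τ.symm (τ x) ∈ C := h1
      rwa [LinearEquiv.symm_apply_apply] at h2
    rcases hmin _ hDinv hle' with h1 | h1
    · left
      rw [eq_bot_iff]
      intro y hy
      have h2 : τ.symm y ∈ mapSub τ.symm θ.symm hτ' D := by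
        rw [hmem, LinearEquiv.apply_symm_apply]
        exact hy
      rw [h1, Submodule.mem_bot] at h2
      rw [Submodule.mem_bot]
      exact τ.symm.map_eq_zero_iff.1 h2
    · right
      apply le_antisymm hle
      intro y hy
      have hy' : τ.symm y ∈ C := hy
      rw [← h1, hmem, LinearEquiv.apply_symm_apply] at hy'
      exact hy'

/-- Trivial action passes from one nonzero submodule to the component. -/
theorem comp_fix {C W : Submodule (MonoidAlgebra K H) V}
    (hC : C ∈ isotypicComponents (MonoidAlgebra K H) V) (hW : W ≤ C) (hW0 : W ≠ ⊥) (r : H)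
    (hr : ∀ v ∈ W, sg K r • v = v) : ∀ v ∈ C, sg K r • v = v := by
  obtain ⟨S', le, hS'⟩ := (IsSemisimpleModule.eq_bot_or_exists_simple_le W).resolve_left hW0
  have h1 : C = isotypicComponent (MonoidAlgebra K H) V S' :=
    eq_isotypicComponent_of_le hC (le.trans hW)
  intro v hv
  rw [h1] at hv
  refine sSup_ind (P := fun v => sg K r • v = v) _ hv ?_ (smul_zero _) ?_
  · rintro m ⟨e⟩ y hy
    -- transport through `e`
    have h2 := hr _ (le (e ⟨y, hy⟩).2)
    have h3 : e (sg K r • (⟨y, hy⟩ : m)) = sg K r • e ⟨y, hy⟩ := map_smul e _ _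
    have h4 : (⟨sg K r • y, m.smul_mem _ hy⟩ : m) = ⟨y, hy⟩ := by
      apply e.injective
      apply Subtype.ext
      have h5 : (⟨sg K r • y, m.smul_mem _ hy⟩ : m) = sg K r • (⟨y, hy⟩ : m) := rfl
      rw [h5, h3]
      exact h2
    exact congrArg Subtype.val h4
  · intro a b ha hb
    rw [smul_add, ha, hb]

variable [FiniteDimensional K V] [IsAlgClosed K]

/-- An element acting centrally on a component is a scalar there. -/
theorem comp_scalar {C : Submodule (MonoidAlgebra K H) V}
    (hC : C ∈ isotypicComponents (MonoidAlgebra K H) V) (c : H)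
    (hc : ∀ r : H, ∀ v ∈ C, sg K (c * r * c⁻¹ * r⁻¹) • v = v) :
    ∃ l : K, ∀ v ∈ C, sg K c • v = l • v := by
  obtain ⟨S, hS, rfl⟩ := hC
  have hSC : S ≤ isotypicComponent (MonoidAlgebra K H) V S := S.le_isotypicComponent
  -- commutation on the component
  have hcomm : ∀ r : H, ∀ v ∈ isotypicComponent (MonoidAlgebra K H) V S,
      sg K c • sg K r • v = sg K r • sg K c • v := by
    intro r v hv
    have h1 := hc r _ ((isotypicComponent (MonoidAlgebra K H) V S).smul_mem
      (sg K r) ((isotypicComponent (MonoidAlgebra K H) V S).smul_mem (sg K c) hv))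
    rw [← sg_mul, ← sg_mul] at h1
    have e1 : c * r * c⁻¹ * r⁻¹ * r * c = c * r := by group
    rw [e1, sg_mul] at h1
    exact h1
  -- the endomorphism of `S`
  let f0 : S →ₗ[K] S :=
    { toFun := fun x => sg K c • x
      map_add' := fun x y => smul_add _ x y
      map_smul' := fun k x => by
        rw [RingHom.id_apply]
        exact smul_comm _ k x }
  have hf0 : ∀ (h : H) (v : S), f0 (MonoidAlgebra.single h (1 : K) • v) =
      MonoidAlgebra.single h (1 : K) • f0 v := by
    intro h v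
    apply Subtype.ext
    exact hcomm h v (hSC v.2)
  let f : Module.End (MonoidAlgebra K H) S := MonoidAlgebra.equivariantOfLinearOfComm f0 hf0
  haveI : FiniteDimensional K S := by
    have : FiniteDimensional K (S.restrictScalars K) := inferInstance
    exact this
  obtain ⟨l, hl⟩ := (IsSimpleModule.algebraMap_end_bijective_of_isAlgClosed
    (A := MonoidAlgebra K H) (V := S) K).2 f
  have hlS : ∀ x : S, sg K c • x = l • x := by
    intro x
    have h1 := LinearMap.congr_fun hl x
    exact h1.symm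
  refine ⟨l, fun v hv => ?_⟩
  refine sSup_ind (P := fun v => sg K c • v = l • v) _ hv ?_ (by simp) ?_
  · rintro m ⟨e⟩ y hy
    have h3 : e (sg K c • (⟨y, hy⟩ : m)) = sg K c • e ⟨y, hy⟩ := map_smul e _ _
    have h4 : (⟨sg K c • y, m.smul_mem _ hy⟩ : m) = l • (⟨y, hy⟩ : m) := by
      apply e.injective
      have h5 : (⟨sg K c • y, m.smul_mem _ hy⟩ : m) = sg K c • (⟨y, hy⟩ : m) := rfl
      rw [h5, h3, hlS]
      exact (LinearMap.map_smul_of_tower e.toLinearMap l _).symm
    exact congrArg Subtype.val h4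
  · intro a b ha hb
    rw [smul_add, smul_add, ha, hb]

end Abstract

/-- **Homogeneous components.** -/
theorem exists_components {K : Type u} [Field K] [IsAlgClosed K] [CharP K 2] {V : Type v} [AddCommGroup V]
    [Module K V] [FiniteDimensional K V] {G : Type w} [Group G] [Finite G] (ρ : G →* End K V) (R₁ : Subgroup G)
    (hodd : Odd (Nat.card R₁)) :
    ∃ 𝓒 : Set (Submodule K V),
      ⊥ ∉ 𝓒 ∧ sSupIndep 𝓒 ∧ sSup 𝓒 = ⊤ ∧
      (∀ C ∈ 𝓒, ∀ r ∈ R₁, ∀ v ∈ C, ρ r v ∈ C) ∧
      (∀ g ∈ Subgroup.normalizer (R₁ : Set G), ∀ C ∈ 𝓒, C.map (ρ g) ∈ 𝓒) ∧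
      (∀ C ∈ 𝓒, ∀ W : Submodule K V, W ≤ C → W ≠ ⊥ → (∀ r ∈ R₁, ∀ v ∈ W, ρ r v ∈ W) →
        ∀ r ∈ R₁, (∀ v ∈ W, ρ r v = v) → ∀ v ∈ C, ρ r v = v) ∧
      (∀ C ∈ 𝓒, ∀ c ∈ R₁, (∀ r ∈ R₁, ∀ v ∈ C, ρ (c * r * c⁻¹ * r⁻¹) v = v) → ∃ l : K, ∀ v ∈ C, ρ c v = l • v) := by
  classical
  let A := MonoidAlgebra K R₁
  let Φ : A →ₐ[K] End K V := MonoidAlgebra.lift K (End K V) R₁ (ρ.comp R₁.subtype)
  letI : Module A V := Module.compHom V Φ.toRingHom
  have hsmul : ∀ (a : A) (v : V), a • v = Φ a v := fun _ _ => rfl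
  haveI : IsScalarTower K A V := ⟨fun k a v => by
    rw [hsmul, hsmul, map_smul]
    rfl⟩
  have hsg : ∀ (r : R₁) (v : V), sg K r • v = ρ r v := by
    intro r v
    rw [hsmul, sg]
    have h1 : Φ (MonoidAlgebra.single r (1 : K)) = (1 : K) • (ρ.comp R₁.subtype) r :=
      MonoidAlgebra.lift_single _ _ _
    rw [h1, one_smul]
    rfl
  haveI : NeZero ((Nat.card R₁ : ℕ) : K) := by
    constructor
    obtain ⟨k, hk⟩ := hodd
    rw [hk]
    have h2 : (2 : K) = 0 := by
      have := CharP.cast_eq_zero K 2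
      exact_mod_cast this
    push_cast
    rw [h2]
    simp
  haveI : IsSemisimpleModule A V := inferInstance
  refine ⟨(Submodule.restrictScalars K) '' isotypicComponents A V, ?_, ?_, ?_, ?_, ?_, ?_, ?_⟩
  · rintro ⟨C, hC, h0⟩
    apply (bot_lt_isotypicComponents hC).ne'
    apply Submodule.restrictScalars_injective K A V
    rw [h0, Submodule.restrictScalars_bot]
  · rintro X ⟨C, hC, rfl⟩
    have h1 := sSupIndep_isotypicComponents A V hC
    have h2 : (Submodule.restrictScalars K) '' isotypicComponents A V \ {C.restrictScalars K} =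
        (Submodule.restrictScalars K) '' (isotypicComponents A V \ {C}) := by
      rw [Set.image_sdiff (Submodule.restrictScalars_injective K A V), Set.image_singleton]
    rw [h2, ← Submodule.restrictScalars_sSup]
    rw [Submodule.disjoint_def] at h1 ⊢
    exact h1
  · rw [← Submodule.restrictScalars_sSup, sSup_isotypicComponents, Submodule.restrictScalars_top]
  · rintro X ⟨C, hC, rfl⟩ r hr v hv
    rw [← hsg ⟨r, hr⟩ v]
    exact C.smul_mem _ hv
  · rintro g hg X ⟨C, hC, rfl⟩
    have hgc : ∀ r : R₁, g * r * g⁻¹ ∈ R₁ := fun r => (Subgroup.mem_normalizer_iff.1 hg r).1 r.2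
    have hgc' : ∀ r : R₁, g⁻¹ * r * g ∈ R₁ := fun r => by
      have := (Subgroup.mem_normalizer_iff.1 hg (g⁻¹ * r * g)).2
      apply this
      have e : g * (g⁻¹ * r * g) * g⁻¹ = r := by group
      rw [e]
      exact r.2
    let θ : R₁ ≃* R₁ :=
      { toFun := fun r => ⟨g * r * g⁻¹, hgc r⟩
        invFun := fun r => ⟨g⁻¹ * r * g, hgc' r⟩
        left_inv := fun r => Subtype.ext (by simp [mul_assoc])
        right_inv := fun r => Subtype.ext (by simp [mul_assoc])
        map_mul' := fun a b => Subtype.ext (by simp [mul_assoc]) }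
    let τ : V ≃ₗ[K] V := LinearEquiv.ofLinearMap (ρ g) (ρ g⁻¹)
      (by
        apply LinearMap.ext
        intro x
        change ρ g (ρ g⁻¹ x) = x
        rw [← Module.End.mul_apply, ← map_mul]
        simp)
      (by
        apply LinearMap.ext
        intro x
        change ρ g⁻¹ (ρ g x) = x
        rw [← Module.End.mul_apply, ← map_mul]
        simp)
    have hτ : ∀ (r : R₁) (v : V), τ (sg K r • v) = sg K (θ r) • τ v := by
      intro r v
      rw [hsg, hsg]
      change ρ g (ρ r v) = ρ (g * r * g⁻¹) (ρ g v)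
      rw [← Module.End.mul_apply, ← Module.End.mul_apply, ← map_mul, ← map_mul]
      congr 2
      group
    refine ⟨_, mapSub_comp τ θ hτ hC, ?_⟩
    ext x
    constructor
    · intro hx
      refine ⟨τ.symm x, hx, ?_⟩
      exact τ.apply_symm_apply x
    · rintro ⟨y, hy, rfl⟩
      change τ.symm (τ y) ∈ C
      rwa [LinearEquiv.symm_apply_apply]
  · rintro X ⟨C, hC, rfl⟩ W hWC hW0 hWr r hr hfix v hv
    have hW' : ∀ h : R₁, ∀ v ∈ W, sg K h • v ∈ W := fun h v hv => by
      rw [hsg]
      exact hWr _ h.2 v hv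
    have h1 := comp_fix (K := K) (H := R₁) hC (W := mkSub W hW') hWC
      (fun h0 => hW0 (by
        rw [eq_bot_iff]
        intro x hx
        have : x ∈ mkSub W hW' := hx
        rw [h0] at this
        exact this)) ⟨r, hr⟩
      (fun v hv => by
        rw [hsg]
        exact hfix v hv) v hv
    rw [← hsg ⟨r, hr⟩ v]
    exact h1
  · rintro X ⟨C, hC, rfl⟩ c hc hcomm
    obtain ⟨l, hl⟩ := comp_scalar (K := K) (H := R₁) hC ⟨c, hc⟩ (by
      intro r v hv
      rw [hsg]
      exact hcomm r r.2 v hv)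
    refine ⟨l, fun v hv => ?_⟩
    rw [← hsg ⟨c, hc⟩ v]
    exact hl v hv

end Cfsg.Agent.Lib.BryD.Iso
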