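/-
Bryukhanova's theorem, derived length version (forum topic bry-s4259).
MODULE M: fresh moves of a point under the derived series of a `2`-group, and the operator consequence.
-/
import Cfsg.Agent.Lib.BryD.Basic
import Cfsg.Agent.Lib.PGroups.Basic

set_option autoImplicit false

namespace Cfsg.Agent.Lib.BryD.Moves

open Module Cfsg.Agent.Lib.BryD.Basic

universe u v w

/-- Orbits double along the derived series. -/
theorem two_mul_card_orbit_le {Γ : Type w} {Ω : Type v} [Group Γ] [Finite Γ] [MulAction Γ Ω]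
    (A : Subgroup Γ) (h2 : IsPGroup 2 A) (θ : Ω) (hm : ∃ g ∈ A, g • θ ≠ θ) :
    2 * Nat.card {ω : Ω // ∃ g ∈ (⁅A, A⁆ : Subgroup Γ), g • θ = ω} ≤ Nat.card {ω : Ω // ∃ g ∈ A, g • θ = ω} := by
  classical
  have : Fact (Nat.Prime 2) := ⟨Nat.prime_two⟩
  let S : Subgroup A := MulAction.stabilizer A θ
  have hcf : commutator A ≤ frattini A := Cfsg.Agent.Lib.PGroups.Basic.commutator_le_frattini h2
  have hne : S ⊔ commutator A ≠ ⊤ := by
    intro htop
    have h1 : S ⊔ frattini A = ⊤ := top_le_iff.1 (htop ▸ sup_le_sup_left hcf S)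
    have h3 : S = ⊤ := frattini_nongenerating h1
    obtain ⟨g, hg, hgθ⟩ := hm
    apply hgθ
    have : (⟨g, hg⟩ : A) ∈ S := by rw [h3]; trivial
    exact this
  obtain ⟨a, ha⟩ : ∃ a : A, a ∉ S ⊔ commutator A := by
    by_contra hcon
    push Not at hcon
    exact hne (eq_top_iff.2 fun x _ => hcon x)
  have hlift : ∀ g ∈ (⁅A, A⁆ : Subgroup Γ), ∃ γ ∈ commutator A, (γ : Γ) = g := by
    intro g hg
    rw [← Subgroup.map_subtype_commutator] at hg
    obtain ⟨γ, hγ, rfl⟩ := hg
    exact ⟨γ, hγ, rfl⟩
  have hcomm_le : (⁅A, A⁆ : Subgroup Γ) ≤ A := dser_succ_le A 0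
  have key : ∀ g ∈ (⁅A, A⁆ : Subgroup Γ), ∀ g' ∈ (⁅A, A⁆ : Subgroup Γ),
      (a : Γ) • g • θ ≠ g' • θ := by
    intro g hg g' hg' heq
    obtain ⟨γ, hγ, rfl⟩ := hlift g hg
    obtain ⟨γ', hγ', rfl⟩ := hlift g' hg'
    apply ha
    have hs : γ'⁻¹ * a * γ ∈ S := by
      change (γ'⁻¹ * a * γ) • θ = θ
      rw [Subgroup.smul_def]
      simp only [Subgroup.coe_mul, Subgroup.coe_inv, mul_smul]
      rw [heq, inv_smul_smul]
    have : a = γ' * (γ'⁻¹ * a * γ) * γ⁻¹ := by group
    rw [this]
    refine Subgroup.mul_mem _ (Subgroup.mul_mem _ ?_ ?_) ?_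
    · exact (le_sup_right : commutator A ≤ S ⊔ commutator A) hγ'
    · exact (le_sup_left : S ≤ S ⊔ commutator A) hs
    · exact (le_sup_right : commutator A ≤ S ⊔ commutator A) (Subgroup.inv_mem _ hγ)
  have hY : Finite {ω : Ω // ∃ g ∈ A, g • θ = ω} := by
    refine Finite.of_surjective (fun g : A => (⟨(g : Γ) • θ, g, g.2, rfl⟩ : {ω : Ω // ∃ g ∈ A, g • θ = ω})) ?_
    rintro ⟨ω, g, hg, rfl⟩
    exact ⟨⟨g, hg⟩, rfl⟩
  let f : ({ω : Ω // ∃ g ∈ (⁅A, A⁆ : Subgroup Γ), g • θ = ω} ⊕ {ω : Ω // ∃ g ∈ (⁅A, A⁆ : Subgroup Γ), g • θ = ω}) →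
      {ω : Ω // ∃ g ∈ A, g • θ = ω} :=
    Sum.elim (fun x => ⟨x.1, by obtain ⟨g, hg, h⟩ := x.2; exact ⟨g, hcomm_le hg, h⟩⟩)
      (fun x => ⟨(a : Γ) • x.1, by
        obtain ⟨g, hg, h⟩ := x.2
        exact ⟨(a : Γ) * g, A.mul_mem a.2 (hcomm_le hg), by rw [mul_smul, h]⟩⟩)
  have hf : Function.Injective f := by
    rintro (⟨x, g, hg, rfl⟩ | ⟨x, g, hg, rfl⟩) (⟨y, g', hg', rfl⟩ | ⟨y, g', hg', rfl⟩) hxy
    · have : g • θ = g' • θ := congrArg Subtype.val hxy
      exact congrArg Sum.inl (Subtype.ext this)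
    · have : g • θ = (a : Γ) • g' • θ := congrArg Subtype.val hxy
      exact absurd this.symm (key g' hg' g hg)
    · have : (a : Γ) • g • θ = g' • θ := congrArg Subtype.val hxy
      exact absurd this (key g hg g' hg')
    · have : (a : Γ) • g • θ = (a : Γ) • g' • θ := congrArg Subtype.val hxy
      exact congrArg Sum.inr (Subtype.ext (smul_left_cancel _ this))
  have hX : Finite {ω : Ω // ∃ g ∈ (⁅A, A⁆ : Subgroup Γ), g • θ = ω} :=
    Finite.of_injective (fun x => f (Sum.inl x)) (fun x y h => Sum.inl_injective (hf h))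
  have := Nat.card_le_card_of_injective f hf
  rw [Nat.card_sum] at this
  omega

/-- **Fresh moves.** `H j` is the set of products of the chosen elements of index at least `j`. -/
theorem exists_moves {Γ : Type w} {Ω : Type v} [Group Γ] [Finite Γ] [DecidableEq Γ] [MulAction Γ Ω] (P : Subgroup Γ)
    (h2 : IsPGroup 2 P) (θ : Ω) (m : ℕ) (hm : m = 0 ∨ ∃ g ∈ dser P (m - 1), g • θ ≠ θ) :
    ∃ (u : ℕ → Γ) (H : ℕ → Finset Γ), (∀ j < m, u j ∈ dser P j) ∧ H m = {1} ∧
      (∀ j < m, H j = H (j + 1) ∪ (H (j + 1)).image (· * u j)) ∧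
      (∀ j < m, ∀ h ∈ H (j + 1), h • (u j • θ) ≠ θ) := by
  classical
  -- finiteness of orbits
  have hfin : ∀ B : Subgroup Γ, Finite {ω : Ω // ∃ g ∈ B, g • θ = ω} := by
    intro B
    refine Finite.of_surjective (fun g : B => (⟨(g : Γ) • θ, g, g.2, rfl⟩ : {ω : Ω // ∃ g ∈ B, g • θ = ω})) ?_
    rintro ⟨ω, g, hg, rfl⟩
    exact ⟨⟨g, hg⟩, rfl⟩
  have hdouble : ∀ j, j + 1 ≤ m → 2 * Nat.card {ω : Ω // ∃ g ∈ dser P (j + 1), g • θ = ω} ≤
      Nat.card {ω : Ω // ∃ g ∈ dser P j, g • θ = ω} := by
    intro j hj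
    rcases hm with h0 | ⟨g, hg, hgθ⟩
    · omega
    · exact two_mul_card_orbit_le (dser P j) (IsPGroup.to_le h2 (dser_le P j)) θ
        ⟨g, dser_anti P (by omega) hg, hgθ⟩
  have hcard : ∀ s j, j + s + 1 = m → 2 ^ (s + 1) ≤ Nat.card {ω : Ω // ∃ g ∈ dser P j, g • θ = ω} := by
    intro s
    induction s with
    | zero =>
      intro j hj
      have h1 := hdouble j (by omega)
      have := hfin (dser P (j + 1))
      have : Nonempty {ω : Ω // ∃ g ∈ dser P (j + 1), g • θ = ω} :=
        ⟨⟨θ, 1, Subgroup.one_mem _, one_smul _ _⟩⟩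
      have h3 : 0 < Nat.card {ω : Ω // ∃ g ∈ dser P (j + 1), g • θ = ω} := Nat.card_pos
      omega
    | succ s ih =>
      intro j hj
      have h1 := hdouble j (by omega)
      have h3 := ih (j + 1) (by omega)
      rw [pow_succ]
      omega
  have main : ∀ s, s ≤ m → ∃ (u : ℕ → Γ) (H : ℕ → Finset Γ),
      (∀ j, m - s ≤ j → j < m → u j ∈ dser P j) ∧ H m = {1} ∧
      (∀ j, m - s ≤ j → j < m → H j = H (j + 1) ∪ (H (j + 1)).image (· * u j)) ∧
      (∀ j, m - s ≤ j → j < m → ∀ h ∈ H (j + 1), h • (u j • θ) ≠ θ) ∧ (H (m - s)).card ≤ 2 ^ s := by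
    intro s
    induction s with
    | zero =>
      intro _
      refine ⟨fun _ => 1, fun _ => {1}, ?_, rfl, ?_, ?_, ?_⟩
      · intro j h1 h2; omega
      · intro j h1 h2; omega
      · intro j h1 h2; omega
      · simp
    | succ s ih =>
      intro hs
      obtain ⟨u, H, hu, hHm, hH, hfresh, hc⟩ := ih (by omega)
      set j := m - (s + 1) with hjdef
      have hj1 : m - s = j + 1 := by omega
      rw [hj1] at hc
      -- a fresh move
      obtain ⟨g, hg, hgfresh⟩ : ∃ g ∈ dser P j, ∀ h ∈ H (j + 1), h • (g • θ) ≠ θ := by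
        by_contra hcon
        push Not at hcon
        have hch : ∀ x : {ω : Ω // ∃ g ∈ dser P j, g • θ = ω}, ∃ h : H (j + 1), (h : Γ) • x.1 = θ := by
          rintro ⟨_, g, hg, rfl⟩
          obtain ⟨h, hh, hθ⟩ := hcon g hg
          exact ⟨⟨h, hh⟩, hθ⟩
        choose F hF using hch
        have hinj : Function.Injective F := by
          intro x y hxy
          apply Subtype.ext
          have h1 := hF x
          have h2 := hF y
          rw [hxy] at h1
          exact smul_left_cancel _ (h1.trans h2.symm)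
        have h1 := Nat.card_le_card_of_injective F hinj
        have h1' : Nat.card (H (j + 1)) = (H (j + 1)).card := by
          rw [Nat.card_eq_fintype_card, Fintype.card_coe]
        have h3 := hcard s j (by omega)
        rw [pow_succ] at h3
        have h4 : 0 < 2 ^ s := by positivity
        omega
      have hjm : j < m := by omega
      have hne_succ : ∀ i, j < i → i ≠ j := fun i hi => by omega
      refine ⟨Function.update u j g, Function.update H j (H (j + 1) ∪ (H (j + 1)).image (· * g)), ?_, ?_, ?_, ?_, ?_⟩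
      · intro i hi him
        rcases eq_or_lt_of_le (show j ≤ i by omega) with rfl | hlt
        · simpa using hg
        · rw [Function.update_of_ne (by omega)]
          exact hu i (by omega) him
      · rw [Function.update_of_ne (by omega)]
        exact hHm
      · intro i hi him
        rcases eq_or_lt_of_le (show j ≤ i by omega) with rfl | hlt
        · rw [Function.update_self, Function.update_of_ne (by omega), Function.update_self]
        · rw [Function.update_of_ne (by omega), Function.update_of_ne (by omega),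
            Function.update_of_ne (by omega)]
          exact hH i (by omega) him
      · intro i hi him h hh
        rcases eq_or_lt_of_le (show j ≤ i by omega) with rfl | hlt
        · rw [Function.update_of_ne (by omega)] at hh
          rw [Function.update_self]
          exact hgfresh h hh
        · rw [Function.update_of_ne (by omega)] at hh
          rw [Function.update_of_ne (by omega)]
          exact hfresh i (by omega) him h hh
      · rw [Function.update_self, pow_succ]
        calc ((H (j + 1)) ∪ (H (j + 1)).image (· * g)).card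
            ≤ (H (j + 1)).card + ((H (j + 1)).image (· * g)).card := Finset.card_union_le _ _
          _ ≤ (H (j + 1)).card + (H (j + 1)).card := Nat.add_le_add_left Finset.card_image_le _
          _ ≤ 2 ^ s * 2 := by omega
  obtain ⟨u, H, h1, h2, h3, h4, -⟩ := main m le_rfl
  refine ⟨u, H, fun j hj => h1 j (by omega) hj, h2, fun j hj => h3 j (by omega) hj,
    fun j hj => h4 j (by omega) hj⟩

/-- The operator consequence. Here `C ω` is a family of subspaces permuted by `Γ` and `Ct` contains
all `C ω` with `ω ≠ θ`. -/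
theorem chainProd_sub_mem {K : Type u} [Field K] [CharP K 2] {V : Type v} [AddCommGroup V] [Module K V]
    {Γ : Type w} {Ω : Type*} [Group Γ] [DecidableEq Γ] [MulAction Γ Ω] (ρ : Γ →* End K V) (C : Ω → Submodule K V)
    (hC : ∀ (g : Γ) (ω : Ω), ∀ v ∈ C ω, ρ g v ∈ C (g • ω)) (θ : Ω) (Ct : Submodule K V)
    (hCt : ∀ ω, ω ≠ θ → C ω ≤ Ct) (m : ℕ) (u : ℕ → Γ) (H : ℕ → Finset Γ) (hm : H m = {1})
    (hH : ∀ j < m, H j = H (j + 1) ∪ (H (j + 1)).image (· * u j))
    (hu : ∀ j < m, ∀ h ∈ H (j + 1), h • (u j • θ) ≠ θ) (v : V) (hv : v ∈ C θ) :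
    chainProd ρ u m v - v ∈ Ct := by
  have hstep : ∀ (s j : ℕ) (x : V), chainProd ρ (fun i => u (j + i)) (s + 1) x =
      chainProd ρ (fun i => u (j + 1 + i)) s (ρ (u j) x) - chainProd ρ (fun i => u (j + 1 + i)) s x := by
    intro s j x
    have h := chainProd_add ρ (fun i => u (j + i)) 1 s
    rw [add_comm 1 s] at h
    rw [h]
    simp only [chainProd_succ, chainProd_zero, add_zero, mul_one, Module.End.mul_apply,
      LinearMap.sub_apply, Module.End.one_apply, map_sub]
    have : (fun i => u (j + (1 + i))) = (fun i => u (j + 1 + i)) := by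
      funext i; congr 1; omega
    rw [this]
  have main : ∀ s j, j + s = m →
      (∀ ω, (∀ h ∈ H j, h • ω ≠ θ) → ∀ x ∈ C ω, chainProd ρ (fun i => u (j + i)) s x ∈ Ct) ∧
      (∀ x ∈ C θ, chainProd ρ (fun i => u (j + i)) s x - x ∈ Ct) := by
    intro s
    induction s with
    | zero =>
      intro j hj
      have hj' : j = m := by omega
      subst hj'
      constructor
      · intro ω hω x hx
        have h1 : ω ≠ θ := by
          have := hω 1 (by simp [hm])
          simpa using this
        simpa using hCt ω h1 hx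
      · intro x _
        simp
    | succ s ih =>
      intro j hj
      have hjm : j < m := by omega
      obtain ⟨iha, ihb⟩ := ih (j + 1) (by omega)
      have hHj := hH j hjm
      constructor
      · intro ω hω x hx
        rw [hstep]
        refine Ct.sub_mem ?_ ?_
        · refine iha (u j • ω) ?_ _ (hC _ _ _ hx)
          intro h hh
          rw [← mul_smul]
          refine hω _ ?_
          rw [hHj]
          exact Finset.mem_union_right _ (Finset.mem_image_of_mem _ hh)
        · refine iha ω ?_ _ hx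
          intro h hh
          refine hω _ ?_
          rw [hHj]
          exact Finset.mem_union_left _ hh
      · intro x hx
        rw [hstep]
        have h1 : chainProd ρ (fun i => u (j + 1 + i)) s (ρ (u j) x) ∈ Ct :=
          iha (u j • θ) (hu j hjm) _ (hC _ _ _ hx)
        have h2 := ihb x hx
        have h3 : x + x = 0 := by
          rw [← two_smul K x, CharTwo.two_eq_zero, zero_smul]
        have h4 : chainProd ρ (fun i => u (j + 1 + i)) s (ρ (u j) x) -
            chainProd ρ (fun i => u (j + 1 + i)) s x - x =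
            chainProd ρ (fun i => u (j + 1 + i)) s (ρ (u j) x) -
            (chainProd ρ (fun i => u (j + 1 + i)) s x - x) - (x + x) := by abel
        rw [h4, h3, sub_zero]
        exact Ct.sub_mem h1 h2
  have := (main m 0 (by omega)).2 v hv
  simpa using this

end Cfsg.Agent.Lib.BryD.Moves
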