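/-
Bryukhanova's theorem, derived length version (forum topic bry-s4259).
MODULE D: a nonzero chain of commutators with the derived series forces a large section.
-/
import Cfsg.Agent.Lib.BryD.Basic
import Cfsg.Agent.Lib.Coprime.Generation2

set_option autoImplicit false
set_option linter.unusedSectionVars false
set_option linter.style.haveILetI false

namespace Cfsg.Agent.Lib.BryD.Dims

open Cfsg.Agent.Lib.BryD.Basic

universe w

section Core

variable {X : Type w} [Group X] [Finite X]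

/-- The chain `D = N 0 ≤ N 1 ≤ ...`, with `[N (i + 1), X] ≤ N i`, inside `T`. -/
noncomputable def chainN (T D : Subgroup X) (hD : D.Normal) (hT : T.Normal) :
    ℕ → {S : Subgroup X // S.Normal}
  | 0 => ⟨D, hD⟩
  | i + 1 =>
    ⟨{ carrier := {x | x ∈ T ∧ ∀ a : X, x * a * x⁻¹ * a⁻¹ ∈ (chainN T D hD hT i).1}
       one_mem' := ⟨T.one_mem, fun a => by simp⟩
       mul_mem' := by
         rintro x y ⟨hx, hx'⟩ ⟨hy, hy'⟩
         refine ⟨T.mul_mem hx hy, fun a => ?_⟩
         have hN := (chainN T D hD hT i).2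
         have e : x * y * a * (x * y)⁻¹ * a⁻¹
             = x * (y * a * y⁻¹ * a⁻¹) * x⁻¹ * (x * a * x⁻¹ * a⁻¹) := by group
         rw [e]
         exact Subgroup.mul_mem _ (hN.conj_mem _ (hy' a) x) (hx' a)
       inv_mem' := by
         rintro x ⟨hx, hx'⟩
         refine ⟨T.inv_mem hx, fun a => ?_⟩
         have hN := (chainN T D hD hT i).2
         have e : x⁻¹ * a * x⁻¹⁻¹ * a⁻¹ = x⁻¹ * (x * a * x⁻¹ * a⁻¹)⁻¹ * x⁻¹⁻¹ := by group
         rw [e]
         exact hN.conj_mem _ (Subgroup.inv_mem _ (hx' a)) x⁻¹ },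
      by
        constructor
        rintro x ⟨hx, hx'⟩ g
        refine ⟨hT.conj_mem x hx g, fun a => ?_⟩
        have hN := (chainN T D hD hT i).2
        have e : g * x * g⁻¹ * a * (g * x * g⁻¹)⁻¹ * a⁻¹
            = g * (x * (g⁻¹ * a * g) * x⁻¹ * (g⁻¹ * a * g)⁻¹) * g⁻¹ := by group
        rw [e]
        exact hN.conj_mem _ (hx' _) g⟩

variable {T D : Subgroup X} {hD : D.Normal} {hT : T.Normal}

theorem mem_chainN_succ {i : ℕ} {x : X} :
    x ∈ (chainN T D hD hT (i + 1)).1 ↔
      x ∈ T ∧ ∀ a : X, x * a * x⁻¹ * a⁻¹ ∈ (chainN T D hD hT i).1 := Iff.rfl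

theorem chainN_le (hle : D ≤ T) (i : ℕ) : (chainN T D hD hT i).1 ≤ T := by
  cases i with
  | zero => exact hle
  | succ i => exact fun x hx => hx.1

theorem chainN_mono_succ (hle : D ≤ T) (i : ℕ) :
    (chainN T D hD hT i).1 ≤ (chainN T D hD hT (i + 1)).1 := by
  intro x hx
  refine ⟨chainN_le hle i hx, fun a => ?_⟩
  have hN := (chainN T D hD hT i).2
  have h1 := hN.conj_mem _ (Subgroup.inv_mem _ hx) a
  have e : x * a * x⁻¹ * a⁻¹ = x * (a * x⁻¹ * a⁻¹) := by group
  rw [e]
  exact Subgroup.mul_mem _ hx h1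

theorem chainN_mono (hle : D ≤ T) {i j : ℕ} (hij : i ≤ j) :
    (chainN T D hD hT i).1 ≤ (chainN T D hD hT j).1 := by
  induction hij with
  | refl => exact le_rfl
  | step _ ih => exact ih.trans (chainN_mono_succ hle _)

/-- `[N (i + 2 ^ t), X^(t)] ≤ N i`. -/
theorem comm_chainN (hle : D ≤ T) (t : ℕ) :
    ∀ i, ⁅(chainN T D hD hT (i + 2 ^ t)).1, dser (⊤ : Subgroup X) t⁆ ≤ (chainN T D hD hT i).1 := by
  induction t with
  | zero =>
    intro i
    rw [Subgroup.commutator_le]
    rintro x ⟨_, hx⟩ a _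
    exact hx a
  | succ t ih =>
    intro i
    set B := dser (⊤ : Subgroup X) t with hB
    set M := (chainN T D hD hT (i + 2 ^ (t + 1))).1 with hM
    have h1 : ⁅M, B⁆ ≤ (chainN T D hD hT (i + 2 ^ t)).1 := by
      have := ih (i + 2 ^ t)
      have e : i + 2 ^ t + 2 ^ t = i + 2 ^ (t + 1) := by rw [pow_succ]; ring
      rwa [e] at this
    have h2 : ⁅⁅M, B⁆, B⁆ ≤ (chainN T D hD hT i).1 :=
      (Subgroup.commutator_mono h1 le_rfl).trans (ih i)
    have h3 : ⁅⁅B, M⁆, B⁆ ≤ (chainN T D hD hT i).1 := by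
      rw [Subgroup.commutator_comm B M]
      exact h2
    have hN := (chainN T D hD hT i).2
    have hnorm : ∀ S : Subgroup X, S ≤ Subgroup.normalizer ((chainN T D hD hT i).1 : Set X) := by
      intro S
      rw [Subgroup.normalizer_eq_top_iff.2 hN]
      exact le_top
    have h4 := Cfsg.Agent.Lib.Coprime.Generation2.three_subgroups_rel B B M
      (chainN T D hD hT i).1 h3 h2 (hnorm _) (hnorm _) (hnorm _)
    rw [dser_succ, Subgroup.commutator_comm]
    exact h4

/-- If `T ≤ N (m + 2 ^ t - 1)` then `T^(t) ≤ N m`. -/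
theorem tser_le_chainN (hle : D ≤ T) (t : ℕ) :
    ∀ m, T ≤ (chainN T D hD hT (m + (2 ^ t - 1))).1 → tser (⊤ : Subgroup X) T t ≤ (chainN T D hD hT m).1 := by
  induction t with
  | zero =>
    intro m h
    simpa using h
  | succ t ih =>
    intro m h
    have h1 : tser (⊤ : Subgroup X) T t ≤ (chainN T D hD hT (m + 2 ^ t)).1 := by
      apply ih (m + 2 ^ t)
      have hp : 0 < 2 ^ t := by positivity
      have e : m + 2 ^ t + (2 ^ t - 1) = m + (2 ^ (t + 1) - 1) := by
        rw [pow_succ]; omega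
      rw [e]
      exact h
    exact (Subgroup.commutator_mono h1 le_rfl).trans (comm_chainN hle t m)

/-- A proper step of the chain at most... -/
theorem chainN_strict (h2 : IsPGroup 2 X) (hle : D ≤ T) (i : ℕ)
    (hi : (chainN T D hD hT i).1 ≠ T) :
    (chainN T D hD hT i).1 ≠ (chainN T D hD hT (i + 1)).1 := by
  haveI : Fact (Nat.Prime 2) := ⟨Nat.prime_two⟩
  set N := (chainN T D hD hT i).1 with hN'
  have hN : N.Normal := (chainN T D hD hT i).2
  haveI := hN
  haveI := hT
  let π := QuotientGroup.mk' N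
  have hmem : ∀ t, π t = 1 ↔ t ∈ N := fun t => by simp [π]
  have hsurj : Function.Surjective π := QuotientGroup.mk'_surjective N
  let Tb : Subgroup (X ⧸ N) := T.map π
  have hTb : Tb.Normal := Subgroup.Normal.map hT π hsurj
  haveI := hTb
  have hP : IsPGroup 2 (X ⧸ N) := h2.of_surjective π hsurj
  have hTb1 : Tb ≠ ⊥ := by
    intro hbot
    apply hi
    apply le_antisymm (chainN_le hle i)
    intro t ht
    have : π t ∈ Tb := Subgroup.mem_map_of_mem π ht
    rw [hbot] at this
    exact (hmem _).1 (by simpa using this)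
  -- the conjugation action on `Tb` has a nontrivial fixed point
  let act : (X ⧸ N) →* MulAut Tb := MulAut.conjNormal
  letI : MulAction (X ⧸ N) Tb := MulAction.compHom Tb act
  have hsmul : ∀ (v : X ⧸ N) (a : Tb), ((v • a : Tb) : X ⧸ N) = v * a * v⁻¹ := fun v a => rfl
  have hdvd : 2 ∣ Nat.card Tb := by
    have hTbP : IsPGroup 2 Tb := hP.to_subgroup Tb
    obtain ⟨⟨a, ha⟩, ha1⟩ := (Subgroup.ne_bot_iff_exists_ne_one).1 hTb1
    obtain ⟨k, hk⟩ := hTbP ⟨a, ha⟩
    have hk0 : k ≠ 0 := by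
      rintro rfl
      exact ha1 (by simpa using hk)
    have h3 : orderOf (⟨a, ha⟩ : Tb) ∣ 2 ^ k := orderOf_dvd_of_pow_eq_one hk
    obtain ⟨j, _, hj⟩ := (Nat.dvd_prime_pow Nat.prime_two).1 h3
    have hj0 : j ≠ 0 := by
      rintro rfl
      rw [pow_zero, orderOf_eq_one_iff] at hj
      exact ha1 hj
    have h4 : 2 ∣ orderOf (⟨a, ha⟩ : Tb) := by
      rw [hj]; exact dvd_pow_self 2 hj0
    exact h4.trans (orderOf_dvd_natCard _)
  have hfix : (1 : Tb) ∈ MulAction.fixedPoints (X ⧸ N) Tb := by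
    intro v
    ext
    rw [hsmul]
    simp
  obtain ⟨b, hb, hb1⟩ := hP.exists_fixed_point_of_prime_dvd_card_of_fixed_point Tb hdvd hfix
  obtain ⟨x, hx, hxb⟩ := b.2
  intro heq
  have hxN : x ∈ (chainN T D hD hT (i + 1)).1 := by
    refine ⟨hx, fun a => (hmem _).1 ?_⟩
    have h5 := congrArg Subtype.val (hb (π a))
    rw [hsmul, ← hxb] at h5
    have h6 : π a * π x = π x * π a := by
      calc π a * π x = (π a * π x * (π a)⁻¹) * π a := by group
        _ = π x * π a := by rw [h5]
    simp only [map_mul, map_inv]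
    rw [← h6]
    group
  rw [← heq] at hxN
  apply hb1
  apply Subtype.ext
  show (1 : X ⧸ N) = b.1
  rw [← hxb]
  exact ((hmem _).2 hxN).symm

theorem chainN_card (h2 : IsPGroup 2 X) (hle : D ≤ T) (k : ℕ)
    (hk : ∀ i < k, (chainN T D hD hT i).1 ≠ T) :
    2 ^ k * Nat.card D ≤ Nat.card (chainN T D hD hT k).1 := by
  induction k with
  | zero => simp [chainN]
  | succ k ih =>
    have h1 := ih (fun i hi => hk i (Nat.lt_succ_of_lt hi))
    have h3 := chainN_strict (hD := hD) (hT := hT) h2 hle k (hk k (Nat.lt_succ_self k))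
    have h4 := chainN_mono_succ (hD := hD) (hT := hT) hle k
    -- a proper subgroup has index at least two
    set A := (chainN T D hD hT k).1
    set B := (chainN T D hD hT (k + 1)).1
    have hc : Nat.card (A.subgroupOf B) = Nat.card A :=
      Nat.card_congr (Subgroup.subgroupOfEquivOfLe h4).toEquiv
    have h5 := Subgroup.card_mul_index (A.subgroupOf B)
    rw [hc] at h5
    have hB0 : Nat.card B ≠ 0 := Nat.card_pos.ne'
    have h6 : (A.subgroupOf B).index ≠ 1 := by
      intro hi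
      rw [Subgroup.index_eq_one, Subgroup.subgroupOf_eq_top] at hi
      exact h3 (le_antisymm h4 hi)
    have h7 : (A.subgroupOf B).index ≠ 0 := by
      intro hi
      rw [hi, mul_zero] at h5
      exact hB0 h5.symm
    have h8 : 2 ≤ (A.subgroupOf B).index := by omega
    calc 2 ^ (k + 1) * Nat.card D = (2 ^ k * Nat.card D) * 2 := by ring
      _ ≤ Nat.card A * (A.subgroupOf B).index := Nat.mul_le_mul h1 h8
      _ = Nat.card B := h5

theorem core (h2 : IsPGroup 2 X) (T D : Subgroup X) (hT : T.Normal) (hD : D.Normal) (hle : D ≤ T)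
    (r : ℕ) (hne : ¬ tser (⊤ : Subgroup X) T r ≤ D) : 2 ^ (2 ^ r) * Nat.card D ≤ Nat.card T := by
  have h1 : ¬ T ≤ (chainN T D hD hT (2 ^ r - 1)).1 := by
    intro h
    have := tser_le_chainN (hD := hD) (hT := hT) hle r 0 (by simpa using h)
    exact hne this
  have hk : ∀ i < 2 ^ r, (chainN T D hD hT i).1 ≠ T := by
    intro i hi heq
    apply h1
    have : (chainN T D hD hT i).1 ≤ (chainN T D hD hT (2 ^ r - 1)).1 :=
      chainN_mono hle (by omega)
    rwa [heq] at this
  refine (chainN_card h2 hle (2 ^ r) hk).trans ?_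
  exact Subgroup.card_le_of_le (chainN_le hle _)

end Core

variable {Γ : Type w} [Group Γ] [Finite Γ]

/-- **Size of a section.** -/
theorem two_pow_two_pow_le (A T D : Subgroup Γ) (h2 : IsPGroup 2 A) (hTA : T ≤ A)
    (hnT : A ≤ Subgroup.normalizer (T : Set Γ)) (hnD : A ≤ Subgroup.normalizer (D : Set Γ)) (hle : D ≤ T)
    (r : ℕ) (hne : ¬ tser A T r ≤ D) : 2 ^ (2 ^ r) * Nat.card D ≤ Nat.card T := by
  have hT' : (T.subgroupOf A).Normal := (Subgroup.normal_subgroupOf_iff_le_normalizer hTA).2 hnT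
  have hD' : (D.subgroupOf A).Normal :=
    (Subgroup.normal_subgroupOf_iff_le_normalizer (hle.trans hTA)).2 hnD
  have hle' : D.subgroupOf A ≤ T.subgroupOf A := fun x hx => hle hx
  have hne' : ¬ tser (⊤ : Subgroup A) (T.subgroupOf A) r ≤ D.subgroupOf A := by
    intro hh
    apply hne
    have h1 := tser_map A.subtype (⊤ : Subgroup A) (T.subgroupOf A) r
    have h3 : (⊤ : Subgroup A).map A.subtype = A := by
      rw [← MonoidHom.range_eq_map, Subgroup.range_subtype]
    rw [h3, Subgroup.map_subgroupOf_eq_of_le hTA] at h1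
    rw [← h1]
    have h4 := Subgroup.map_mono (f := A.subtype) hh
    rwa [Subgroup.map_subgroupOf_eq_of_le (hle.trans hTA)] at h4
  have := core h2 _ _ hT' hD' hle' r hne'
  have c1 : Nat.card (T.subgroupOf A) = Nat.card T :=
    Nat.card_congr (Subgroup.subgroupOfEquivOfLe hTA).toEquiv
  have c2 : Nat.card (D.subgroupOf A) = Nat.card D :=
    Nat.card_congr (Subgroup.subgroupOfEquivOfLe (hle.trans hTA)).toEquiv
  rwa [c1, c2] at this

end Cfsg.Agent.Lib.BryD.Dims
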