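/-
Bryukhanova's theorem, derived length version (forum topic bry-s4259).
MODULE N: the norm of an elementary abelian group acting on a `q`-group of class at most `2` is nonzero.
-/
import Cfsg.Agent.Lib.BryD.Basic

set_option autoImplicit false
set_option linter.unusedSectionVars false
set_option linter.style.haveILetI false

namespace Cfsg.Agent.Lib.BryD.Norm

open Module

universe u v w

section Abstract

variable {P : Type*} [Group P] [Finite P]

/-- The projection modulo the centre. -/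
noncomputable abbrev piZ (P : Type*) [Group P] : P →* P ⧸ Subgroup.center P := QuotientGroup.mk' _

theorem piZ_eq_one {x : P} : piZ P x = 1 ↔ x ∈ Subgroup.center P := by
  simp [piZ]

theorem piZ_comm (hc : ∀ a b c : P, (a * b * a⁻¹ * b⁻¹) * c = c * (a * b * a⁻¹ * b⁻¹))
    (a b : P) : piZ P a * piZ P b = piZ P b * piZ P a := by
  have h1 : piZ P (a * b * a⁻¹ * b⁻¹) = 1 := by
    rw [piZ_eq_one, Subgroup.mem_center_iff]
    intro g
    exact (hc a b g).symm
  simp only [map_mul, map_inv] at h1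
  calc piZ P a * piZ P b
      = (piZ P a * piZ P b * (piZ P a)⁻¹ * (piZ P b)⁻¹) * (piZ P b * piZ P a) := by group
    _ = piZ P b * piZ P a := by rw [h1, one_mul]

/-- In a group of odd order, `x ^ (2 n) = x` for a suitable `n`. -/
theorem exists_halving (hodd : Odd (Nat.card P)) : ∃ n : ℕ, ∀ x : P, x ^ (2 * n) = x := by
  obtain ⟨k, hk⟩ := hodd
  refine ⟨k + 1, fun x => ?_⟩
  have : 2 * (k + 1) = Nat.card P + 1 := by omega
  rw [this, pow_succ, pow_card_eq_one', one_mul]

theorem eq_one_of_mul_self (hodd : Odd (Nat.card P)) {x : P} (h : x * x = 1) : x = 1 := by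
  obtain ⟨n, hn⟩ := exists_halving hodd
  rw [← hn x, pow_mul, pow_two, h, one_pow]

variable (hodd : Odd (Nat.card P))
  (hc : ∀ a b c : P, (a * b * a⁻¹ * b⁻¹) * c = c * (a * b * a⁻¹ * b⁻¹))

theorem exists_halving_bar (hodd : Odd (Nat.card P)) :
    ∃ n : ℕ, (∀ x : P, x ^ (2 * n) = x) ∧ ∀ x : P, (piZ P x) ^ (2 * n) = piZ P x := by
  obtain ⟨n, hn⟩ := exists_halving hodd
  exact ⟨n, hn, fun x => by rw [← map_pow, hn]⟩

/-- A class-preserving involutive endomorphism fixing the centre fixes the element. -/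
theorem fix_of_bar (hodd : Odd (Nat.card P)) (μ : P →* P) (hμ2 : ∀ x, μ (μ x) = x)
    (hμZ : ∀ c ∈ Subgroup.center P, μ c = c) {x : P} (h : piZ P (μ x) = piZ P x) : μ x = x := by
  have hζ : x⁻¹ * μ x ∈ Subgroup.center P := by
    rw [← piZ_eq_one, map_mul, map_inv, h]
    group
  set ζ := x⁻¹ * μ x with hζdef
  have h1 : μ x = x * ζ := by rw [hζdef]; group
  have h2 : x = x * ζ * ζ := by
    calc x = μ (μ x) := (hμ2 x).symm
      _ = μ (x * ζ) := by rw [← h1]
      _ = μ x * μ ζ := map_mul _ _ _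
      _ = x * ζ * ζ := by rw [hμZ ζ hζ, h1]
  have h3 : ζ * ζ = 1 := by
    have : x * (ζ * ζ) = x * 1 := by rw [mul_one, ← mul_assoc]; exact h2.symm
    exact mul_left_cancel this
  rw [h1, eq_one_of_mul_self hodd h3, mul_one]

theorem bar_congr (μ : P →* P) (hμZ : ∀ c ∈ Subgroup.center P, μ c = c) {x y : P}
    (h : piZ P x = piZ P y) : piZ P (μ x) = piZ P (μ y) := by
  have hζ : x⁻¹ * y ∈ Subgroup.center P := by
    rw [← piZ_eq_one, map_mul, map_inv, h]
    group
  have h1 : y = x * (x⁻¹ * y) := by group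
  have h2 : piZ P (x⁻¹ * y) = 1 := piZ_eq_one.2 hζ
  calc piZ P (μ x) = piZ P (μ x) * piZ P (x⁻¹ * y) := by rw [h2, mul_one]
    _ = piZ P (μ x * (x⁻¹ * y)) := (map_mul _ _ _).symm
    _ = piZ P (μ x * μ (x⁻¹ * y)) := by rw [hμZ _ hζ]
    _ = piZ P (μ (x * (x⁻¹ * y))) := by rw [map_mul μ x (x⁻¹ * y)]
    _ = piZ P (μ y) := by rw [← h1]

/-- Every element is the product of a fixed element and an element inverted modulo the centre. -/
theorem decomp (hodd : Odd (Nat.card P))
    (hc : ∀ a b c : P, (a * b * a⁻¹ * b⁻¹) * c = c * (a * b * a⁻¹ * b⁻¹))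
    (τ : P →* P) (hτ2 : ∀ x, τ (τ x) = x) (hτZ : ∀ c ∈ Subgroup.center P, τ c = c) (r : P) :
    ∃ a b, r = a * b ∧ τ a = a ∧ piZ P (τ b) = (piZ P b)⁻¹ := by
  obtain ⟨n, hn, hnb⟩ := exists_halving_bar hodd
  have hcm := piZ_comm hc
  have hτr : τ (τ r) = r := hτ2 r
  set a₀ := (r * τ r) ^ n with ha₀
  set b₀ := (r * (τ r)⁻¹) ^ n with hb₀
  have h1 : τ a₀ = a₀ := by
    apply fix_of_bar hodd τ hτ2 hτZ
    rw [ha₀]
    simp only [map_pow, map_mul, hτr]
    rw [hcm (τ r) r]
  have h2 : piZ P (τ b₀) = (piZ P b₀)⁻¹ := by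
    rw [hb₀]
    simp only [map_pow, map_mul, map_inv, hτr]
    rw [← inv_pow]
    congr 1
    rw [mul_inv_rev, inv_inv]
  have h3 : piZ P (a₀ * b₀) = piZ P r := by
    rw [ha₀, hb₀]
    simp only [map_mul, map_pow, map_inv]
    have hcomm' : Commute (piZ P r * piZ P (τ r)) (piZ P r * (piZ P (τ r))⁻¹) := by
      show _ * _ = _ * _
      have h4 : ∀ a b : P ⧸ Subgroup.center P, a * b = b * a := by
        intro a b
        induction a using QuotientGroup.induction_on with
        | H a =>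
          induction b using QuotientGroup.induction_on with
          | H b => exact hcm a b
      exact h4 _ _
    rw [← hcomm'.mul_pow]
    have h5 : piZ P r * piZ P (τ r) * (piZ P r * (piZ P (τ r))⁻¹) = piZ P r ^ 2 := by
      calc piZ P r * piZ P (τ r) * (piZ P r * (piZ P (τ r))⁻¹)
          = piZ P r * (piZ P (τ r) * piZ P r) * (piZ P (τ r))⁻¹ := by group
        _ = piZ P r * (piZ P r * piZ P (τ r)) * (piZ P (τ r))⁻¹ := by rw [hcm (τ r) r]
        _ = piZ P r ^ 2 := by rw [pow_two]; group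
    rw [h5, ← pow_mul]
    exact hnb r
  have hζ : (a₀ * b₀)⁻¹ * r ∈ Subgroup.center P := by
    rw [← piZ_eq_one, map_mul, map_inv, h3]
    group
  set ζ := (a₀ * b₀)⁻¹ * r with hζdef
  have hζ1 : piZ P ζ = 1 := piZ_eq_one.2 hζ
  refine ⟨a₀, b₀ * ζ, ?_, h1, ?_⟩
  · rw [hζdef]; group
  · have h6 : piZ P (τ (b₀ * ζ)) = piZ P (τ b₀) * piZ P (τ ζ) := by
      rw [map_mul τ b₀ ζ, map_mul (piZ P)]
    rw [h6, hτZ ζ hζ, hζ1, mul_one, map_mul (piZ P) b₀ ζ, hζ1, mul_one, h2]

/-- The centre of the fixed points is the centre. -/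
theorem center_of_fix (hodd : Odd (Nat.card P))
    (hc : ∀ a b c : P, (a * b * a⁻¹ * b⁻¹) * c = c * (a * b * a⁻¹ * b⁻¹))
    (τ : P →* P) (hτ2 : ∀ x, τ (τ x) = x) (hτZ : ∀ c ∈ Subgroup.center P, τ c = c) {c : P}
    (hτc : τ c = c) (hcfix : ∀ a, τ a = a → c * a = a * c) : c ∈ Subgroup.center P := by
  rw [Subgroup.mem_center_iff]
  intro r
  obtain ⟨a, b, rfl, ha, hb⟩ := decomp hodd hc τ hτ2 hτZ r
  have hcb : c * b = b * c := by
    set d := c * b * c⁻¹ * b⁻¹ with hd
    have hdZ : d ∈ Subgroup.center P := by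
      rw [Subgroup.mem_center_iff]
      intro g
      exact (hc c b g).symm
    have hζ : τ b * b ∈ Subgroup.center P := by
      rw [← piZ_eq_one, map_mul, hb]
      group
    set ζ := τ b * b with hζdef
    have hB : τ b = ζ * b⁻¹ := by rw [hζdef]; group
    have hζc : ∀ g, g * ζ = ζ * g := Subgroup.mem_center_iff.1 hζ
    have hdc : ∀ g, g * d = d * g := Subgroup.mem_center_iff.1 hdZ
    have h1 : τ d = c * (ζ * b⁻¹) * c⁻¹ * (ζ * b⁻¹)⁻¹ := by
      rw [hd]
      simp only [map_mul, map_inv, hτc, hB]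
    have h2 : c * (ζ * b⁻¹) * c⁻¹ * (ζ * b⁻¹)⁻¹ = c * b⁻¹ * c⁻¹ * b := by
      calc c * (ζ * b⁻¹) * c⁻¹ * (ζ * b⁻¹)⁻¹
          = (c * ζ) * b⁻¹ * c⁻¹ * b * ζ⁻¹ := by group
        _ = ζ * (c * b⁻¹ * c⁻¹ * b) * ζ⁻¹ := by rw [hζc c]; group
        _ = (c * b⁻¹ * c⁻¹ * b) * ζ * ζ⁻¹ := by rw [hζc (c * b⁻¹ * c⁻¹ * b)]
        _ = c * b⁻¹ * c⁻¹ * b := by group
    have h3 : c * b⁻¹ * c⁻¹ * b = d⁻¹ := by
      have hdi : b⁻¹ * d⁻¹ = d⁻¹ * b⁻¹ := by
        have := hdc b⁻¹
        calc b⁻¹ * d⁻¹ = d⁻¹ * (d * b⁻¹) * d⁻¹ := by group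
          _ = d⁻¹ * (b⁻¹ * d) * d⁻¹ := by rw [this]
          _ = d⁻¹ * b⁻¹ := by group
      calc c * b⁻¹ * c⁻¹ * b = b⁻¹ * (b * c * b⁻¹ * c⁻¹) * b := by group
        _ = b⁻¹ * d⁻¹ * b := by rw [hd]; group
        _ = d⁻¹ * b⁻¹ * b := by rw [hdi]
        _ = d⁻¹ := by group
    have h4 : d = d⁻¹ := by
      rw [← h3, ← h2, ← h1, hτZ d hdZ]
    have h5 : d * d = 1 := by
      nth_rewrite 2 [h4]
      group
    have h6 : d = 1 := eq_one_of_mul_self hodd h5
    calc c * b = d * (b * c) := by rw [hd]; group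
      _ = b * c := by rw [h6, one_mul]
  calc a * b * c = a * (b * c) := by group
    _ = a * (c * b) := by rw [hcb]
    _ = (a * c) * b := by group
    _ = (c * a) * b := by rw [hcfix a ha]
    _ = c * (a * b) := by group

/-- Two commuting involutive automorphisms with the same fixed points agree. -/
theorem eq_of_fix_eq (hodd : Odd (Nat.card P))
    (hc : ∀ a b c : P, (a * b * a⁻¹ * b⁻¹) * c = c * (a * b * a⁻¹ * b⁻¹))
    (τ σ : P →* P) (hτ2 : ∀ x, τ (τ x) = x) (hσ2 : ∀ x, σ (σ x) = x)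
    (hτZ : ∀ c ∈ Subgroup.center P, τ c = c) (hσZ : ∀ c ∈ Subgroup.center P, σ c = c)
    (hcomm : ∀ x, τ (σ x) = σ (τ x)) (hfix : ∀ x, τ x = x ↔ σ x = x) (r : P) : τ r = σ r := by
  obtain ⟨n, hn, hnb⟩ := exists_halving_bar hodd
  have hcm := piZ_comm hc
  obtain ⟨a, b, hr, ha, hb⟩ := decomp hodd hc τ hτ2 hτZ r
  have hσa : σ a = a := (hfix a).1 ha
  have hσb : piZ P (σ b) = (piZ P b)⁻¹ := by
    set b₁ := (b * σ b) ^ n with hb₁
    have h1 : σ b₁ = b₁ := by
      apply fix_of_bar hodd σ hσ2 hσZ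
      rw [hb₁]
      simp only [map_pow, map_mul, hσ2]
      rw [hcm (σ b) b]
    have h2 : τ b₁ = b₁ := (hfix _).2 h1
    have h3 : piZ P (τ (σ b)) = (piZ P (σ b))⁻¹ := by
      rw [hcomm]
      have h4 : piZ P (τ b) = piZ P b⁻¹ := by rw [hb, map_inv]
      rw [bar_congr σ hσZ h4, map_inv σ, map_inv (piZ P)]
    have h5 : piZ P b₁ * piZ P b₁ = 1 := by
      have h6 : piZ P (τ b₁) = (piZ P b₁)⁻¹ := by
        rw [hb₁]
        simp only [map_pow, map_mul]
        rw [hb, h3, ← inv_pow]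
        congr 1
        rw [← mul_inv_rev, hcm]
      rw [h2] at h6
      nth_rewrite 2 [h6]
      group
    have h7 : piZ P b₁ = 1 := by
      have h8 := hnb b₁
      rw [pow_mul, pow_two, h5, one_pow] at h8
      exact h8.symm
    have h9 : piZ P (b * σ b) = 1 := by
      have h8 := hnb (b * σ b)
      rw [pow_mul', ← map_pow, ← hb₁, h7, one_pow] at h8
      exact h8.symm
    rw [map_mul] at h9
    exact eq_inv_of_mul_eq_one_right h9
  have h1 : piZ P (σ r) = piZ P (τ r) := by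
    rw [hr]
    simp only [map_mul]
    rw [hσa, ha, hσb, hb]
  let μ : P →* P := τ.comp σ
  have hμ2 : ∀ x, μ (μ x) = x := by
    intro x
    show τ (σ (τ (σ x))) = x
    rw [← hcomm (σ x), hτ2, hσ2]
  have hμZ : ∀ c ∈ Subgroup.center P, μ c = c := by
    intro c hc'
    show τ (σ c) = c
    rw [hσZ c hc', hτZ c hc']
  have h2 : piZ P (μ r) = piZ P r := by
    show piZ P (τ (σ r)) = piZ P r
    rw [bar_congr τ hτZ h1, hτ2]
  have h3 : τ (σ r) = r := fix_of_bar hodd μ hμ2 hμZ h2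
  have h4 := congrArg τ h3
  rw [hτ2] at h4
  exact h4.symm

end Abstract

variable {K : Type u} [Field K] [CharP K 2] {V : Type v} [AddCommGroup V] [Module K V]
  {Γ : Type w} [Group Γ]

section Complement

/-- An involution is its own inverse. -/
theorem inv_eq_self_of_mul_self {a : Γ} (h : a * a = 1) : a⁻¹ = a :=
  inv_eq_of_mul_eq_one_left h

theorem comm_of_mul_self {Y : Subgroup Γ} (hY2 : ∀ y ∈ Y, y * y = 1) {a b : Γ} (ha : a ∈ Y)
    (hb : b ∈ Y) : a * b = b * a := by
  have h1 := hY2 _ (Y.mul_mem ha hb)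
  have h2 := inv_eq_self_of_mul_self h1
  rw [mul_inv_rev, inv_eq_self_of_mul_self (hY2 a ha), inv_eq_self_of_mul_self (hY2 b hb)] at h2
  exact h2.symm

/-- A complement to an element in an elementary abelian group. -/
theorem exists_compl (Y : Subgroup Γ) [Finite Y] (hY2 : ∀ y ∈ Y, y * y = 1) {y : Γ} (hy1 : y ≠ 1) :
    ∃ H : Subgroup Γ, H ≤ Y ∧ y ∉ H ∧ ∀ g ∈ Y, g ∈ H ∨ ∃ h ∈ H, g = h * y := by
  classical
  let P : ℕ → Prop := fun k => ∃ H : Subgroup Γ, H ≤ Y ∧ y ∉ H ∧ Nat.card H = k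
  have hP1 : P (Nat.card (⊥ : Subgroup Γ)) :=
    ⟨⊥, bot_le, fun h => hy1 ((Subgroup.mem_bot).1 h), rfl⟩
  have hle1 : Nat.card (⊥ : Subgroup Γ) ≤ Nat.card Y := Subgroup.card_le_of_le bot_le
  obtain ⟨H, hHY, hyH, hcard⟩ : P (Nat.findGreatest P (Nat.card Y)) :=
    Nat.findGreatest_spec hle1 hP1
  refine ⟨H, hHY, hyH, fun g hg => ?_⟩
  by_cases hgH : g ∈ H
  · exact Or.inl hgH
  right
  have hcomm : ∀ {a b : Γ}, a ∈ Y → b ∈ Y → a * b = b * a := fun ha hb => comm_of_mul_self hY2 ha hb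
  let S : Subgroup Γ :=
    { carrier := {x | x ∈ H ∨ ∃ h ∈ H, x = h * g}
      one_mem' := Or.inl H.one_mem
      mul_mem' := by
        rintro a b (ha | ⟨a', ha', rfl⟩) (hb | ⟨b', hb', rfl⟩)
        · exact Or.inl (H.mul_mem ha hb)
        · exact Or.inr ⟨a * b', H.mul_mem ha hb', by group⟩
        · refine Or.inr ⟨a' * b, H.mul_mem ha' hb, ?_⟩
          rw [mul_assoc, mul_assoc, hcomm hg (hHY hb)]
        · refine Or.inl ?_
          have e : a' * g * (b' * g) = a' * b' * (g * g) := by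
            calc a' * g * (b' * g) = a' * (g * b') * g := by group
              _ = a' * (b' * g) * g := by rw [hcomm hg (hHY hb')]
              _ = a' * b' * (g * g) := by group
          rw [e, hY2 g hg, mul_one]
          exact H.mul_mem ha' hb'
      inv_mem' := by
        rintro a (ha | ⟨a', ha', rfl⟩)
        · exact Or.inl (H.inv_mem ha)
        · refine Or.inr ⟨a', ha', ?_⟩
          rw [inv_eq_self_of_mul_self (hY2 _ (Y.mul_mem (hHY ha') hg))] }
  have hSY : S ≤ Y := by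
    rintro a (ha | ⟨a', ha', rfl⟩)
    · exact hHY ha
    · exact Y.mul_mem (hHY ha') hg
  have hHS : H ≤ S := fun a ha => Or.inl ha
  have hyS : y ∈ S := by
    by_contra hyS
    have h1 : Nat.card S ≤ Nat.findGreatest P (Nat.card Y) :=
      Nat.le_findGreatest (Subgroup.card_le_of_le hSY) ⟨S, hSY, hyS, rfl⟩
    rw [← hcard] at h1
    haveI : Finite S := Finite.of_injective (Subgroup.inclusion hSY) (Subgroup.inclusion_injective hSY)
    have h2 := Subgroup.eq_of_le_of_card_ge hHS h1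
    apply hgH
    rw [h2]
    exact Or.inr ⟨1, H.one_mem, by simp⟩
  rcases hyS with h1 | ⟨h, hh, rfl⟩
  · exact absurd h1 hyH
  · refine ⟨h⁻¹, H.inv_mem hh, ?_⟩
    group

/-- Splitting a sum over `Y = H ∪ H y`. -/
theorem sum_split {A : Type*} [AddCommMonoid A] (Y H : Subgroup Γ) [Fintype Y] [Fintype H]
    (hHY : H ≤ Y) {y : Γ} (hy : y ∈ Y) (hyH : y ∉ H) (hYc : ∀ g ∈ Y, g ∈ H ∨ ∃ h ∈ H, g = h * y)
    (f : Γ → A) : ∑ g : Y, f g = ∑ h : H, (f h + f (h * y)) := by
  let φ : H × Bool → Y := fun p =>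
    if p.2 then ⟨p.1 * y, Y.mul_mem (hHY p.1.2) hy⟩ else ⟨p.1, hHY p.1.2⟩
  have hφ : Function.Bijective φ := by
    constructor
    · rintro ⟨a, b⟩ ⟨c, d⟩ h
      cases b <;> cases d <;> simp only [φ, Bool.false_eq_true, if_false, if_true,
        Subtype.mk.injEq] at h
      · have : a = c := Subtype.ext h
        rw [this]
      · exfalso
        apply hyH
        have : y = (c : Γ)⁻¹ * a := by rw [h]; group
        rw [this]
        exact H.mul_mem (H.inv_mem c.2) a.2
      · exfalso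
        apply hyH
        have : y = (a : Γ)⁻¹ * c := by rw [← h]; group
        rw [this]
        exact H.mul_mem (H.inv_mem a.2) c.2
      · have : a = c := Subtype.ext (mul_right_cancel h)
        rw [this]
    · rintro ⟨g, hg⟩
      rcases hYc g hg with h1 | ⟨h, hh, rfl⟩
      · exact ⟨(⟨g, h1⟩, false), by simp [φ]⟩
      · exact ⟨(⟨h, hh⟩, true), by simp [φ]⟩
  rw [← hφ.sum_comp (fun g : Y => f g), Fintype.sum_prod_type]
  refine Finset.sum_congr rfl fun h _ => ?_
  rw [Fintype.sum_bool]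
  simp [φ, add_comm]

end Complement

section Conj

/-- Conjugation by an involution normalizing `R`. -/
def conjR (R : Subgroup Γ) (y : Γ) (hyR : ∀ r ∈ R, y * r * y⁻¹ ∈ R) : ↥R →* ↥R where
  toFun r := ⟨y * r * y⁻¹, hyR r r.2⟩
  map_one' := by ext; simp
  map_mul' a b := by ext; simp only [Subgroup.coe_mul]; group

theorem conjR_coe (R : Subgroup Γ) (y : Γ) (hyR : ∀ r ∈ R, y * r * y⁻¹ ∈ R) (r : R) :
    (conjR R y hyR r : Γ) = y * r * y⁻¹ := rfl

theorem conjR_invol (R : Subgroup Γ) (y : Γ) (hyR : ∀ r ∈ R, y * r * y⁻¹ ∈ R) (hy : y * y = 1)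
    (r : R) : conjR R y hyR (conjR R y hyR r) = r := by
  ext
  simp only [conjR_coe]
  rw [inv_eq_self_of_mul_self hy]
  calc y * (y * (r : Γ) * y) * y = (y * y) * r * (y * y) := by group
    _ = r := by rw [hy]; group

theorem conjR_fix_iff (R : Subgroup Γ) (y : Γ) (hyR : ∀ r ∈ R, y * r * y⁻¹ ∈ R) (r : R) :
    conjR R y hyR r = r ↔ y * (r : Γ) = r * y := by
  rw [Subtype.ext_iff, conjR_coe]
  constructor
  · intro h
    calc y * (r : Γ) = (y * r * y⁻¹) * y := by group
      _ = r * y := by rw [h]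
  · intro h
    rw [h]
    group

end Conj

section Main

variable (ρ : Γ →* End K V)

omit [CharP K 2] in
theorem neg_eq_self_char2 (K : Type u) [Field K] [CharP K 2] {V : Type v} [AddCommGroup V]
    [Module K V] (x : V) : -x = x := by
  have h : (2 : K) = 0 := by
    have := CharP.cast_eq_zero K 2
    simpa using this
  have h1 : x + x = 0 := by
    rw [← two_smul K x, h, zero_smul]
  exact neg_eq_of_add_eq_zero_right h1

theorem rho_inv_apply (g : Γ) (x : V) : ρ g⁻¹ (ρ g x) = x := by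
  have : ρ g⁻¹ * ρ g = 1 := by rw [← map_mul]; simp
  exact LinearMap.congr_fun this x

theorem rho_apply_inv (g : Γ) (x : V) : ρ g (ρ g⁻¹ x) = x := by
  have : ρ g * ρ g⁻¹ = 1 := by rw [← map_mul]; simp
  exact LinearMap.congr_fun this x

theorem rho_mul_apply (a b : Γ) (x : V) : ρ (a * b) x = ρ a (ρ b x) := by
  rw [map_mul]; rfl

/-- The induction. -/
theorem norm_aux {q : ℕ} [Fact q.Prime] (hq : q ≠ 2) (n : ℕ) :
    ∀ (R Y : Subgroup Γ) [Finite R] [Fintype Y], Nat.card Y ≤ n → IsPGroup q R →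
    (∀ a ∈ R, ∀ b ∈ R, ∀ c ∈ R, (a * b * a⁻¹ * b⁻¹) * c = c * (a * b * a⁻¹ * b⁻¹)) →
    (∀ y ∈ Y, y * y = 1) →
    (∀ y ∈ Y, ∀ r ∈ R, y * r * y⁻¹ ∈ R) →
    ∀ (U : Submodule K V), U ≠ ⊥ →
    (∀ r ∈ R, ∀ u ∈ U, ρ r u ∈ U) → (∀ y ∈ Y, ∀ u ∈ U, ρ y u ∈ U) →
    (∀ r ∈ R, (∀ u ∈ U, ρ r u = u) → r = 1) →
    (∀ c ∈ R, (∀ r ∈ R, c * r = r * c) → ∃ l : K, ∀ u ∈ U, ρ c u = l • u) →
    (∀ y ∈ Y, (∀ r ∈ R, y * r = r * y) → y = 1) →
    ∃ u ∈ U, ∑ y : Y, ρ y.1 u ≠ 0 := by
  classical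
  induction n with
  | zero =>
    intro R Y _ _ hn
    have : 0 < Nat.card Y := Nat.card_pos
    omega
  | succ n ih =>
    intro R Y _ _ hn hRq hRc hY2 hYR U hU hUR hUY hfR hscal hfY
    by_cases hY1 : ∀ y ∈ Y, y = 1
    · -- trivial group
      obtain ⟨u, hu, hu0⟩ := Submodule.exists_mem_ne_zero_of_ne_bot hU
      refine ⟨u, hu, ?_⟩
      have h1 : ∑ y : Y, ρ y.1 u = ρ (1 : Y).1 u :=
        Fintype.sum_eq_single (1 : Y) (fun x hx => absurd (Subtype.ext (hY1 x x.2)) hx)
      rw [h1]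
      simpa using hu0
    push Not at hY1
    -- the abstract set-up
    have hodd : Odd (Nat.card R) := by
      obtain ⟨k, hk⟩ := IsPGroup.iff_card.1 hRq
      rw [hk]
      exact ((Fact.out : q.Prime).odd_of_ne_two hq).pow
    have hc' : ∀ a b c : R, (a * b * a⁻¹ * b⁻¹) * c = c * (a * b * a⁻¹ * b⁻¹) := by
      intro a b c
      ext
      exact hRc a a.2 b b.2 c c.2
    -- `Y` centralizes the centre of `R`
    have hZ : ∀ y (hy : y ∈ Y), ∀ c ∈ Subgroup.center R, conjR R y (hYR y hy) c = c := by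
      intro y hy c hc
      have hcR : ∀ r ∈ R, (c : Γ) * r = r * c := by
        intro r hr
        have := Subgroup.mem_center_iff.1 hc ⟨r, hr⟩
        exact (congrArg Subtype.val this).symm
      obtain ⟨l, hl⟩ := hscal c c.2 hcR
      have hd : (c : Γ)⁻¹ * (y * c * y⁻¹) = 1 := by
        apply hfR _ (R.mul_mem (R.inv_mem c.2) (hYR y hy c c.2))
        intro u hu
        have hyi : y⁻¹ ∈ Y := Y.inv_mem hy
        have hu1 : ρ y⁻¹ u ∈ U := hUY _ hyi u hu
        rw [rho_mul_apply, rho_mul_apply, rho_mul_apply, hl _ hu1, map_smul, rho_apply_inv,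
          ← hl u hu, rho_inv_apply]
      ext
      rw [conjR_coe]
      exact (inv_mul_eq_one.1 hd).symm
    -- choice of `y`
    let T := {t : Y // (t : Γ) ≠ 1}
    obtain ⟨y₀, hy₀, hy₀1⟩ := hY1
    haveI : Nonempty T := ⟨⟨⟨y₀, hy₀⟩, hy₀1⟩⟩
    let cen : Γ → Subgroup Γ := fun y => R ⊓ Subgroup.centralizer {y}
    obtain ⟨⟨⟨y, hy⟩, hy1⟩, hmax⟩ := Finite.exists_max (fun t : T => Nat.card (cen (t.1 : Γ)))
    simp only at hy1 hmax
    have hyy : y * y = 1 := hY2 y hy
    have hcm : ∀ {a b : Γ}, a ∈ Y → b ∈ Y → a * b = b * a := fun ha hb =>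
      comm_of_mul_self hY2 ha hb
    obtain ⟨H, hHY, hyH, hYc⟩ := exists_compl Y hY2 hy1
    haveI : Finite H := Finite.of_injective (Subgroup.inclusion hHY) (Subgroup.inclusion_injective hHY)
    letI : Fintype H := Fintype.ofFinite H
    -- the new data
    let R' := cen y
    have hR'R : R' ≤ R := inf_le_left
    have hmemR' : ∀ {r : Γ}, r ∈ R' ↔ r ∈ R ∧ r * y = y * r := by
      intro r
      show r ∈ R ⊓ Subgroup.centralizer {y} ↔ _
      rw [Subgroup.mem_inf, Subgroup.mem_centralizer_singleton_iff]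
    haveI : Finite R' := Finite.of_injective (Subgroup.inclusion hR'R) (Subgroup.inclusion_injective hR'R)
    let U' : Submodule K V := U.map (ρ y - 1)
    have hU'U : U' ≤ U := by
      rintro _ ⟨u, hu, rfl⟩
      show ρ y u - u ∈ U
      exact U.sub_mem (hUY y hy u hu) hu
    have hU'0 : U' ≠ ⊥ := by
      intro hbot
      have hfix : ∀ u ∈ U, ρ y u = u := by
        intro u hu
        have : (ρ y - 1) u ∈ U' := ⟨u, hu, rfl⟩
        rw [hbot] at this
        have h2 : ρ y u - u = 0 := (Submodule.mem_bot K).1 this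
        exact sub_eq_zero.1 h2
      apply hy1
      apply hfY y hy
      intro r hr
      have h1 : y * r * y⁻¹ * r⁻¹ = 1 := by
        apply hfR _ (R.mul_mem (hYR y hy r hr) (R.inv_mem hr))
        intro u hu
        have hu1 : ρ r⁻¹ u ∈ U := hUR _ (R.inv_mem hr) u hu
        rw [inv_eq_self_of_mul_self hyy, rho_mul_apply, rho_mul_apply, rho_mul_apply, hfix _ hu1,
          hfix, rho_apply_inv]
        exact hUR r hr _ hu1
      calc y * r = (y * r * y⁻¹ * r⁻¹) * (r * y) := by group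
        _ = r * y := by rw [h1, one_mul]
    have hcomm_rho : ∀ {g : Γ}, g * y = y * g → ∀ u, ρ g ((ρ y - 1) u) = (ρ y - 1) (ρ g u) := by
      intro g hg u
      simp only [LinearMap.sub_apply, Module.End.one_apply, map_sub]
      rw [← rho_mul_apply, ← rho_mul_apply, hg]
    have hUR' : ∀ r ∈ R', ∀ u ∈ U', ρ r u ∈ U' := by
      rintro r hr _ ⟨u, hu, rfl⟩
      have h1 := hmemR'.1 hr
      refine ⟨ρ r u, hUR r h1.1 u hu, ?_⟩
      exact (hcomm_rho h1.2 u).symm
    have hUY' : ∀ h ∈ H, ∀ u ∈ U', ρ h u ∈ U' := by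
      rintro h hh _ ⟨u, hu, rfl⟩
      refine ⟨ρ h u, hUY h (hHY hh) u hu, ?_⟩
      exact (hcomm_rho (hcm (hHY hh) hy) u).symm
    -- central elements of `R'`
    have hcen : ∀ c ∈ R', (∀ r ∈ R', c * r = r * c) → ∀ r ∈ R, c * r = r * c := by
      intro c hc hcr r hr
      have h1 := hmemR'.1 hc
      have h2 : (⟨c, h1.1⟩ : R) ∈ Subgroup.center R := by
        apply center_of_fix hodd hc' (conjR R y (hYR y hy)) (conjR_invol R y _ hyy) (hZ y hy)
        · rw [conjR_fix_iff]
          exact h1.2.symm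
        · intro a ha
          rw [conjR_fix_iff] at ha
          ext
          exact hcr a (hmemR'.2 ⟨a.2, ha.symm⟩)
      have := Subgroup.mem_center_iff.1 h2 ⟨r, hr⟩
      exact (congrArg Subtype.val this).symm
    -- a central element trivial on `U'` is trivial
    have hcentriv : ∀ c ∈ R, (∀ r ∈ R, c * r = r * c) → (∀ u ∈ U', ρ c u = u) → c = 1 := by
      intro c hc hcr htr
      obtain ⟨l, hl⟩ := hscal c hc hcr
      obtain ⟨u', hu', hu'0⟩ := Submodule.exists_mem_ne_zero_of_ne_bot hU'0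
      have h1 : l • u' = u' := by
        rw [← hl u' (hU'U hu')]
        exact htr u' hu'
      have h2 : (l - 1) • u' = 0 := by
        rw [sub_smul, one_smul, h1, sub_self]
      have h3 : l = 1 := by
        rcases smul_eq_zero.1 h2 with h4 | h4
        · exact sub_eq_zero.1 h4
        · exact absurd h4 hu'0
      apply hfR c hc
      intro u hu
      rw [hl u hu, h3, one_smul]
    have hfR' : ∀ r ∈ R', (∀ u ∈ U', ρ r u = u) → r = 1 := by
      intro r hr htr
      have hrR := (hmemR'.1 hr).1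
      by_cases hrc : ∀ s ∈ R', r * s = s * r
      · exact hcentriv r hrR (hcen r hr hrc) htr
      · push Not at hrc
        obtain ⟨s, hs, hsr⟩ := hrc
        exfalso
        apply hsr
        have hsR := (hmemR'.1 hs).1
        have h1 : r * s * r⁻¹ * s⁻¹ = 1 := by
          apply hcentriv _ (R.mul_mem (R.mul_mem (R.mul_mem hrR hsR) (R.inv_mem hrR)) (R.inv_mem hsR))
          · intro t ht
            exact hRc r hrR s hsR t ht
          · intro u hu
            have hu1 : ρ s⁻¹ u ∈ U' := hUR' _ (R'.inv_mem hs) u hu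
            have hri : ρ r⁻¹ (ρ s⁻¹ u) = ρ s⁻¹ u := by
              conv_lhs => rw [← htr _ hu1]
              exact rho_inv_apply ρ r _
            rw [rho_mul_apply, rho_mul_apply, rho_mul_apply, hri, rho_apply_inv]
            exact htr u hu
        calc r * s = (r * s * r⁻¹ * s⁻¹) * (s * r) := by group
          _ = s * r := by rw [h1, one_mul]
    have hscal' : ∀ c ∈ R', (∀ r ∈ R', c * r = r * c) → ∃ l : K, ∀ u ∈ U', ρ c u = l • u := by
      intro c hc hcr
      obtain ⟨l, hl⟩ := hscal c (hmemR'.1 hc).1 (hcen c hc hcr)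
      exact ⟨l, fun u hu => hl u (hU'U hu)⟩
    have hfY' : ∀ h ∈ H, (∀ r ∈ R', h * r = r * h) → h = 1 := by
      intro h hh hcr
      by_contra hh1
      have hhY := hHY hh
      have h1 : R' ≤ cen h := by
        intro r hr
        refine ⟨(hmemR'.1 hr).1, ?_⟩
        show r ∈ Subgroup.centralizer ({h} : Set Γ)
        rw [Subgroup.mem_centralizer_singleton_iff]
        exact (hcr r hr).symm
      have h2 : Nat.card (cen h) ≤ Nat.card R' :=
        hmax ⟨⟨h, hhY⟩, hh1⟩
      haveI : Finite (cen h) := Finite.of_injective (Subgroup.inclusion (inf_le_left : cen h ≤ R))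
        (Subgroup.inclusion_injective _)
      have h3 : R' = cen h := Subgroup.eq_of_le_of_card_ge h1 h2
      have hfix : ∀ x : R, conjR R y (hYR y hy) x = x ↔ conjR R h (hYR h hhY) x = x := by
        intro x
        rw [conjR_fix_iff, conjR_fix_iff]
        have hyx : y * (x : Γ) = x * y ↔ (x : Γ) ∈ R' := by
          rw [hmemR']
          exact ⟨fun e => ⟨x.2, e.symm⟩, fun e => e.2.symm⟩
        have hhx : h * (x : Γ) = x * h ↔ (x : Γ) ∈ cen h := by
          show _ ↔ (x : Γ) ∈ R ⊓ Subgroup.centralizer {h}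
          rw [Subgroup.mem_inf, Subgroup.mem_centralizer_singleton_iff]
          exact ⟨fun e => ⟨x.2, e.symm⟩, fun e => e.2.symm⟩
        rw [hyx, hhx, h3]
      have hcomm2 : ∀ x : R, conjR R y (hYR y hy) (conjR R h (hYR h hhY) x)
          = conjR R h (hYR h hhY) (conjR R y (hYR y hy) x) := by
        intro x
        ext
        simp only [conjR_coe]
        have e1 : y * h = h * y := hcm hy hhY
        calc y * (h * (x : Γ) * h⁻¹) * y⁻¹ = (y * h) * x * (y * h)⁻¹ := by group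
          _ = (h * y) * x * (h * y)⁻¹ := by rw [e1]
          _ = h * (y * (x : Γ) * y⁻¹) * h⁻¹ := by group
      have h4 := eq_of_fix_eq hodd hc' (conjR R y (hYR y hy)) (conjR R h (hYR h hhY))
        (conjR_invol R y _ hyy) (conjR_invol R h _ (hY2 h hhY)) (hZ y hy) (hZ h hhY) hcomm2 hfix
      have h5 : h * y = 1 := by
        apply hfY _ (Y.mul_mem hhY hy)
        intro r hr
        have h6 := congrArg Subtype.val (h4 ⟨r, hr⟩)
        simp only [conjR_coe] at h6
        rw [inv_eq_self_of_mul_self hyy, inv_eq_self_of_mul_self (hY2 h hhY)] at h6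
        calc h * y * r = h * (y * r * y) * y := by
              have e : h * (y * r * y) * y = h * y * r * (y * y) := by group
              rw [e, hyy, mul_one]
          _ = h * (h * r * h) * y := by rw [h6]
          _ = (h * h) * r * (h * y) := by group
          _ = r * (h * y) := by rw [hY2 h hhY]; group
      apply hyH
      have : y = h⁻¹ := eq_inv_of_mul_eq_one_right h5
      rw [this]
      exact H.inv_mem hh
    -- apply the induction
    have hcardH : Nat.card H ≤ n := by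
      have h1 : H ≠ Y := fun e => hyH (e ▸ hy)
      have h2 : Nat.card H < Nat.card Y := by
        by_contra hlt
        exact h1 (Subgroup.eq_of_le_of_card_ge hHY (not_lt.1 hlt))
      omega
    obtain ⟨u', ⟨u, hu, rfl⟩, hne⟩ := ih R' H hcardH (hRq.to_le hR'R)
      (fun a ha b hb c hc => hRc a (hR'R ha) b (hR'R hb) c (hR'R hc))
      (fun h hh => hY2 h (hHY hh))
      (fun h hh r hr => by
        have h1 := hmemR'.1 hr
        refine hmemR'.2 ⟨hYR h (hHY hh) r h1.1, ?_⟩
        have e1 : h * y = y * h := hcm (hHY hh) hy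
        have e2 : h⁻¹ * y = y * h⁻¹ := by
          calc h⁻¹ * y = h⁻¹ * (y * h) * h⁻¹ := by group
            _ = h⁻¹ * (h * y) * h⁻¹ := by rw [e1]
            _ = y * h⁻¹ := by group
        calc h * r * h⁻¹ * y = h * r * (h⁻¹ * y) := by group
          _ = h * r * (y * h⁻¹) := by rw [e2]
          _ = h * (r * y) * h⁻¹ := by group
          _ = h * (y * r) * h⁻¹ := by rw [h1.2]
          _ = (h * y) * r * h⁻¹ := by group
          _ = (y * h) * r * h⁻¹ := by rw [e1]
          _ = y * (h * r * h⁻¹) := by group)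
      U' hU'0 hUR' hUY' hfR' hscal' hfY'
    refine ⟨u, hu, ?_⟩
    rw [sum_split Y H hHY hy hyH hYc (fun g => ρ g u)]
    intro hzero
    apply hne
    rw [← hzero]
    refine Finset.sum_congr rfl fun h _ => ?_
    show ρ h.1 ((ρ y - 1) u) = ρ h.1 u + ρ (h.1 * y) u
    simp only [LinearMap.sub_apply, Module.End.one_apply, map_sub]
    rw [rho_mul_apply, sub_eq_add_neg, neg_eq_self_char2 K, add_comm]

/-- **Norm lemma.** -/
theorem norm_ne_zero (ρ : Γ →* End K V) {q : ℕ} [Fact q.Prime] (hq : q ≠ 2)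
    (R Y : Subgroup Γ) [Finite R] [Fintype Y] (hRq : IsPGroup q R)
    (hRc : ∀ a ∈ R, ∀ b ∈ R, ∀ c ∈ R, (a * b * a⁻¹ * b⁻¹) * c = c * (a * b * a⁻¹ * b⁻¹))
    (hY2 : ∀ y ∈ Y, y * y = 1)
    (hYR : ∀ y ∈ Y, ∀ r ∈ R, y * r * y⁻¹ ∈ R)
    (U : Submodule K V) (hU : U ≠ ⊥)
    (hUR : ∀ r ∈ R, ∀ u ∈ U, ρ r u ∈ U) (hUY : ∀ y ∈ Y, ∀ u ∈ U, ρ y u ∈ U)
    (hfR : ∀ r ∈ R, (∀ u ∈ U, ρ r u = u) → r = 1)
    (hscal : ∀ c ∈ R, (∀ r ∈ R, c * r = r * c) → ∃ l : K, ∀ u ∈ U, ρ c u = l • u)
    (hfY : ∀ y ∈ Y, (∀ r ∈ R, y * r = r * y) → y = 1) :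
    ∃ u ∈ U, ∑ y : Y, ρ y.1 u ≠ 0 :=
  norm_aux ρ hq (Nat.card Y) R Y le_rfl hRq hRc hY2 hYR U hU hUR hUY hfR hscal hfY

/-- Independence of a list of elements. -/
def LIndep : List Γ → Prop
  | [] => True
  | g :: L => g ∉ Subgroup.closure {x | x ∈ L} ∧ LIndep L

end Main

section ListClosure

/-- Adjoining a commuting involution to a subgroup. -/
theorem adjoin_mem (H : Subgroup Γ) {g : Γ} (hg2 : g * g = 1) (hc : ∀ h ∈ H, g * h = h * g)
    {S : Set Γ} (hS : ∀ x ∈ S, x ∈ H ∨ x = g) {z : Γ} (hz : z ∈ Subgroup.closure S) :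
    z ∈ H ∨ ∃ h ∈ H, z = h * g := by
  let A : Subgroup Γ :=
    { carrier := {x | x ∈ H ∨ ∃ h ∈ H, x = h * g}
      one_mem' := Or.inl H.one_mem
      mul_mem' := by
        rintro a b (ha | ⟨a', ha', rfl⟩) (hb | ⟨b', hb', rfl⟩)
        · exact Or.inl (H.mul_mem ha hb)
        · exact Or.inr ⟨a * b', H.mul_mem ha hb', by group⟩
        · refine Or.inr ⟨a' * b, H.mul_mem ha' hb, ?_⟩
          rw [mul_assoc, mul_assoc, hc b hb]
        · refine Or.inl ?_
          have e : a' * g * (b' * g) = a' * b' * (g * g) := by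
            calc a' * g * (b' * g) = a' * (g * b') * g := by group
              _ = a' * (b' * g) * g := by rw [hc b' hb']
              _ = a' * b' * (g * g) := by group
          rw [e, hg2, mul_one]
          exact H.mul_mem ha' hb'
      inv_mem' := by
        rintro a (ha | ⟨a', ha', rfl⟩)
        · exact Or.inl (H.inv_mem ha)
        · refine Or.inr ⟨a'⁻¹, H.inv_mem ha', ?_⟩
          rw [mul_inv_rev, inv_eq_of_mul_eq_one_left hg2, hc _ (H.inv_mem ha')] }
  have hle : Subgroup.closure S ≤ A := by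
    rw [Subgroup.closure_le]
    intro x hx
    rcases hS x hx with h1 | h1
    · exact Or.inl h1
    · exact Or.inr ⟨1, H.one_mem, by rw [h1, one_mul]⟩
  exact hle hz

/-- The subgroup generated by a list. -/
abbrev lc (L : List Γ) : Subgroup Γ := Subgroup.closure {x | x ∈ L}

theorem comm_lc {g : Γ} {L : List Γ} (h : ∀ x ∈ L, Commute g x) : ∀ z ∈ lc L, g * z = z * g := by
  have hle : lc L ≤ Subgroup.centralizer {g} := by
    rw [Subgroup.closure_le]
    intro x hx
    show x ∈ Subgroup.centralizer ({g} : Set Γ)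
    rw [Subgroup.mem_centralizer_singleton_iff]
    exact (h x hx).symm
  intro z hz
  have := hle hz
  rw [Subgroup.mem_centralizer_singleton_iff] at this
  exact this.symm

theorem lc_cons_mem {g : Γ} {L : List Γ} (hg2 : g * g = 1) (h : ∀ x ∈ L, Commute g x) {z : Γ}
    (hz : z ∈ lc (g :: L)) : z ∈ lc L ∨ ∃ y ∈ lc L, z = y * g := by
  refine adjoin_mem (lc L) hg2 (comm_lc h) ?_ hz
  intro x hx
  rcases List.mem_cons.1 hx with h1 | h1
  · exact Or.inr h1
  · exact Or.inl (Subgroup.subset_closure h1)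

theorem lc_le_cons (g : Γ) (L : List Γ) : lc L ≤ lc (g :: L) :=
  Subgroup.closure_mono fun _ hx => List.mem_cons_of_mem _ hx

theorem mem_lc_cons (g : Γ) (L : List Γ) : g ∈ lc (g :: L) :=
  Subgroup.subset_closure (List.mem_cons_self ..)

theorem lc_facts (L : List Γ) (hL2 : ∀ g ∈ L, g * g = 1) (hLc : L.Pairwise Commute) :
    (∀ x ∈ lc L, x * x = 1) ∧ ∀ a ∈ lc L, ∀ b ∈ lc L, a * b = b * a := by
  induction L with
  | nil =>
    have hbot : lc ([] : List Γ) = ⊥ := by simp [lc]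
    rw [hbot]
    constructor
    · intro x hx
      rw [Subgroup.mem_bot.1 hx, one_mul]
    · intro a ha b hb
      rw [Subgroup.mem_bot.1 ha, Subgroup.mem_bot.1 hb]
  | cons g L ih =>
    rw [List.pairwise_cons] at hLc
    obtain ⟨ih1, ih2⟩ := ih (fun x hx => hL2 x (List.mem_cons_of_mem _ hx)) hLc.2
    have hg2 := hL2 g (List.mem_cons_self ..)
    have hcg := comm_lc hLc.1
    constructor
    · intro x hx
      rcases lc_cons_mem hg2 hLc.1 hx with h1 | ⟨y, hy, rfl⟩
      · exact ih1 x h1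
      · calc y * g * (y * g) = y * (g * y) * g := by group
          _ = y * (y * g) * g := by rw [hcg y hy]
          _ = (y * y) * (g * g) := by group
          _ = 1 := by rw [ih1 y hy, hg2, one_mul]
    · intro a ha b hb
      rcases lc_cons_mem hg2 hLc.1 ha with h1 | ⟨y, hy, rfl⟩ <;>
        rcases lc_cons_mem hg2 hLc.1 hb with h2 | ⟨w, hw, rfl⟩
      · exact ih2 a h1 b h2
      · calc a * (w * g) = (a * w) * g := by group
          _ = (w * a) * g := by rw [ih2 a h1 w hw]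
          _ = w * (a * g) := by group
          _ = w * (g * a) := by rw [hcg a h1]
          _ = w * g * a := by group
      · calc y * g * b = y * (g * b) := by group
          _ = y * (b * g) := by rw [hcg b h2]
          _ = (y * b) * g := by group
          _ = (b * y) * g := by rw [ih2 y hy b h2]
          _ = b * (y * g) := by group
      · calc y * g * (w * g) = y * (g * w) * g := by group
          _ = y * (w * g) * g := by rw [hcg w hw]
          _ = (y * w) * (g * g) := by group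
          _ = (w * y) * (g * g) := by rw [ih2 y hy w hw]
          _ = w * (y * g) * g := by group
          _ = w * (g * y) * g := by rw [hcg y hy]
          _ = w * g * (y * g) := by group

variable (ρ : Γ →* End K V)

/-- The sum over the generated subgroup is the product. -/
theorem sum_lc (Y₀ : Subgroup Γ) [Finite Y₀] (L : List Γ) (hL : ∀ g ∈ L, g ∈ Y₀)
    (hL2 : ∀ g ∈ L, g * g = 1) (hLc : L.Pairwise Commute) (hLi : LIndep L) :
    ∀ [Fintype (lc L)], ∑ y : lc L, ρ y.1 = (L.map (fun g => ρ g - 1)).prod := by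
  classical
  induction L with
  | nil =>
    intro _
    have hbot : ∀ y ∈ lc ([] : List Γ), y = 1 := by
      intro y hy
      have h0 : lc ([] : List Γ) = ⊥ := by simp [lc]
      rw [h0] at hy
      exact Subgroup.mem_bot.1 hy
    have h1 : ∑ y : lc ([] : List Γ), ρ y.1 = ρ (1 : lc ([] : List Γ)).1 :=
      Fintype.sum_eq_single (1 : lc ([] : List Γ)) (fun x hx => absurd (Subtype.ext (hbot x x.2)) hx)
    rw [h1]
    simp
  | cons g L ih =>
    intro _
    rw [List.pairwise_cons] at hLc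
    have hg2 := hL2 g (List.mem_cons_self ..)
    have hle : lc L ≤ Y₀ := by
      rw [Subgroup.closure_le]
      exact fun x hx => hL x (List.mem_cons_of_mem _ hx)
    haveI : Finite (lc L) := Finite.of_injective (Subgroup.inclusion hle) (Subgroup.inclusion_injective hle)
    letI : Fintype (lc L) := Fintype.ofFinite _
    have ih' := ih (fun x hx => hL x (List.mem_cons_of_mem _ hx))
      (fun x hx => hL2 x (List.mem_cons_of_mem _ hx)) hLc.2 hLi.2
    rw [sum_split (lc (g :: L)) (lc L) (lc_le_cons g L) (mem_lc_cons g L) hLi.1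
      (fun z hz => lc_cons_mem hg2 hLc.1 hz) (fun z => ρ z)]
    rw [List.map_cons, List.prod_cons, ← ih', Finset.mul_sum]
    refine Finset.sum_congr rfl fun y _ => ?_
    have hneg : -(ρ y.1) = ρ y.1 := by
      ext x
      exact neg_eq_self_char2 K (ρ y.1 x)
    rw [sub_mul, one_mul, ← map_mul, comm_lc hLc.1 y.1 y.2, sub_eq_add_neg, hneg, add_comm]

/-- The product form. -/
theorem list_prod_ne_zero [Nontrivial V] (ρ : Γ →* End K V) (hρ : Function.Injective ρ) {q : ℕ} [Fact q.Prime]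
    (hq : q ≠ 2) (R Y₀ : Subgroup Γ) [Finite R] [Finite Y₀] (hRq : IsPGroup q R)
    (hRc : ∀ a ∈ R, ∀ b ∈ R, ∀ c ∈ R, (a * b * a⁻¹ * b⁻¹) * c = c * (a * b * a⁻¹ * b⁻¹))
    (hYR : ∀ y ∈ Y₀, ∀ r ∈ R, y * r * y⁻¹ ∈ R)
    (hscal : ∀ c ∈ R, (∀ r ∈ R, c * r = r * c) → ∃ l : K, ρ c = l • (1 : End K V))
    (hfY : ∀ y ∈ Y₀, (∀ r ∈ R, y * r = r * y) → y = 1)
    (L : List Γ) (hL : ∀ g ∈ L, g ∈ Y₀) (hL2 : ∀ g ∈ L, g * g = 1) (hLc : L.Pairwise Commute)
    (hLi : LIndep L) : (L.map (fun g => ρ g - 1)).prod ≠ 0 := by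
  intro hzero
  have hle : lc L ≤ Y₀ := by
    rw [Subgroup.closure_le]
    exact hL
  haveI : Finite (lc L) := Finite.of_injective (Subgroup.inclusion hle) (Subgroup.inclusion_injective hle)
  letI : Fintype (lc L) := Fintype.ofFinite _
  obtain ⟨h1, _⟩ := lc_facts L hL2 hLc
  obtain ⟨u, _, hu⟩ := norm_ne_zero ρ hq R (lc L) hRq hRc h1
    (fun y hy r hr => hYR y (hle hy) r hr) (⊤ : Submodule K V) top_ne_bot
    (fun _ _ _ _ => Submodule.mem_top) (fun _ _ _ _ => Submodule.mem_top)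
    (fun r _ h => hρ (by
      rw [map_one]
      ext x
      exact h x Submodule.mem_top))
    (fun c hc h => by
      obtain ⟨l, hl⟩ := hscal c hc h
      exact ⟨l, fun u _ => by rw [hl]; rfl⟩)
    (fun y hy h => hfY y (hle hy) h)
  apply hu
  have h2 := sum_lc ρ Y₀ L hL hL2 hLc hLi
  rw [hzero] at h2
  have h3 := LinearMap.congr_fun h2 u
  rw [LinearMap.sum_apply] at h3
  exact h3

end ListClosure

end Cfsg.Agent.Lib.BryD.Norm
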