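/-
Bryukhanova's theorem, derived length version (forum topic bry-s4259).
MODULE S: selection of a commuting chain in a flag of a class two group.
-/
import Cfsg.Agent.Lib.BryD.Norm

set_option autoImplicit false

namespace Cfsg.Agent.Lib.BryD.Sel

open Module Cfsg.Agent.Lib.BryD.Basic Cfsg.Agent.Lib.BryD.Norm

universe u v w

variable {Γ : Type w} [Group Γ]

/-! ### Numerics -/

theorem mul_succ_lt_pow (r : ℕ) : r * (1 + r) < 2 ^ (r + 1) := by
  induction r with
  | zero => simp
  | succ r ih =>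
    have h1 : r < 2 ^ r := Nat.lt_two_pow_self
    have : 2 ^ (r + 1 + 1) = 2 * 2 ^ (r + 1) := by ring
    have h2 : 2 ^ (r + 1) = 2 * 2 ^ r := by ring
    rw [this]
    nlinarith

theorem numA (e n ρ r : ℕ) (h : 2 ^ e ≤ n * (1 + ρ)) (hn : n ≤ r) (hρ : ρ ≤ r) : e ≤ r := by
  by_contra hc
  push Not at hc
  have h1 : 2 ^ (r + 1) ≤ 2 ^ e := Nat.pow_le_pow_right (by norm_num) hc
  have h2 := mul_succ_lt_pow r
  have h3 : n * (1 + ρ) ≤ r * (1 + r) := Nat.mul_le_mul hn (by omega)
  omega

theorem mul_lt_pow_add (n ρ : ℕ) : n * (1 + ρ) < 2 ^ (n + ρ) := by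
  have h1 : n < 2 ^ n := Nat.lt_two_pow_self
  have h2 : ρ < 2 ^ ρ := Nat.lt_two_pow_self
  rw [pow_add]
  have h3 : 1 + ρ ≤ 2 ^ ρ := by omega
  calc n * (1 + ρ) ≤ n * 2 ^ ρ := Nat.mul_le_mul_left _ h3
    _ < 2 ^ n * 2 ^ ρ := Nat.mul_lt_mul_of_pos_right h1 (by positivity)

theorem numB (e n ρ : ℕ) (h : 2 ^ e ≤ n * (1 + ρ)) : e + 1 ≤ n + ρ := by
  have h1 := mul_lt_pow_add n ρ
  have h2 : 2 ^ e < 2 ^ (n + ρ) := lt_of_le_of_lt h h1
  have := (Nat.pow_lt_pow_iff_right (by norm_num : 1 < 2)).1 h2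
  omega

theorem numC1 (e n ρ : ℕ) (_hn : 1 ≤ n) (hρ : 1 ≤ ρ) (h : 2 ^ e + ρ ≤ n + ρ * n) : e + 2 ≤ n + ρ := by
  by_contra hc
  push Not at hc
  obtain ⟨m, rfl⟩ : ∃ m, n = m + 1 := ⟨n - 1, by omega⟩
  have h1 : m < 2 ^ m := Nat.lt_two_pow_self
  have h2 : ρ < 2 ^ ρ := Nat.lt_two_pow_self
  have h3 : 2 ^ (m + ρ) ≤ 2 ^ e := Nat.pow_le_pow_right (by norm_num) (by omega)
  rw [pow_add] at h3
  have h4 : m + 1 ≤ 2 ^ m := h1
  have h5 : ρ + 1 ≤ 2 ^ ρ := h2
  have h6 : (m + 1) * (ρ + 1) ≤ 2 ^ m * 2 ^ ρ := Nat.mul_le_mul h4 h5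
  nlinarith

theorem three_mul_lt (n : ℕ) : 3 * n < 2 ^ (n + 1) := by
  induction n with
  | zero => simp
  | succ n ih =>
    rcases n with _ | n
    · norm_num
    · have : 2 ^ (n + 1 + 1 + 1) = 2 * 2 ^ (n + 1 + 1) := by ring
      have h3 : 2 ^ (n + 1 + 1) = 4 * 2 ^ n := by ring
      have : 0 < 2 ^ n := by positivity
      omega

theorem numC2 (e n ρ : ℕ) (_hn : 1 ≤ n) (hρ : 2 ≤ ρ) (h : 2 ^ e ≤ n * (1 + ρ)) : e + 2 ≤ n + ρ := by
  by_contra hc
  push Not at hc
  obtain ⟨σ, rfl⟩ : ∃ σ, ρ = σ + 1 := ⟨ρ - 1, by omega⟩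
  have h3 : 2 ^ (n + σ) ≤ 2 ^ e := Nat.pow_le_pow_right (by norm_num) (by omega)
  rcases Nat.lt_or_ge σ 2 with hσ | hσ
  · have : σ = 1 := by omega
    subst this
    have := three_mul_lt n
    nlinarith
  · obtain ⟨τ, rfl⟩ : ∃ τ, σ = τ + 2 := ⟨σ - 2, by omega⟩
    have h1 : n < 2 ^ n := Nat.lt_two_pow_self
    have h2 : τ < 2 ^ τ := Nat.lt_two_pow_self
    have h5 : 2 + (τ + 2) ≤ 2 ^ (τ + 2) := by
      have : 2 ^ (τ + 2) = 4 * 2 ^ τ := by ring
      omega
    have h6 : n * (2 + (τ + 2)) < 2 ^ n * 2 ^ (τ + 2) :=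
      calc n * (2 + (τ + 2)) ≤ n * 2 ^ (τ + 2) := Nat.mul_le_mul_left _ h5
        _ < 2 ^ n * 2 ^ (τ + 2) := Nat.mul_lt_mul_of_pos_right h1 (by positivity)
    rw [pow_add] at h3
    have h7 : n * (1 + (τ + 2 + 1)) = n * (2 + (τ + 2)) := by ring
    omega

/-! ### Cardinalities -/

section Card

variable [Finite Γ]

theorem two_mul_card_le_of_lt {A B : Subgroup Γ} (h : A < B) : 2 * Nat.card A ≤ Nat.card B := by
  obtain ⟨c, hc⟩ : Nat.card A ∣ Nat.card B := Subgroup.card_dvd_of_le h.le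
  have hne : Nat.card A ≠ Nat.card B := fun e => h.ne (Subgroup.eq_of_le_of_card_ge h.le e.ge)
  have hA : 0 < Nat.card A := Nat.card_pos
  have hB : 0 < Nat.card B := Nat.card_pos
  rcases c with _ | _ | c
  · simp at hc; omega
  · simp at hc; exact absurd hc.symm hne
  · rw [hc]; nlinarith

theorem card_closure_insert_le (g : Γ) (S : Set Γ) (hg2 : g * g = 1) (hc : ∀ x ∈ S, g * x = x * g) :
    Nat.card (Subgroup.closure (insert g S)) ≤ 2 * Nat.card (Subgroup.closure S) := by
  classical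
  set C := Subgroup.closure S with hC
  have hgC : ∀ c ∈ C, g * c = c * g := by
    intro c hc'
    have hle : C ≤ Subgroup.centralizer {g} := by
      rw [hC, Subgroup.closure_le]
      intro x hx
      rw [SetLike.mem_coe, Subgroup.mem_centralizer_iff]
      intro y hy
      rw [Set.mem_singleton_iff] at hy
      subst hy
      exact hc x hx
    have := hle hc'
    rw [Subgroup.mem_centralizer_iff] at this
    exact this g rfl
  have hginv : g⁻¹ = g := by
    rw [inv_eq_iff_mul_eq_one]; exact hg2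
  have key : ∀ x ∈ Subgroup.closure (insert g S), x ∈ C ∨ g * x ∈ C := by
    intro x hx
    induction hx using Subgroup.closure_induction with
    | mem x hx =>
      rcases hx with rfl | hx
      · right; rw [hg2]; exact C.one_mem
      · left; exact Subgroup.subset_closure hx
    | one => left; exact C.one_mem
    | mul x y _ _ ihx ihy =>
      rcases ihx with hx | hx <;> rcases ihy with hy | hy
      · left; exact C.mul_mem hx hy
      · right
        have : g * (x * y) = x * (g * y) := by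
          rw [← mul_assoc, hgC x hx, mul_assoc]
        rw [this]; exact C.mul_mem hx hy
      · right
        rw [← mul_assoc]; exact C.mul_mem hx hy
      · left
        have : x * y = (g * x) * (g * y) := by
          have h1 := hgC _ hx
          calc x * y = (g * g) * x * y := by rw [hg2, one_mul]
            _ = g * (g * x) * y := by group
            _ = (g * x) * g * y := by rw [h1]
            _ = (g * x) * (g * y) := by group
        rw [this]; exact C.mul_mem hx hy
    | inv x _ ih =>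
      rcases ih with hx | hx
      · left; exact C.inv_mem hx
      · right
        have h1 := hgC _ hx
        have : g * x⁻¹ = (g * x)⁻¹ := by
          have h2 : x = g * (g * x) := by rw [← mul_assoc, hg2, one_mul]
          calc g * x⁻¹ = g * (g * (g * x))⁻¹ := by rw [← h2]
            _ = g * ((g * x)⁻¹ * g⁻¹) := by rw [mul_inv_rev]
            _ = g * ((g * x)⁻¹ * g) := by rw [hginv]
            _ = (g * x)⁻¹ := by
              have h3 : g * (g * x)⁻¹ = (g * x)⁻¹ * g := by
                have := hgC _ (C.inv_mem hx)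
                exact this
              rw [← mul_assoc, h3, mul_assoc, hg2, mul_one]
        rw [this]; exact C.inv_mem hx
  let f : Subgroup.closure (insert g S) → C ⊕ C := fun x =>
    if h : x.1 ∈ C then Sum.inl ⟨x.1, h⟩
    else Sum.inr ⟨g * x.1, (key x.1 x.2).resolve_left h⟩
  have hf : Function.Injective f := by
    intro x y hxy
    simp only [f] at hxy
    by_cases h1 : x.1 ∈ C <;> by_cases h2 : y.1 ∈ C
    · rw [dif_pos h1, dif_pos h2] at hxy
      have h' : (⟨x.1, h1⟩ : C) = ⟨y.1, h2⟩ := Sum.inl_injective hxy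
      exact Subtype.ext (Subtype.mk.inj h')
    · rw [dif_pos h1, dif_neg h2] at hxy; cases hxy
    · rw [dif_neg h1, dif_pos h2] at hxy; cases hxy
    · rw [dif_neg h1, dif_neg h2] at hxy
      have h' : (⟨g * x.1, (key x.1 x.2).resolve_left h1⟩ : C) = ⟨g * y.1, (key y.1 y.2).resolve_left h2⟩ :=
        Sum.inr_injective hxy
      exact Subtype.ext (mul_left_cancel (Subtype.mk.inj h'))
  have := Nat.card_le_card_of_injective f hf
  rw [Nat.card_sum] at this
  omega

theorem card_closure_list_le (W : Subgroup Γ) (hW : ∀ a ∈ W, ∀ b ∈ W, a * b = b * a) (l B : List Γ)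
    (hl : ∀ g ∈ l, g ∈ W ∧ g * g = 1) (hB : ∀ g ∈ B, g ∈ W) :
    Nat.card (Subgroup.closure {x | x ∈ l ++ B}) ≤ 2 ^ l.length * Nat.card (Subgroup.closure {x | x ∈ B}) := by
  induction l with
  | nil => simp
  | cons g l ih =>
    have hl' : ∀ g ∈ l, g ∈ W ∧ g * g = 1 := fun x hx => hl x (List.mem_cons_of_mem _ hx)
    have hg := hl g List.mem_cons_self
    have heq : {x | x ∈ (g :: l) ++ B} = insert g {x | x ∈ l ++ B} := by
      ext x; simp
    rw [heq]
    refine (card_closure_insert_le g _ hg.2 ?_).trans ?_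
    · intro x hx
      have hxW : x ∈ W := by
        rcases List.mem_append.1 hx with h | h
        · exact (hl' x h).1
        · exact hB x h
      exact hW g hg.1 x hxW
    · have := ih hl'
      rw [List.length_cons, pow_succ]
      nlinarith


/-- Selection of independent elements. -/
theorem select (W : Subgroup Γ) (hW : ∀ a ∈ W, ∀ b ∈ W, a * b = b * a) (X : ℕ → Subgroup Γ) (B : List Γ)
    (hB : ∀ g ∈ B, g ∈ W) (hBi : LIndep B) (c : ℕ) (hc : Nat.card (Subgroup.closure {x | x ∈ B}) ≤ c) (n : ℕ) :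
    ∀ s : ℕ, (∀ i, s ≤ i → i < s + n → X i ≤ W ∧ ∀ x ∈ X i, x * x = 1) →
    (∀ i, s ≤ i → i < s + n → ∀ C : Subgroup Γ, (∀ g ∈ B, g ∈ C) → Nat.card C ≤ 2 ^ (s + n - 1 - i) * c →
      ∃ x ∈ X i, x ∉ C) →
    ∃ y : ℕ → Γ, (∀ i, s ≤ i → i < s + n → y i ∈ X i) ∧ LIndep (((List.range' s n).map y) ++ B) := by
  induction n with
  | zero =>
    intro s _ _
    exact ⟨fun _ => 1, fun i h1 h2 => by omega, by simpa using hBi⟩
  | succ n ih =>
    intro s hX h
    obtain ⟨y₀, hy₀, hL₀⟩ := ih (s + 1)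
      (fun i h1 h2 => hX i (by omega) (by omega))
      (fun i h1 h2 C hC hcard => h i (by omega) (by omega) C hC (by
        have : s + (n + 1) - 1 - i = s + 1 + n - 1 - i := by omega
        rw [this]; exact hcard))
    set L₀ := (List.range' (s + 1) n).map y₀ ++ B with hL₀def
    have hlmem : ∀ g ∈ (List.range' (s + 1) n).map y₀, g ∈ W ∧ g * g = 1 := by
      intro g hg
      obtain ⟨i, hi, rfl⟩ := List.mem_map.1 hg
      rw [List.mem_range'_1] at hi
      have hh := hX i (by omega) (by omega)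
      have hm := hy₀ i hi.1 hi.2
      exact ⟨hh.1 hm, hh.2 _ hm⟩
    have hcard : Nat.card (Subgroup.closure {x | x ∈ L₀}) ≤ 2 ^ n * c := by
      have := card_closure_list_le W hW _ B hlmem hB
      rw [List.length_map, List.length_range'] at this
      exact this.trans (Nat.mul_le_mul_left _ hc)
    obtain ⟨x, hx, hxC⟩ := h s le_rfl (by omega) (Subgroup.closure {x | x ∈ L₀})
      (fun g hg => Subgroup.subset_closure (List.mem_append_right _ hg))
      (by
        have : s + (n + 1) - 1 - s = n := by omega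
        rw [this]; exact hcard)
    refine ⟨Function.update y₀ s x, ?_, ?_⟩
    · intro i h1 h2
      by_cases hi : i = s
      · subst hi; simpa using hx
      · rw [Function.update_of_ne hi]
        exact hy₀ i (by omega) (by omega)
    · have hmap : (List.range' (s + 1) n).map (Function.update y₀ s x) = (List.range' (s + 1) n).map y₀ := by
        apply List.map_congr_left
        intro i hi
        rw [List.mem_range'_1] at hi
        exact Function.update_of_ne (by omega) _ _
      rw [List.range'_succ, List.map_cons, Function.update_self, hmap, List.cons_append]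
      exact ⟨hxC, hL₀⟩

/-- A generating list. -/
theorem exists_gens (M' : Subgroup Γ) : ∀ (m : ℕ) (N : Subgroup Γ), Nat.card M' - Nat.card N = m → N ≤ M' →
    ∃ l : List Γ, (∀ g ∈ l, g ∈ M') ∧ N ⊔ Subgroup.closure {x | x ∈ l} = M' ∧
      2 ^ l.length * Nat.card N ≤ Nat.card M' := by
  intro m
  induction m using Nat.strong_induction_on with
  | _ m ih =>
    intro N hm hN
    by_cases hNM : N = M'
    · subst hNM
      exact ⟨[], by simp, by simp, by simp⟩
    · have hlt : N < M' := lt_of_le_of_ne hN hNM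
      obtain ⟨g, hg, hgN⟩ := SetLike.exists_of_lt hlt
      set N' := N ⊔ Subgroup.zpowers g with hN'
      have hN'le : N' ≤ M' := sup_le hN (by simpa using hg)
      have hNN' : N < N' := by
        refine lt_of_le_of_ne le_sup_left ?_
        intro e
        apply hgN
        rw [e]
        exact (le_sup_right : Subgroup.zpowers g ≤ N') (Subgroup.mem_zpowers g)
      have h2 := two_mul_card_le_of_lt hNN'
      have h3 : Nat.card N' ≤ Nat.card M' := Subgroup.card_le_of_le hN'le
      have h4 : 0 < Nat.card N := Nat.card_pos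
      obtain ⟨l, hl, hsup, hcard⟩ := ih (Nat.card M' - Nat.card N') (by omega) N' rfl hN'le
      refine ⟨g :: l, ?_, ?_, ?_⟩
      · intro x hx
        rcases List.mem_cons.1 hx with rfl | hx
        · exact hg
        · exact hl x hx
      · have : ({x | x ∈ g :: l} : Set Γ) = {g} ∪ {x | x ∈ l} := by
          ext x; simp
        rw [this, Subgroup.closure_union, ← Subgroup.zpowers_eq_closure, ← sup_assoc, ← hN', hsup]
      · rw [List.length_cons, pow_succ]
        calc 2 ^ l.length * 2 * Nat.card N = 2 ^ l.length * (2 * Nat.card N) := by ring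
          _ ≤ 2 ^ l.length * Nat.card N' := Nat.mul_le_mul_left _ h2
          _ ≤ _ := hcard

/-- One commutator step. -/
theorem exists_cent_step (X E H : Subgroup Γ) (hEX : E ≤ X) (hEc : ∀ e ∈ E, ∀ x ∈ X, e * x = x * e)
    (hHX : H ≤ X) (g : Γ) (hcm : ∀ x ∈ X, x * g * x⁻¹ * g⁻¹ ∈ E) :
    ∃ K : Subgroup Γ, K ≤ H ∧ (∀ c ∈ K, c * g = g * c) ∧ Nat.card H ≤ Nat.card K * Nat.card E := by
  let f : H →* E :=
    { toFun := fun x => ⟨x.1 * g * x.1⁻¹ * g⁻¹, hcm x.1 (hHX x.2)⟩
      map_one' := by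
        apply Subtype.ext
        simp
      map_mul' := by
        intro x y
        apply Subtype.ext
        have hy := hcm y.1 (hHX y.2)
        have hx := hcm x.1 (hHX x.2)
        have h1 := hEc _ hy x.1 (hHX x.2)
        have h2 := hEc _ hy _ (hEX hx)
        show (x.1 * y.1) * g * (x.1 * y.1)⁻¹ * g⁻¹ = (x.1 * g * x.1⁻¹ * g⁻¹) * (y.1 * g * y.1⁻¹ * g⁻¹)
        rw [← h2]
        have h3 : y.1 * g * y.1⁻¹ = (y.1 * g * y.1⁻¹ * g⁻¹) * g := by group
        calc (x.1 * y.1) * g * (x.1 * y.1)⁻¹ * g⁻¹ = x.1 * (y.1 * g * y.1⁻¹) * x.1⁻¹ * g⁻¹ := by group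
          _ = x.1 * ((y.1 * g * y.1⁻¹ * g⁻¹) * g) * x.1⁻¹ * g⁻¹ := by rw [← h3]
          _ = (x.1 * (y.1 * g * y.1⁻¹ * g⁻¹)) * g * x.1⁻¹ * g⁻¹ := by group
          _ = ((y.1 * g * y.1⁻¹ * g⁻¹) * x.1) * g * x.1⁻¹ * g⁻¹ := by rw [h1]
          _ = _ := by group }
  refine ⟨f.ker.map H.subtype, ?_, ?_, ?_⟩
  · rintro _ ⟨x, _, rfl⟩
    exact x.2
  · rintro _ ⟨x, hx, rfl⟩
    have : f x = 1 := hx
    have h0 : x.1 * g * x.1⁻¹ * g⁻¹ = 1 := congrArg Subtype.val this
    show x.1 * g = g * x.1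
    have h1 : x.1 * g * x.1⁻¹ = g := by
      calc x.1 * g * x.1⁻¹ = (x.1 * g * x.1⁻¹ * g⁻¹) * g := by group
        _ = g := by rw [h0, one_mul]
    calc x.1 * g = (x.1 * g * x.1⁻¹) * x.1 := by group
      _ = g * x.1 := by rw [h1]
  · have h1 : Nat.card (f.ker.map H.subtype) = Nat.card f.ker :=
      Nat.card_congr (f.ker.equivMapOfInjective _ H.subtype_injective).symm.toEquiv
    rw [h1, ← Subgroup.card_mul_index f.ker, Subgroup.index_ker]
    exact Nat.mul_le_mul_left _ (Subgroup.card_le_card_group _)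

theorem exists_cent (X E : Subgroup Γ) (hEX : E ≤ X) (hEc : ∀ e ∈ E, ∀ x ∈ X, e * x = x * e) (l : List Γ) :
    (∀ g ∈ l, ∀ x ∈ X, x * g * x⁻¹ * g⁻¹ ∈ E) → ∀ H : Subgroup Γ, H ≤ X →
    ∃ C : Subgroup Γ, C ≤ H ∧ (∀ c ∈ C, ∀ g ∈ l, c * g = g * c) ∧ Nat.card H ≤ Nat.card C * Nat.card E ^ l.length := by
  induction l with
  | nil =>
    intro _ H _
    exact ⟨H, le_rfl, by simp, by simp⟩
  | cons g l ih =>
    intro hl H hH
    obtain ⟨K, hKH, hK, hcard⟩ := exists_cent_step X E H hEX hEc hH g (hl g List.mem_cons_self)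
    obtain ⟨C, hCK, hC, hcard'⟩ := ih (fun g' hg' => hl g' (List.mem_cons_of_mem _ hg')) K (hKH.trans hH)
    refine ⟨C, hCK.trans hKH, ?_, ?_⟩
    · intro c hc x hx
      rcases List.mem_cons.1 hx with rfl | hx
      · exact hK c (hCK hc)
      · exact hC c hc x hx
    · rw [List.length_cons, pow_succ]
      calc Nat.card H ≤ Nat.card K * Nat.card E := hcard
        _ ≤ (Nat.card C * Nat.card E ^ l.length) * Nat.card E := Nat.mul_le_mul_right _ hcard'
        _ = _ := by ring

/-- The count. -/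
theorem count (X E E₀ M' : Subgroup Γ) (hEX : E ≤ X) (hEc : ∀ e ∈ E, ∀ x ∈ X, e * x = x * e)
    (hE₀X : ∀ e ∈ E₀, ∀ x ∈ X, e * x = x * e) (hE₀M' : E₀ ≤ M')
    (hself : ∀ g ∈ X, (∀ m ∈ M', g * m = m * g) → g ∈ M')
    (hcm : ∀ x ∈ X, ∀ g ∈ M', x * g * x⁻¹ * g⁻¹ ∈ E) :
    ∃ ℓ : ℕ, 2 ^ ℓ * Nat.card E₀ ≤ Nat.card M' ∧ Nat.card X ≤ Nat.card M' * Nat.card E ^ ℓ := by
  obtain ⟨l, hl, hsup, hcard⟩ := exists_gens M' _ E₀ rfl hE₀M'
  obtain ⟨C, hCX, hC, hcard'⟩ := exists_cent X E hEX hEc l (fun g hg x hx => hcm x hx g (hl g hg)) X le_rfl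
  refine ⟨l.length, hcard, hcard'.trans (Nat.mul_le_mul_right _ ?_)⟩
  refine Subgroup.card_le_of_le ?_
  intro c hc
  apply hself c (hCX hc)
  intro m hm
  have hle : M' ≤ Subgroup.centralizer {c} := by
    rw [← hsup]
    refine sup_le ?_ ?_
    · intro e he
      rw [Subgroup.mem_centralizer_iff]
      intro y hy
      rw [Set.mem_singleton_iff] at hy
      subst hy
      exact (hE₀X e he _ (hCX hc)).symm
    · rw [Subgroup.closure_le]
      intro x hx
      rw [SetLike.mem_coe, Subgroup.mem_centralizer_iff]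
      intro y hy
      rw [Set.mem_singleton_iff] at hy
      subst hy
      exact hC _ hc x hx
  have := hle hm
  rw [Subgroup.mem_centralizer_iff] at this
  exact this c rfl

--PARTB
end Card


/-! ### The level data -/

section Level

variable [Finite Γ]

/-- Involutions of an abelian subgroup. -/
def omegaSub (M : Subgroup Γ) (hM : ∀ a ∈ M, ∀ b ∈ M, a * b = b * a) : Subgroup Γ where
  carrier := {x | x ∈ M ∧ x * x = 1}
  mul_mem' := by
    rintro a b ⟨ha, ha2⟩ ⟨hb, hb2⟩
    refine ⟨M.mul_mem ha hb, ?_⟩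
    calc a * b * (a * b) = a * (b * a) * b := by group
      _ = a * (a * b) * b := by rw [hM b hb a ha]
      _ = (a * a) * (b * b) := by group
      _ = 1 := by rw [ha2, hb2, one_mul]
  one_mem' := ⟨M.one_mem, one_mul 1⟩
  inv_mem' := by
    rintro a ⟨ha, ha2⟩
    refine ⟨M.inv_mem ha, ?_⟩
    rw [← mul_inv_rev, ha2, inv_one]

theorem exists_two_pow (X : Subgroup Γ) (h : ∀ x ∈ X, x * x * (x * x) = 1) : ∃ a, Nat.card X = 2 ^ a := by
  have : IsPGroup 2 X := by
    intro x
    refine ⟨2, Subtype.ext ?_⟩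
    have := h x.1 x.2
    simp only [Subgroup.coe_pow, Subgroup.coe_one]
    rw [show (2 : ℕ) ^ 2 = 4 by norm_num, show x.1 ^ 4 = x.1 * x.1 * (x.1 * x.1) by simp [pow_succ, mul_assoc]]
    exact this
  exact IsPGroup.iff_card.1 this

/-- The numbers attached to a level. -/
theorem level (X D M : Subgroup Γ) (hsq : ∀ x ∈ X, x * x ∈ D) (hcmX : ∀ x ∈ X, ∀ y ∈ X, x * y * x⁻¹ * y⁻¹ ∈ D)
    (hDc : ∀ d ∈ D, ∀ x ∈ X, d * x = x * d) (hD2 : ∀ d ∈ D, d * d = 1)
    (hM : ∀ a ∈ M, ∀ b ∈ M, a * b = b * a)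
    (hself : ∀ g ∈ X, (∀ m ∈ M ⊓ X, g * m = m * g) → g ∈ M)
    (z : Γ) (hzX : z ∈ X) (hzM : z ∈ M) (hzD : z ∉ D) (e : ℕ)
    (hdim : 2 ^ (2 ^ e) * Nat.card (X ⊓ D : Subgroup Γ) ≤ Nat.card X) :
    ∃ ρ n r, Nat.card (X ⊓ D : Subgroup Γ) = 2 ^ ρ ∧ Nat.card (M ⊓ X : Subgroup Γ) = 2 ^ (ρ + n) ∧
      Nat.card (omegaSub M hM ⊓ X : Subgroup Γ) = 2 ^ r ∧ 1 ≤ n ∧ n ≤ r ∧ ρ ≤ r ∧ 2 ^ e ≤ n * (1 + ρ) ∧
      ((∀ x ∈ X, z * x = x * z) → 2 ^ e + ρ ≤ n + ρ * n) := by
  classical
  set E : Subgroup Γ := X ⊓ D with hE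
  set M' : Subgroup Γ := M ⊓ X with hM'
  have hEX : E ≤ X := inf_le_left
  have hEc : ∀ e ∈ E, ∀ x ∈ X, e * x = x * e := fun e he x hx => hDc e he.2 x hx
  have hEM' : E ≤ M' := by
    intro d hd
    refine ⟨hself d hd.1 ?_, hd.1⟩
    intro m hm
    exact hDc d hd.2 m hm.2
  have h4 : ∀ x ∈ X, x * x * (x * x) = 1 := fun x hx => hD2 _ (hsq x hx)
  obtain ⟨ρ, hρ⟩ := exists_two_pow E (fun x hx => h4 x hx.1)
  obtain ⟨a, ha⟩ := exists_two_pow M' (fun x hx => h4 x hx.2)
  obtain ⟨r, hr⟩ := exists_two_pow (omegaSub M hM ⊓ X) (fun x hx => h4 x hx.2)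
  have hself' : ∀ g ∈ X, (∀ m ∈ M', g * m = m * g) → g ∈ M' := fun g hg h => ⟨hself g hg h, hg⟩
  have hcm' : ∀ x ∈ X, ∀ g ∈ M', x * g * x⁻¹ * g⁻¹ ∈ E := by
    intro x hx g hg
    refine ⟨?_, hcmX x hx g hg.2⟩
    exact X.mul_mem (X.mul_mem (X.mul_mem hx hg.2) (X.inv_mem hx)) (X.inv_mem hg.2)
  have hlog : ∀ {u v : ℕ}, 2 ^ u ≤ 2 ^ v → u ≤ v := fun {u v} h =>
    (Nat.pow_le_pow_iff_right (by norm_num : 1 < 2)).1 h
  have hρa : ρ ≤ a := hlog (by rw [← hρ, ← ha]; exact Subgroup.card_le_of_le hEM')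
  obtain ⟨n, rfl⟩ : ∃ n, a = ρ + n := ⟨a - ρ, by omega⟩
  have hzM' : z ∈ M' := ⟨hzM, hzX⟩
  have hzE : z ∉ E := fun h => hzD h.2
  have hEM'lt : E < M' := lt_of_le_of_ne hEM' (fun e => hzE (e ▸ hzM'))
  have hn1 : 1 ≤ n := by
    have h2 := two_mul_card_le_of_lt hEM'lt
    rw [hρ, ha] at h2
    have : 2 ^ (ρ + 1) ≤ 2 ^ (ρ + n) := by rw [pow_succ]; linarith
    have := hlog this
    omega
  have hEΩ : E ≤ omegaSub M hM ⊓ X := by
    intro d hd
    exact ⟨⟨(hEM' hd).1, hD2 d hd.2⟩, hd.1⟩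
  have hρr : ρ ≤ r := hlog (by rw [← hρ, ← hr]; exact Subgroup.card_le_of_le hEΩ)
  -- squaring
  have hsqr : Nat.card M' ≤ Nat.card (omegaSub M hM ⊓ X : Subgroup Γ) * Nat.card E := by
    let f : M' →* E :=
      { toFun := fun x => ⟨x.1 * x.1, X.mul_mem x.2.2 x.2.2, hsq x.1 x.2.2⟩
        map_one' := by
          apply Subtype.ext
          simp
        map_mul' := by
          intro x y
          apply Subtype.ext
          show (x.1 * y.1) * (x.1 * y.1) = (x.1 * x.1) * (y.1 * y.1)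
          calc (x.1 * y.1) * (x.1 * y.1) = x.1 * (y.1 * x.1) * y.1 := by group
            _ = x.1 * (x.1 * y.1) * y.1 := by rw [hM y.1 y.2.1 x.1 x.2.1]
            _ = _ := by group }
    have hk : Nat.card f.ker ≤ Nat.card (omegaSub M hM ⊓ X : Subgroup Γ) := by
      have h1 : Nat.card (f.ker.map M'.subtype) = Nat.card f.ker :=
        Nat.card_congr (f.ker.equivMapOfInjective _ M'.subtype_injective).symm.toEquiv
      rw [← h1]
      apply Subgroup.card_le_of_le
      rintro _ ⟨x, hx, rfl⟩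
      have h0 : f x = 1 := hx
      have h2 : x.1 * x.1 = 1 := congrArg Subtype.val h0
      exact ⟨⟨x.2.1, h2⟩, x.2.2⟩
    rw [← Subgroup.card_mul_index f.ker, Subgroup.index_ker]
    exact Nat.mul_le_mul hk (Subgroup.card_le_card_group _)
  have hnr : n ≤ r := by
    rw [hρ, ha, hr, ← pow_add] at hsqr
    have := hlog hsqr
    omega
  refine ⟨ρ, n, r, hρ, ha, hr, hn1, hnr, hρr, ?_, ?_⟩
  · obtain ⟨ℓ, h1, h2⟩ := count X E E M' hEX hEc hEc hEM' hself' hcm'
    rw [hρ, ha, ← pow_add, show ℓ + ρ = ρ + ℓ by ring] at h1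
    have hℓ : ℓ ≤ n := by
      have := hlog h1
      omega
    have h3 := hdim.trans h2
    rw [hρ, ha, ← pow_mul, ← pow_add, ← pow_add] at h3
    have h5 := hlog h3
    have h6 : ρ * ℓ ≤ ρ * n := Nat.mul_le_mul_left _ hℓ
    nlinarith
  · intro hzc
    set E₀ : Subgroup Γ := E ⊔ Subgroup.zpowers z with hE₀
    have hE₀X : ∀ e ∈ E₀, ∀ x ∈ X, e * x = x * e := by
      intro e he x hx
      have hle : E₀ ≤ Subgroup.centralizer {x} := by
        refine sup_le ?_ ?_
        · intro d hd
          rw [Subgroup.mem_centralizer_iff]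
          intro y hy
          rw [Set.mem_singleton_iff] at hy
          subst hy
          exact (hEc d hd _ hx).symm
        · rw [Subgroup.zpowers_le, Subgroup.mem_centralizer_iff]
          intro y hy
          rw [Set.mem_singleton_iff] at hy
          subst hy
          exact (hzc _ hx).symm
      have := hle he
      rw [Subgroup.mem_centralizer_iff] at this
      exact (this x rfl).symm
    have hE₀M' : E₀ ≤ M' := sup_le hEM' (by rw [Subgroup.zpowers_le]; exact hzM')
    have hEE₀ : E < E₀ := by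
      refine lt_of_le_of_ne le_sup_left (fun e => hzE ?_)
      rw [e]
      exact (le_sup_right : Subgroup.zpowers z ≤ E₀) (Subgroup.mem_zpowers z)
    obtain ⟨ℓ, h1, h2⟩ := count X E E₀ M' hEX hEc hE₀X hE₀M' hself' hcm'
    have h7 := two_mul_card_le_of_lt hEE₀
    have h8 : 2 ^ ℓ * (2 * Nat.card E) ≤ Nat.card M' := (Nat.mul_le_mul_left _ h7).trans h1
    rw [hρ, ha, show 2 ^ ℓ * (2 * 2 ^ ρ) = 2 ^ (ℓ + 1 + ρ) by ring] at h8
    have hℓ : ℓ + 1 ≤ n := by
      have := hlog h8
      omega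
    have h3 := hdim.trans h2
    rw [hρ, ha, ← pow_mul, ← pow_add, ← pow_add] at h3
    have h5 := hlog h3
    have h6 : ρ * (ℓ + 1) ≤ ρ * n := Nat.mul_le_mul_left _ hℓ
    nlinarith

theorem exists_maxAb (Y X : Subgroup Γ) (hXY : X ≤ Y) (hX : ∀ a ∈ X, ∀ b ∈ X, a * b = b * a) :
    ∃ M : Subgroup Γ, X ≤ M ∧ M ≤ Y ∧ (∀ a ∈ M, ∀ b ∈ M, a * b = b * a) ∧
      ∀ g ∈ Y, (∀ m ∈ M, g * m = m * g) → g ∈ M := by
  classical
  let P : Subgroup Γ → Prop := fun M => X ≤ M ∧ M ≤ Y ∧ ∀ a ∈ M, ∀ b ∈ M, a * b = b * a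
  have hP : P X := ⟨le_rfl, hXY, hX⟩
  -- a member of maximal order
  obtain ⟨M, hM, hmax⟩ : ∃ M, P M ∧ ∀ N, P N → Nat.card N ≤ Nat.card M := by
    have hb : ∀ N : Subgroup Γ, Nat.card N ≤ Nat.card Γ := fun N => Subgroup.card_le_card_group N
    have hex : ∃ c, ∃ N, P N ∧ Nat.card N = c := ⟨_, X, hP, rfl⟩
    classical
    let c := Nat.findGreatest (fun c => ∃ N, P N ∧ Nat.card N = c) (Nat.card Γ)
    have hc : ∃ N, P N ∧ Nat.card N = c :=
      Nat.findGreatest_spec (P := fun c => ∃ N, P N ∧ Nat.card N = c) (hb X) ⟨X, hP, rfl⟩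
    obtain ⟨N, hN, hNc⟩ := hc
    refine ⟨N, hN, fun N' hN' => ?_⟩
    rw [hNc]
    exact Nat.le_findGreatest (hb N') ⟨N', hN', rfl⟩
  refine ⟨M, hM.1, hM.2.1, hM.2.2, ?_⟩
  intro g hg hc
  -- the subgroup `M ⊔ zpowers g` is abelian
  set N : Subgroup Γ := M ⊔ Subgroup.zpowers g with hN
  have habN : ∀ a ∈ N, ∀ b ∈ N, a * b = b * a := by
    have h1 : ∀ a ∈ N, g * a = a * g := by
      intro a ha
      have hle : N ≤ Subgroup.centralizer {g} := by
        refine sup_le ?_ ?_
        · intro m hm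
          rw [Subgroup.mem_centralizer_iff]
          intro y hy
          rw [Set.mem_singleton_iff] at hy
          subst hy
          exact hc m hm
        · rw [Subgroup.zpowers_le, Subgroup.mem_centralizer_iff]
          intro y hy
          rw [Set.mem_singleton_iff] at hy
          subst hy
          rfl
      have := hle ha
      rw [Subgroup.mem_centralizer_iff] at this
      exact this g rfl
    have h2 : ∀ m ∈ M, ∀ a ∈ N, m * a = a * m := by
      intro m hm a ha
      have hle : N ≤ Subgroup.centralizer {m} := by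
        refine sup_le ?_ ?_
        · intro m' hm'
          rw [Subgroup.mem_centralizer_iff]
          intro y hy
          rw [Set.mem_singleton_iff] at hy
          subst hy
          exact hM.2.2 _ hm _ hm'
        · rw [Subgroup.zpowers_le, Subgroup.mem_centralizer_iff]
          intro y hy
          rw [Set.mem_singleton_iff] at hy
          subst hy
          exact (hc _ hm).symm
      have := hle ha
      rw [Subgroup.mem_centralizer_iff] at this
      exact this m rfl
    intro a ha b hb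
    have hle : N ≤ Subgroup.centralizer {b} := by
      refine sup_le ?_ ?_
      · intro m hm
        rw [Subgroup.mem_centralizer_iff]
        intro y hy
        rw [Set.mem_singleton_iff] at hy
        subst hy
        exact (h2 m hm _ hb).symm
      · rw [Subgroup.zpowers_le, Subgroup.mem_centralizer_iff]
        intro y hy
        rw [Set.mem_singleton_iff] at hy
        subst hy
        exact (h1 _ hb).symm
    have := hle ha
    rw [Subgroup.mem_centralizer_iff] at this
    exact (this b rfl).symm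
  have hPN : P N := ⟨hM.1.trans le_sup_left, sup_le hM.2.1 (by rw [Subgroup.zpowers_le]; exact hg), habN⟩
  have hMN : M ≤ N := le_sup_left
  have hcard := hmax N hPN
  have heq : M = N := Subgroup.eq_of_le_of_card_ge hMN hcard
  rw [heq]
  exact (le_sup_right : Subgroup.zpowers g ≤ N) (Subgroup.mem_zpowers g)

end Level


/-! ### The main theorem -/

/-- The flag data. -/
structure Flag (k : ℕ) (F : ℕ → Subgroup Γ) (D : Subgroup Γ) (z : Γ) : Prop where
  hk : 1 ≤ k
  anti : ∀ j, j + 1 < k → F (j + 1) ≤ F j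
  Dle : D ≤ F 0
  Dc : ∀ d ∈ D, ∀ x ∈ F 0, d * x = x * d
  D2 : ∀ d ∈ D, d * d = 1
  sq : ∀ x ∈ F 0, x * x ∈ D
  cm : ∀ x ∈ F 0, ∀ y ∈ F 0, x * y * x⁻¹ * y⁻¹ ∈ D
  step : ∀ j, j + 1 < k → ∀ x ∈ F j, ∀ y ∈ F j, x * y * x⁻¹ * y⁻¹ ∈ F (j + 1)
  top : ∀ x ∈ F (k - 1), ∀ y ∈ F 0, x * y * x⁻¹ * y⁻¹ ∈ F (k - 1)
  dim : ∀ j < k, 2 ^ (2 ^ (k - 1 - j)) * Nat.card (F j ⊓ D : Subgroup Γ) ≤ Nat.card (F j)
  hz : z ∈ F (k - 1)
  hzD : z ∉ D
  alt : (∀ y ∈ F 1, z * y = y * z) ∨ 4 ≤ Nat.card (F (k - 1) ⊓ D : Subgroup Γ)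

theorem exists_tower [Finite Γ] {k : ℕ} {F : ℕ → Subgroup Γ} {D : Subgroup Γ} {z : Γ} (h : Flag k F D z) :
    ∃ M : Subgroup Γ, M ≤ F 0 ∧ (∀ a ∈ M, ∀ b ∈ M, a * b = b * a) ∧ z ∈ M ∧
      ∀ j < k, ∀ g ∈ F j, (∀ m ∈ M ⊓ F j, g * m = m * g) → g ∈ M := by
  have key : ∀ n, n < k → ∃ M : Subgroup Γ, M ≤ F (k - 1 - n) ∧ (∀ a ∈ M, ∀ b ∈ M, a * b = b * a) ∧ z ∈ M ∧
      ∀ j, k - 1 - n ≤ j → j < k → ∀ g ∈ F j, (∀ m ∈ M ⊓ F j, g * m = m * g) → g ∈ M := by
    intro n
    induction n with
    | zero =>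
      intro _
      obtain ⟨M, h1, h2, h3, h4⟩ := exists_maxAb (F (k - 1)) (Subgroup.zpowers z)
        (by rw [Subgroup.zpowers_le]; exact h.hz)
        (by
          rintro _ ⟨i, rfl⟩ _ ⟨j, rfl⟩
          exact zpow_mul_comm z i j)
      refine ⟨M, h2, h3, h1 (Subgroup.mem_zpowers z), ?_⟩
      intro j hj1 hj2 g hg hc
      have : j = k - 1 := by omega
      subst this
      exact h4 g hg (fun m hm => hc m ⟨hm, h2 hm⟩)
    | succ n ih =>
      intro hn
      obtain ⟨M₁, h1, h2, h3, h4⟩ := ih (by omega)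
      have hanti : F (k - 1 - n) ≤ F (k - 1 - (n + 1)) := by
        have := h.anti (k - 1 - (n + 1)) (by omega)
        rwa [show k - 1 - (n + 1) + 1 = k - 1 - n by omega] at this
      obtain ⟨M, h5, h6, h7, h8⟩ := exists_maxAb (F (k - 1 - (n + 1))) M₁ (h1.trans hanti) h2
      refine ⟨M, h6, h7, h5 h3, ?_⟩
      intro j hj1 hj2 g hg hc
      by_cases hj : j = k - 1 - (n + 1)
      · rw [hj] at hg hc
        exact h8 g hg (fun m hm => hc m ⟨hm, h6 hm⟩)
      · apply h5
        exact h4 j (by omega) hj2 g hg (fun m hm => hc m ⟨h5 hm.1, hm.2⟩)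
  obtain ⟨M, h1, h2, h3, h4⟩ := key (k - 1) (by have := h.hk; omega)
  rw [show k - 1 - (k - 1) = 0 by omega] at h1
  exact ⟨M, h1, h2, h3, fun j hj => h4 j (by omega) hj⟩

section Oper

variable {K : Type u} [Field K] [CharP K 2] {V : Type v} [AddCommGroup V] [Module K V]

/-- Product of the factors along a list. -/
def P (τ : Γ →* End K V) (l : List Γ) : End K V := (l.map (fun g => τ g - 1)).prod

omit [CharP K 2] in
theorem comm_factor (τ : Γ →* End K V) (M : Subgroup Γ) (hM : ∀ a ∈ M, ∀ b ∈ M, a * b = b * a) {w w' : Γ}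
    (hw : w ∈ M) (hw' : w' ∈ M) : Commute (τ w - 1) (τ w' - 1) := by
  have hc : Commute (τ w) (τ w') := by
    show τ w * τ w' = τ w' * τ w
    rw [← map_mul, ← map_mul, hM w hw w' hw']
  exact (hc.sub_right (Commute.one_right _)).sub_left ((Commute.one_left _).sub_right (Commute.one_right _))

omit [CharP K 2] in
theorem comm_P (τ : Γ →* End K V) (M : Subgroup Γ) (hM : ∀ a ∈ M, ∀ b ∈ M, a * b = b * a) {w : Γ} (hw : w ∈ M)
    (l : List Γ) (hl : ∀ g ∈ l, g ∈ M) : Commute (τ w - 1) (P τ l) := by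
  apply Commute.list_prod_right
  intro y hy
  obtain ⟨g, hg, rfl⟩ := List.mem_map.1 hy
  exact comm_factor τ M hM hw (hl g hg)

omit [CharP K 2] in
theorem comm_PP (τ : Γ →* End K V) (M : Subgroup Γ) (hM : ∀ a ∈ M, ∀ b ∈ M, a * b = b * a)
    (l l' : List Γ) (hl : ∀ g ∈ l, g ∈ M) (hl' : ∀ g ∈ l', g ∈ M) : Commute (P τ l) (P τ l') := by
  apply Commute.list_prod_left
  intro y hy
  obtain ⟨g, hg, rfl⟩ := List.mem_map.1 hy
  exact comm_P τ M hM (hl g hg) l' hl'

omit [CharP K 2] in
theorem chain_eq (τ : Γ →* End K V) (M : Subgroup Γ) (hM : ∀ a ∈ M, ∀ b ∈ M, a * b = b * a) (y : ℕ → Γ) (n : ℕ) :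
    ∀ s, (∀ i, s ≤ i → i < s + n → y i ∈ M) →
      chainProd τ (fun i => y (s + i)) n = P τ ((List.range' s n).map y) := by
  induction n with
  | zero => intro s _; simp [P]
  | succ n ih =>
    intro s hy
    have h1 := chainProd_add τ (fun i => y (s + i)) 1 n
    rw [show 1 + n = n + 1 by ring] at h1
    rw [h1]
    have h2 : (fun j => (fun i => y (s + i)) (1 + j)) = fun j => y (s + 1 + j) := by
      funext j
      show y (s + (1 + j)) = y (s + 1 + j)
      rw [add_assoc]
    rw [h2, ih (s + 1) (fun i h3 h4 => hy i (by omega) (by omega))]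
    have hl : ∀ g ∈ (List.range' (s + 1) n).map y, g ∈ M := by
      intro g hg
      obtain ⟨i, hi, rfl⟩ := List.mem_map.1 hg
      rw [List.mem_range'_1] at hi
      exact hy i (by omega) (by omega)
    have hc := comm_P τ M hM (hy s le_rfl (by omega)) _ hl
    rw [List.range'_succ, List.map_cons]
    show _ * ((τ (y (s + 0)) - 1) * 1) = (τ (y s) - 1) * P τ _
    rw [add_zero, mul_one]
    exact hc.eq.symm

theorem sq_factor (τ : Γ →* End K V) (v : Γ) : (τ v - 1) * (τ v - 1) = τ (v * v) - 1 := by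
  have h2 : (τ v) + (τ v) = 0 := by
    have : ((2 : K)) • (τ v) = 0 := by
      rw [CharTwo.two_eq_zero, zero_smul]
    rwa [two_smul] at this
  have h3 : (1 : End K V) + 1 = 0 := by
    have : ((2 : K)) • (1 : End K V) = 0 := by
      rw [CharTwo.two_eq_zero, zero_smul]
    rwa [two_smul] at this
  rw [map_mul]
  have h4 : (τ v - 1) * (τ v - 1) = τ v * τ v - (τ v + τ v) + 1 := by noncomm_ring
  rw [h4, h2]
  have h5 : (1 : End K V) = -1 := by
    rw [eq_neg_iff_add_eq_zero]; exact h3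
  rw [sub_zero]
  nth_rewrite 1 [h5]
  rw [sub_eq_add_neg]

end Oper

/-- **Selection.** -/
theorem exists_chain {K : Type u} [Field K] [CharP K 2] {V : Type v} [AddCommGroup V] [Module K V] [Finite Γ]
    (τ : Γ →* End K V) {k : ℕ} {F : ℕ → Subgroup Γ} {D : Subgroup Γ} {z : Γ} (h : Flag k F D z)
    (hN : ∀ L : List Γ, (∀ g ∈ L, g ∈ F 0) → (∀ g ∈ L, g * g = 1) → L.Pairwise Commute → LIndep L →
      (L.map (fun g => τ g - 1)).prod ≠ 0) :
    ∃ y : ℕ → Γ, (∀ j < k, y j ∈ F j) ∧ chainProd τ y k ≠ 0 := by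
  classical
  have hk := h.hk
  have hanti : ∀ i j, j ≤ i → i < k → F i ≤ F j := by
    intro i j hji
    induction hji with
    | refl => exact fun _ => le_rfl
    | step hle ih => exact fun hi => (h.anti _ (by omega)).trans (ih (by omega))
  obtain ⟨M, hMF, hM, hzM, hself⟩ := exists_tower h
  have hF0 : ∀ j, j < k → F j ≤ F 0 := fun j hj => hanti j 0 (Nat.zero_le _) hj
  have hzF : ∀ j, j < k → z ∈ F j := fun j hj => hanti (k - 1) j (by omega) (by omega) h.hz
  have hlev := fun j (hj : j < k) => level (F j) D M (fun x hx => h.sq x (hF0 j hj hx))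
    (fun x hx y hy => h.cm x (hF0 j hj hx) y (hF0 j hj hy))
    (fun d hd x hx => h.Dc d hd x (hF0 j hj hx)) h.D2 hM (hself j hj) z (hzF j hj) hzM h.hzD (k - 1 - j) (h.dim j hj)
  have hpow : ∀ {u v : ℕ}, u ≤ v → 2 ^ u ≤ 2 ^ v := fun {u v} huv => Nat.pow_le_pow_right (by norm_num) huv
  have hL1 : ∀ j, j < k → 2 ^ (k - 1 - j + 1) ≤ Nat.card (M ⊓ F j : Subgroup Γ) := by
    intro j hj
    obtain ⟨ρ, n, r, h1, h2, h3, h4, h5, h6, h7, h8⟩ := hlev j hj
    rw [h2]
    apply hpow
    have := numB _ _ _ h7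
    omega
  have hL2 : ∀ j, j < k → 1 ≤ j → ∀ b ∈ D, b ≠ 1 → b ∈ (M ⊓ F j : Subgroup Γ) →
      2 ^ (k - 1 - j + 2) ≤ Nat.card (M ⊓ F j : Subgroup Γ) := by
    intro j hj hj1 b hbD hb1 hbM
    obtain ⟨ρ, n, r, h1, h2, h3, h4, h5, h6, h7, h8⟩ := hlev j hj
    rw [h2]
    apply hpow
    have hρ1 : 1 ≤ ρ := by
      by_contra hc
      have : ρ = 0 := by omega
      subst this
      rw [pow_zero] at h1
      have hbE : b ∈ (F j ⊓ D : Subgroup Γ) := ⟨hbM.2, hbD⟩
      have := (Subgroup.card_eq_one.mp h1)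
      rw [this] at hbE
      exact hb1 (Subgroup.mem_bot.1 hbE)
    rcases h.alt with halt | halt
    · have := numC1 (k - 1 - j) n ρ h4 hρ1 (h8 (fun x hx => halt x (hanti j 1 hj1 hj hx)))
      omega
    · have hle : (F (k - 1) ⊓ D : Subgroup Γ) ≤ F j ⊓ D :=
        inf_le_inf_right _ (hanti (k - 1) j (by omega) (by omega))
      have h9 := halt.trans (Subgroup.card_le_of_le hle)
      rw [h1] at h9
      have hρ2 : 2 ≤ ρ := by
        by_contra hc
        have : ρ = 1 := by omega
        subst this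
        omega
      have := numC2 (k - 1 - j) n ρ h4 hρ2 h7
      omega
  have hL3 : ∀ j, j < k → 2 ^ (k - 1 - j) ≤ Nat.card (omegaSub M hM ⊓ F j : Subgroup Γ) := by
    intro j hj
    obtain ⟨ρ, n, r, h1, h2, h3, h4, h5, h6, h7, h8⟩ := hlev j hj
    rw [h3]
    exact hpow (numA _ _ _ _ h7 h5 h6)
  have hpw : ∀ L : List Γ, (∀ g ∈ L, g ∈ M) → L.Pairwise Commute := by
    intro L hL
    induction L with
    | nil => exact List.Pairwise.nil
    | cons g L ih =>
      refine List.Pairwise.cons ?_ (ih (fun x hx => hL x (List.mem_cons_of_mem _ hx)))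
      intro x hx
      exact hM g (hL g List.mem_cons_self) x (hL x (List.mem_cons_of_mem _ hx))
  by_cases hel : ∀ x ∈ M, x * x = 1
  · -- all elementary
    obtain ⟨y, hy, hLi⟩ := select M hM (fun i => M ⊓ F i) [] (by simp) trivial 1
      (by
        have : ({x | x ∈ ([] : List Γ)} : Set Γ) = ∅ := by ext; simp
        rw [this, Subgroup.closure_empty]; simp) k 0
      (fun i _ _ => ⟨inf_le_left, fun x hx => hel x hx.1⟩)
      (by
        intro i _ hi C _ hC
        by_contra hc
        push Not at hc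
        have hle : (M ⊓ F i : Subgroup Γ) ≤ C := fun x hx => hc x hx
        have h1 := hL1 i (by omega)
        have h2 := Subgroup.card_le_of_le hle
        have h3 : 2 ^ (k - 1 - i + 1) ≤ 2 ^ (0 + k - 1 - i) * 1 := h1.trans (h2.trans hC)
        rw [mul_one, show 0 + k - 1 - i = k - 1 - i by omega, pow_succ] at h3
        have : 0 < 2 ^ (k - 1 - i) := by positivity
        omega)
    refine ⟨y, fun j hj => (hy j (Nat.zero_le _) (by omega)).2, ?_⟩
    have hmem : ∀ g ∈ (List.range' 0 k).map y, g ∈ M ∧ g ∈ F 0 := by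
      intro g hg
      obtain ⟨i, hi, rfl⟩ := List.mem_map.1 hg
      rw [List.mem_range'_1] at hi
      have := hy i (Nat.zero_le _) (by omega)
      exact ⟨this.1, hMF this.1⟩
    have hce := chain_eq τ M hM y k 0 (fun i _ hi => (hy i (Nat.zero_le _) hi).1)
    have hfun : (fun i => y (0 + i)) = y := by funext i; rw [zero_add]
    rw [hfun] at hce
    rw [hce]
    rw [List.append_nil] at hLi
    exact hN _ (fun g hg => (hmem g hg).2) (fun g hg => hel g (hmem g hg).1)
      (hpw _ (fun g hg => (hmem g hg).1)) hLi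
  · -- a non-elementary level
    push Not at hel
    obtain ⟨x₀, hx₀, hx₀2⟩ := hel
    let Pj : ℕ → Prop := fun j => ∃ v ∈ (M ⊓ F j : Subgroup Γ), v * v ≠ 1
    have hP0 : Pj 0 := ⟨x₀, ⟨hx₀, hMF hx₀⟩, hx₀2⟩
    obtain ⟨js, hjs, hjsk, hjsmax⟩ : ∃ js, Pj js ∧ js ≤ k - 1 ∧ ∀ i, js < i → i ≤ k - 1 → ¬ Pj i :=
      ⟨Nat.findGreatest Pj (k - 1), Nat.findGreatest_spec (Nat.zero_le _) hP0, Nat.findGreatest_le _,
        fun i h1 h2 => Nat.findGreatest_is_greatest h1 h2⟩
    obtain ⟨v, hv, hvv⟩ := hjs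
    have hbD : v * v ∈ D := h.sq v (hF0 js (by omega) hv.2)
    have hbb : (v * v) * (v * v) = 1 := h.D2 _ hbD
    have hbM : v * v ∈ M := M.mul_mem hv.1 hv.1
    have hb0 : v * v ∈ F 0 := h.Dle hbD
    have helt : ∀ i, js < i → i < k → ∀ x ∈ (M ⊓ F i : Subgroup Γ), x * x = 1 := by
      intro i h1 h2 x hx
      by_contra hc
      exact hjsmax i h1 (by omega) ⟨x, hx, hc⟩
    have hcl : Nat.card (Subgroup.closure {x | x ∈ [v * v]}) ≤ 2 := by
      have : ({x | x ∈ [v * v]} : Set Γ) = insert (v * v) ∅ := by ext; simp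
      rw [this]
      refine (card_closure_insert_le _ _ hbb (by simp)).trans ?_
      rw [Subgroup.closure_empty]; simp
    have hLib : LIndep [v * v] := by
      refine ⟨?_, trivial⟩
      have : ({x | x ∈ ([] : List Γ)} : Set Γ) = ∅ := by ext; simp
      rw [this, Subgroup.closure_empty]
      exact fun hc => hvv (Subgroup.mem_bot.1 hc)
    -- the top part
    obtain ⟨y₁, hy₁, hL₁⟩ := select M hM (fun i => M ⊓ F i) [v * v] (by simpa using hbM) hLib 2 hcl (k - 1 - js) (js + 1)
      (fun i h1 h2 => ⟨inf_le_left, helt i (by omega) (by omega)⟩)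
      (by
        intro i h1 h2 C hCb hC
        by_contra hc
        push Not at hc
        have hle : (M ⊓ F i : Subgroup Γ) ≤ C := fun x hx => hc x hx
        have hbC : v * v ∈ C := hCb _ (by simp)
        rw [show js + 1 + (k - 1 - js) - 1 - i = k - 1 - i by omega] at hC
        have hpos : 0 < 2 ^ (k - 1 - i) := by positivity
        by_cases hbi : v * v ∈ (M ⊓ F i : Subgroup Γ)
        · have h3 := hL2 i (by omega) (by omega) _ hbD hvv hbi
          have h4 := h3.trans ((Subgroup.card_le_of_le hle).trans hC)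
          rw [pow_add] at h4
          omega
        · have hlt : (M ⊓ F i : Subgroup Γ) < C := lt_of_le_of_ne hle (fun e => hbi (e ▸ hbC))
          have h3 := two_mul_card_le_of_lt hlt
          have h4 := hL1 i (by omega)
          rw [pow_succ] at h4
          omega)
    set top : List Γ := (List.range' (js + 1) (k - 1 - js)).map y₁ with htop
    have htopmem : ∀ g ∈ top, g ∈ M ∧ g ∈ F 0 ∧ g * g = 1 := by
      intro g hg
      obtain ⟨i, hi, rfl⟩ := List.mem_map.1 hg
      rw [List.mem_range'_1] at hi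
      have h1 := hy₁ i hi.1 hi.2
      exact ⟨h1.1, hMF h1.1, helt i (by omega) (by omega) _ h1⟩
    have htopc : top.length = k - 1 - js := by simp [htop]
    have hchain_top : ∀ y : ℕ → Γ, (∀ i, js + 1 ≤ i → y i = y₁ i) →
        chainProd τ (fun i => y (js + 1 + i)) (k - 1 - js) = P τ top := by
      intro y hyy
      have h1 : ∀ i, js + 1 ≤ i → i < js + 1 + (k - 1 - js) → y i ∈ M := by
        intro i h2 h3
        rw [hyy i h2]
        exact (hy₁ i h2 h3).1
      have hl : (List.range' (js + 1) (k - 1 - js)).map y = (List.range' (js + 1) (k - 1 - js)).map y₁ :=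
        List.map_congr_left (fun i hi => hyy i ((List.mem_range'_1.1 hi).1))
      rw [chain_eq τ M hM y _ _ h1, hl]
    have hsqv := sq_factor τ v
    rcases Nat.eq_zero_or_pos js with hjs0 | hjspos
    · -- `j* = 0`
      subst hjs0
      refine ⟨fun i => if i = 0 then v else y₁ i, ?_, ?_⟩
      · intro j hj
        by_cases hj0 : j = 0
        · subst hj0; simpa using hv.2
        · simp only [hj0, if_false]
          exact (hy₁ j (by omega) (by omega)).2
      · set y : ℕ → Γ := fun i => if i = 0 then v else y₁ i with hydef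
        have h1 := chainProd_add τ y 1 (k - 1)
        rw [show 1 + (k - 1) = k by omega] at h1
        rw [h1]
        have h2 : chainProd τ (fun i => y (0 + 1 + i)) (k - 1) = P τ top := hchain_top y (fun i hi => by
          have : i ≠ 0 := by omega
          simp [hydef, this])
        rw [show (fun j => y (1 + j)) = fun i => y (0 + 1 + i) by funext j; simp, h2]
        have h3 : chainProd τ y 1 = τ v - 1 := by
          simp [hydef]
        rw [h3]
        intro h0
        have hmem : ∀ g ∈ top ++ [v * v], g ∈ M ∧ g ∈ F 0 ∧ g * g = 1 := by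
          intro g hg
          rcases List.mem_append.1 hg with hg | hg
          · exact htopmem g hg
          · rw [List.mem_singleton] at hg
            subst hg
            exact ⟨hbM, hb0, hbb⟩
        apply hN _ (fun g hg => (hmem g hg).2.1) (fun g hg => (hmem g hg).2.2)
          (hpw _ (fun g hg => (hmem g hg).1)) hL₁
        rw [List.map_append, List.prod_append]
        show P τ top * _ = 0
        simp only [List.map_cons, List.map_nil, List.prod_cons, List.prod_nil, mul_one]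
        rw [← hsqv, ← mul_assoc, h0, zero_mul]
    · -- `j* ≥ 1`
      obtain ⟨t, rfl⟩ : ∃ t, js = t + 1 := ⟨js - 1, by omega⟩
      obtain ⟨y₂, hy₂, hL₂⟩ := select M hM (fun i => omegaSub M hM ⊓ F i) (top ++ [v * v])
        (by
          intro g hg
          rcases List.mem_append.1 hg with hg | hg
          · exact (htopmem g hg).1
          · rw [List.mem_singleton] at hg
            rw [hg]; exact hbM)
        hL₁ (2 ^ (k - 1 - (t + 1)) * 2)
        (by
          have := card_closure_list_le M hM top [v * v] (fun g hg => ⟨(htopmem g hg).1, (htopmem g hg).2.2⟩)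
            (by simpa using hbM)
          rw [htopc] at this
          exact this.trans (Nat.mul_le_mul_left _ hcl)) t 0
        (fun i _ _ => ⟨fun x hx => hx.1.1, fun x hx => hx.1.2⟩)
        (by
          intro i _ hi C _ hC
          by_contra hc
          push Not at hc
          have hle : (omegaSub M hM ⊓ F i : Subgroup Γ) ≤ C := fun x hx => hc x hx
          have h1 := hL3 i (by omega)
          have h2 := h1.trans ((Subgroup.card_le_of_le hle).trans hC)
          have h3 : 2 ^ (0 + t - 1 - i) * (2 ^ (k - 1 - (t + 1)) * 2) * 2 = 2 ^ (k - 1 - i) := by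
            rw [show k - 1 - i = (0 + t - 1 - i) + (k - 1 - (t + 1)) + 1 + 1 by omega]
            ring
          have hpos : 0 < 2 ^ (0 + t - 1 - i) * (2 ^ (k - 1 - (t + 1)) * 2) := by positivity
          omega)
      set bot : List Γ := (List.range' 0 t).map y₂ with hbot
      have hbotmem : ∀ g ∈ bot, g ∈ M ∧ g ∈ F 0 ∧ g * g = 1 := by
        intro g hg
        obtain ⟨i, hi, rfl⟩ := List.mem_map.1 hg
        rw [List.mem_range'_1] at hi
        have h1 := hy₂ i (Nat.zero_le _) (by omega)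
        exact ⟨h1.1.1, hMF h1.1.1, h1.1.2⟩
      refine ⟨fun i => if i < t then y₂ i else if i ≤ t + 1 then v else y₁ i, ?_, ?_⟩
      · intro j hj
        by_cases h1 : j < t
        · simp only [h1, if_true]
          exact (hy₂ j (Nat.zero_le _) (by omega)).2
        · simp only [h1, if_false]
          by_cases h2 : j ≤ t + 1
          · simp only [h2, if_true]
            exact hanti (t + 1) j h2 (by omega) hv.2
          · simp only [h2, if_false]
            exact (hy₁ j (by omega) (by omega)).2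
      · set y : ℕ → Γ := fun i => if i < t then y₂ i else if i ≤ t + 1 then v else y₁ i with hydef
        have hyt : y t = v := by simp [hydef]
        have hyt1 : y (t + 1) = v := by simp [hydef]
        have h1 := chainProd_add τ y (t + 1 + 1) (k - 1 - (t + 1))
        rw [show t + 1 + 1 + (k - 1 - (t + 1)) = k by omega] at h1
        rw [h1]
        have h2 := hchain_top y (fun i hi => by
          have h5 : ¬ i < t := by omega
          have h6 : ¬ i ≤ t + 1 := by omega
          simp [hydef, h5, h6])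
        rw [h2]
        have h3 : chainProd τ y t = P τ bot := by
          have h4 := chain_eq τ M hM y t 0 (fun i _ hi => by
            have h5 : i < t := by omega
            simp only [hydef, h5, if_true]
            exact (hy₂ i (Nat.zero_le _) (by omega)).1.1)
          have hfun : (fun i => y (0 + i)) = y := by funext i; rw [zero_add]
          rw [hfun] at h4
          have hl : (List.range' 0 t).map y = (List.range' 0 t).map y₂ :=
            List.map_congr_left (fun i hi => by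
              have h5 : i < t := by
                have := (List.mem_range'_1.1 hi).2
                omega
              simp [hydef, h5])
          rw [h4, hl]
        rw [chainProd_succ, chainProd_succ, h3, hyt, hyt1]
        have hmem : ∀ g ∈ bot ++ (top ++ [v * v]), g ∈ M ∧ g ∈ F 0 ∧ g * g = 1 := by
          intro g hg
          rcases List.mem_append.1 hg with hg | hg
          · exact hbotmem g hg
          rcases List.mem_append.1 hg with hg | hg
          · exact htopmem g hg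
          · rw [List.mem_singleton] at hg
            subst hg
            exact ⟨hbM, hb0, hbb⟩
        have hne := hN _ (fun g hg => (hmem g hg).2.1) (fun g hg => (hmem g hg).2.2)
          (hpw _ (fun g hg => (hmem g hg).1)) hL₂
        have hAB := comm_PP τ M hM bot top (fun g hg => (hbotmem g hg).1) (fun g hg => (htopmem g hg).1)
        have hdA := comm_P τ M hM hbM bot (fun g hg => (hbotmem g hg).1)
        intro h0
        apply hne
        rw [List.map_append, List.prod_append, List.map_append, List.prod_append]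
        show P τ bot * (P τ top * _) = 0
        simp only [List.map_cons, List.map_nil, List.prod_cons, List.prod_nil, mul_one]
        rw [← hsqv] at hdA ⊢
        have h5 : P τ top * ((τ v - 1) * ((τ v - 1) * P τ bot)) =
            P τ bot * (P τ top * ((τ v - 1) * (τ v - 1))) := by
          calc P τ top * ((τ v - 1) * ((τ v - 1) * P τ bot))
              = P τ top * (((τ v - 1) * (τ v - 1)) * P τ bot) := by rw [mul_assoc]
            _ = P τ top * (P τ bot * ((τ v - 1) * (τ v - 1))) := by rw [hdA.eq]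
            _ = (P τ top * P τ bot) * ((τ v - 1) * (τ v - 1)) := by rw [mul_assoc]
            _ = (P τ bot * P τ top) * ((τ v - 1) * (τ v - 1)) := by rw [hAB.eq]
            _ = _ := by rw [mul_assoc]
        rw [← h5]
        exact h0

--PARTC
end Cfsg.Agent.Lib.BryD.Sel
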