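/-
Bryukhanova's theorem, derived length version (forum topic bry-s4259).
MODULE L: the local theorem (a faithful action on one homogeneous component).
-/
import Cfsg.Agent.Lib.BryD.Sel
import Cfsg.Agent.Lib.BryD.Dims
import Cfsg.Agent.Lib.Involutions2.NormalFour

set_option autoImplicit false

namespace Cfsg.Agent.Lib.BryD.Local

open Module Cfsg.Agent.Lib.BryD.Basic Cfsg.Agent.Lib.BryD.Norm Cfsg.Agent.Lib.BryD.Sel
open scoped commutatorElement

universe u v w

section aux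

variable {Γ : Type w} [Group Γ]

theorem comm_conj {H K : Subgroup Γ} {g : Γ} (hH : ∀ x ∈ H, g * x * g⁻¹ ∈ H) (hK : ∀ x ∈ K, g * x * g⁻¹ ∈ K)
    {x : Γ} (hx : x ∈ ⁅H, K⁆) : g * x * g⁻¹ ∈ ⁅H, K⁆ := by
  have h : ⁅H, K⁆ ≤ (⁅H, K⁆).comap (MulAut.conj g).toMonoidHom := by
    rw [Subgroup.commutator_le]
    intro a ha b hb
    rw [Subgroup.mem_comap]
    have := Subgroup.commutator_mem_commutator (hH a ha) (hK b hb)
    simp only [MulEquiv.toMonoidHom_eq_coe, MonoidHom.coe_coe, MulAut.conj_apply, commutatorElement_def] at this ⊢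
    convert this using 1
    group
  simpa [Subgroup.mem_comap, MulAut.conj_apply] using h hx

theorem dser_conj (A : Subgroup Γ) {g : Γ} (hg : g ∈ A) (n : ℕ) : ∀ x ∈ dser A n, g * x * g⁻¹ ∈ dser A n := by
  induction n with
  | zero => intro x hx; exact A.mul_mem (A.mul_mem hg hx) (A.inv_mem hg)
  | succ n ih => intro x hx; exact comm_conj ih ih hx

theorem tser_conj (A T : Subgroup Γ) {g : Γ} (hg : g ∈ A) (hT : ∀ x ∈ T, g * x * g⁻¹ ∈ T) (n : ℕ) :
    ∀ x ∈ tser A T n, g * x * g⁻¹ ∈ tser A T n := by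
  induction n with
  | zero => exact hT
  | succ n ih => intro x hx; exact comm_conj ih (dser_conj A hg n) hx

theorem tser_succ_le (A T : Subgroup Γ) (hAT : A ≤ Subgroup.normalizer (T : Set Γ)) (n : ℕ) :
    tser A T (n + 1) ≤ tser A T n := by
  rw [tser_succ, Subgroup.commutator_le]
  intro x hx g hg
  have hgA : g ∈ A := dser_le A n hg
  have h1 := tser_conj A T hgA (fun y hy => (Subgroup.mem_normalizer_iff.mp (hAT hgA) y).mp hy) n x⁻¹
    (Subgroup.inv_mem _ hx)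
  have : ⁅x, g⁆ = x * (g * x⁻¹ * g⁻¹) := by rw [commutatorElement_def]; group
  rw [this]
  exact Subgroup.mul_mem _ hx h1

theorem tser_anti (A T : Subgroup Γ) (hAT : A ≤ Subgroup.normalizer (T : Set Γ)) {a b : ℕ} (h : a ≤ b) :
    tser A T b ≤ tser A T a := by
  induction h with
  | refl => exact le_rfl
  | step _ ih => exact (tser_succ_le A T hAT _).trans ih

theorem exists_central [Finite Γ] (A X D : Subgroup Γ) (h2 : IsPGroup 2 A) (hXA : X ≤ A) (hDA : D ≤ A)
    (hAX : A ≤ Subgroup.normalizer (X : Set Γ)) (hAD : A ≤ Subgroup.normalizer (D : Set Γ)) (hne : ¬ X ≤ D) :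
    ∃ z ∈ X, z ∉ D ∧ ∀ g ∈ A, g * z * g⁻¹ * z⁻¹ ∈ D := by
  haveI : (D.subgroupOf A).Normal := by
    constructor
    intro n hn g
    rw [Subgroup.mem_subgroupOf] at hn ⊢
    exact (Subgroup.mem_normalizer_iff.mp (hAD g.2) _).mp hn
  haveI : Fact (Nat.Prime 2) := ⟨Nat.prime_two⟩
  have hA' : IsPGroup 2 (↥A ⧸ D.subgroupOf A) := IsPGroup.to_quotient h2 _
  let N : Subgroup (↥A ⧸ D.subgroupOf A) := (X.subgroupOf A).map (QuotientGroup.mk' (D.subgroupOf A))
  haveI hNn : N.Normal := by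
    haveI : (X.subgroupOf A).Normal := by
      constructor
      intro n hn g
      rw [Subgroup.mem_subgroupOf] at hn ⊢
      exact (Subgroup.mem_normalizer_iff.mp (hAX g.2) _).mp hn
    exact Subgroup.Normal.map inferInstance _ (QuotientGroup.mk'_surjective _)
  have hN1 : N ≠ ⊥ := by
    intro hb
    apply hne
    intro x hx
    have hxA : x ∈ A := hXA hx
    have : QuotientGroup.mk' (D.subgroupOf A) (⟨x, hxA⟩ : A) ∈ N :=
      Subgroup.mem_map_of_mem _ (by rwa [Subgroup.mem_subgroupOf])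
    rw [hb, Subgroup.mem_bot] at this
    have h3 := (QuotientGroup.eq_one_iff _).mp this
    simpa [Subgroup.mem_subgroupOf] using h3
  have hcen := Cfsg.Agent.Lib.Involutions2.NormalFour.inf_center_ne_bot hA' N hN1
  obtain ⟨n, hn, hn1⟩ := (Subgroup.bot_or_exists_ne_one _).resolve_left hcen
  obtain ⟨hnN, hnc⟩ := hn
  obtain ⟨x, hx, rfl⟩ := hnN
  have hx' : x.1 ∈ X := Subgroup.mem_subgroupOf.mp hx
  refine ⟨x.1, hx', ?_, ?_⟩
  · intro hxD
    apply hn1
    exact (QuotientGroup.eq_one_iff _).mpr (by rwa [Subgroup.mem_subgroupOf])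
  · intro g hg
    have h1 := (Subgroup.mem_center_iff.mp hnc) (QuotientGroup.mk' (D.subgroupOf A) (⟨g, hg⟩ : A))
    have h2 : QuotientGroup.mk' (D.subgroupOf A) ((⟨g, hg⟩ : A) * x * (⟨g, hg⟩ : A)⁻¹ * x⁻¹) = 1 := by
      simp only [map_mul, map_inv, h1]
      group
    have h3 := (QuotientGroup.eq_one_iff _).mp h2
    simpa [Subgroup.mem_subgroupOf] using h3

theorem card_le_two_central [Finite Γ] (Q : Subgroup Γ) (hQ : Nat.card Q ≤ 2) {g : Γ}
    (hg : ∀ x ∈ Q, g * x * g⁻¹ ∈ Q) : ∀ x ∈ Q, g * x * g⁻¹ = x := by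
  intro x hx
  by_cases hx1 : x = 1
  · simp [hx1]
  have hcard : Nat.card Q = 2 := by
    have h1 : Nat.card Q ≠ 0 := Nat.card_pos.ne'
    have h2 : Nat.card Q ≠ 1 := by
      intro h
      have := Subgroup.eq_bot_of_card_eq Q h
      rw [this, Subgroup.mem_bot] at hx
      exact hx1 hx
    omega
  obtain ⟨y, -, hy⟩ := (Nat.card_eq_two_iff' (1 : Q)).mp hcard
  have a1 := hy ⟨x, hx⟩ (by intro h; exact hx1 (congrArg Subtype.val h))
  have a2 := hy ⟨g * x * g⁻¹, hg x hx⟩ (by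
    intro h
    have h' : g * x * g⁻¹ = 1 := congrArg Subtype.val h
    apply hx1
    have : x = g⁻¹ * (g * x * g⁻¹) * g := by group
    rw [this, h']
    group)
  have := a2.trans a1.symm
  exact congrArg Subtype.val this

end aux

/-- **Local theorem.** -/
theorem exists_chain_ne_zero {K : Type u} [Field K] [CharP K 2] {V : Type v} [AddCommGroup V] [Module K V]
    [Nontrivial V] {Γ : Type w} [Group Γ] [Finite Γ] (τ : Γ →* End K V) (hτ : Function.Injective τ)
    {q : ℕ} [Fact q.Prime] (hq : q ≠ 2) (R A T D : Subgroup Γ) (hRq : IsPGroup q R)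
    (hRc : ∀ a ∈ R, ∀ b ∈ R, ∀ c ∈ R, (a * b * a⁻¹ * b⁻¹) * c = c * (a * b * a⁻¹ * b⁻¹))
    (hscal : ∀ c ∈ R, (∀ r ∈ R, c * r = r * c) → ∃ l : K, τ c = l • (1 : End K V))
    (hA2 : IsPGroup 2 A) (hAR : A ≤ Subgroup.normalizer (R : Set Γ)) (hTA : T ≤ A)
    (hAT : A ≤ Subgroup.normalizer (T : Set Γ)) (hAD : A ≤ Subgroup.normalizer (D : Set Γ)) (hDT : D ≤ T)
    (hDc : ∀ d ∈ D, ∀ x ∈ T, d * x = x * d) (hD2 : ∀ d ∈ D, d * d = 1)
    (hsq : ∀ x ∈ T, x * x ∈ D) (hcm : ∀ x ∈ T, ∀ y ∈ T, x * y * x⁻¹ * y⁻¹ ∈ D)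
    (hfT : ∀ y ∈ T, (∀ r ∈ R, y * r = r * y) → y = 1)
    (k : ℕ) (hk : 1 ≤ k) (hne : ¬ tser A T (k - 1) ≤ D) :
    ∃ y : ℕ → Γ, (∀ j < k, y j ∈ tser A T j) ∧ chainProd τ y k ≠ 0 := by
  classical
  have hF_T : ∀ j, tser A T j ≤ T := fun j => tser_anti A T hAT (Nat.zero_le j)
  have hFconj : ∀ j, ∀ g ∈ A, ∀ x ∈ tser A T j, g * x * g⁻¹ ∈ tser A T j := fun j g hg =>
    tser_conj A T hg (fun y hy => (Subgroup.mem_normalizer_iff.mp (hAT hg) y).mp hy) j
  have hFnorm : ∀ j, A ≤ Subgroup.normalizer (tser A T j : Set Γ) := by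
    intro j g hg
    rw [Subgroup.mem_normalizer_iff]
    intro x
    refine ⟨hFconj j g hg x, fun h => ?_⟩
    have := hFconj j g⁻¹ (A.inv_mem hg) _ h
    simpa [mul_assoc] using this
  have hDA : D ≤ A := hDT.trans hTA
  -- choice of z
  obtain ⟨z, hzX, hzD, hzc⟩ := exists_central A (tser A T (k - 1)) D hA2
    ((hF_T _).trans hTA) hDA (hFnorm _) hAD hne
  have hzT : z ∈ T := hF_T _ hzX
  -- the alternative
  have halt : (∀ y ∈ tser A T 1, z * y = y * z) ∨ 4 ≤ Nat.card (tser A T (k - 1) ⊓ D : Subgroup Γ) := by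
    by_cases hQ : 4 ≤ Nat.card (tser A T (k - 1) ⊓ D : Subgroup Γ)
    · exact Or.inr hQ
    left
    set Q := (tser A T (k - 1) ⊓ D : Subgroup Γ) with hQdef
    have hQ2 : IsPGroup 2 Q := hA2.to_le (inf_le_right.trans hDA)
    have hQcard : Nat.card Q ≤ 2 := by
      obtain ⟨n, hn⟩ := IsPGroup.iff_card.mp hQ2
      rw [hn] at hQ ⊢
      have hn1 : n ≤ 1 := by
        by_contra hcon
        apply hQ
        have : 2 ^ 2 ≤ 2 ^ n := Nat.pow_le_pow_right (by norm_num) (by omega)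
        simpa using this
      calc 2 ^ n ≤ 2 ^ 1 := Nat.pow_le_pow_right (by norm_num) hn1
        _ = 2 := by norm_num
    have hQconj : ∀ g ∈ A, ∀ x ∈ Q, g * x * g⁻¹ ∈ Q := fun g hg x hx =>
      ⟨hFconj _ g hg x hx.1, (Subgroup.mem_normalizer_iff.mp (hAD hg) x).mp hx.2⟩
    have hQc : ∀ g ∈ A, ∀ x ∈ Q, g * x * g⁻¹ = x := fun g hg =>
      card_le_two_central Q hQcard (hQconj g hg)
    have hcQ : ∀ x ∈ T, z * x * z⁻¹ * x⁻¹ ∈ Q := by
      intro x hx
      refine ⟨?_, hcm z hzT x hx⟩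
      have h1 := hFconj (k - 1) x (hTA hx) z⁻¹ (Subgroup.inv_mem _ hzX)
      have : z * x * z⁻¹ * x⁻¹ = z * (x * z⁻¹ * x⁻¹) := by group
      rw [this]
      exact Subgroup.mul_mem _ hzX h1
    have hmul : ∀ a ∈ T, ∀ b ∈ T,
        z * (a * b) * z⁻¹ * (a * b)⁻¹ = (z * a * z⁻¹ * a⁻¹) * (z * b * z⁻¹ * b⁻¹) := by
      intro a ha b hb
      have h1 := hDc _ (hcm z hzT b hb) a⁻¹ (T.inv_mem ha)
      calc z * (a * b) * z⁻¹ * (a * b)⁻¹ = (z * a * z⁻¹) * ((z * b * z⁻¹ * b⁻¹) * a⁻¹) := by group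
        _ = (z * a * z⁻¹) * (a⁻¹ * (z * b * z⁻¹ * b⁻¹)) := by rw [h1]
        _ = _ := by group
    have hinv : ∀ g ∈ A, ∀ x ∈ T, z * (g * x * g⁻¹) * z⁻¹ * (g * x * g⁻¹)⁻¹ = z * x * z⁻¹ * x⁻¹ := by
      intro g hg x hx
      set d := g * z * g⁻¹ * z⁻¹ with hd
      have hdD : d ∈ D := hzc g hg
      have hgx : g * x * g⁻¹ ∈ T := (Subgroup.mem_normalizer_iff.mp (hAT hg) x).mp hx
      have hgz : g * z * g⁻¹ = d * z := by rw [hd]; group
      have h1 : g * (z * x * z⁻¹ * x⁻¹) * g⁻¹ = z * (g * x * g⁻¹) * z⁻¹ * (g * x * g⁻¹)⁻¹ := by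
        have e1 : g * (z * x * z⁻¹ * x⁻¹) * g⁻¹
            = (g * z * g⁻¹) * (g * x * g⁻¹) * (g * z * g⁻¹)⁻¹ * (g * x * g⁻¹)⁻¹ := by group
        rw [e1, hgz]
        have c1 := hDc d hdD _ hgx
        have c2 := hDc d hdD z hzT
        have hc : Commute d (z * (g * x * g⁻¹) * z⁻¹) :=
          ((show Commute d z from c2).mul_right (show Commute d (g * x * g⁻¹) from c1)).mul_right
            (Commute.inv_right c2)
        calc d * z * (g * x * g⁻¹) * (d * z)⁻¹ * (g * x * g⁻¹)⁻¹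
            = (d * (z * (g * x * g⁻¹) * z⁻¹)) * d⁻¹ * (g * x * g⁻¹)⁻¹ := by group
          _ = ((z * (g * x * g⁻¹) * z⁻¹) * d) * d⁻¹ * (g * x * g⁻¹)⁻¹ := by rw [hc.eq]
          _ = _ := by group
      rw [← h1]
      exact hQc g hg _ (hcQ x hx)
    intro y hy
    have hle : tser A T 1 ≤ Subgroup.centralizer ({z} : Set Γ) := by
      rw [tser_succ, tser_zero, dser_zero, Subgroup.commutator_le]
      intro x hx g hg
      rw [Subgroup.mem_centralizer_singleton_iff]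
      have hx' : g * x⁻¹ * g⁻¹ ∈ T := (Subgroup.mem_normalizer_iff.mp (hAT hg) _).mp (T.inv_mem hx)
      have h1 := hmul x hx _ hx'
      rw [hinv g hg x⁻¹ (T.inv_mem hx), ← hmul x hx _ (T.inv_mem hx)] at h1
      have h2 : z * (x * (g * x⁻¹ * g⁻¹)) * z⁻¹ * (x * (g * x⁻¹ * g⁻¹))⁻¹ = 1 := by
        rw [h1]; group
      have h3 : ⁅x, g⁆ = x * (g * x⁻¹ * g⁻¹) := by rw [commutatorElement_def]; group
      rw [h3]
      have h4 : z * (x * (g * x⁻¹ * g⁻¹)) * z⁻¹ = x * (g * x⁻¹ * g⁻¹) := by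
        have := mul_inv_eq_one.mp h2
        exact this
      calc x * (g * x⁻¹ * g⁻¹) * z = z * (x * (g * x⁻¹ * g⁻¹)) * z⁻¹ * z := by rw [h4]
        _ = z * (x * (g * x⁻¹ * g⁻¹)) := by group
    have := hle hy
    rw [Subgroup.mem_centralizer_singleton_iff] at this
    exact this.symm
  have hflag : Flag k (tser A T) D z := by
    refine
      { hk := hk
        anti := fun j _ => tser_succ_le A T hAT j
        Dle := hDT
        Dc := hDc
        D2 := hD2
        sq := hsq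
        cm := hcm
        step := ?_
        top := ?_
        dim := ?_
        hz := hzX
        hzD := hzD
        alt := halt }
    · intro j _ x hx y hy
      have hy' : y ∈ dser A j := tser_le_dser hTA j hy
      have := Subgroup.commutator_mem_commutator hx hy'
      rwa [commutatorElement_def] at this
    · intro x hx y hy
      have h1 := hFconj (k - 1) y (hTA hy) x⁻¹ (Subgroup.inv_mem _ hx)
      have : x * y * x⁻¹ * y⁻¹ = x * (y * x⁻¹ * y⁻¹) := by group
      rw [this]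
      exact Subgroup.mul_mem _ hx h1
    · intro j hj
      have hdA : dser A j ≤ A := dser_le A j
      apply Dims.two_pow_two_pow_le (dser A j) (tser A T j) (tser A T j ⊓ D) (hA2.to_le hdA)
        (tser_le_dser hTA j) (hdA.trans (hFnorm j)) _ inf_le_left (k - 1 - j)
      · intro hle
        apply hne
        have h1 := tser_add A T j (k - 1 - j)
        have h2 : j + (k - 1 - j) = k - 1 := by omega
        rw [h2] at h1
        rw [← h1]
        exact hle.trans inf_le_right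
      · intro g hg
        rw [Subgroup.mem_normalizer_iff]
        intro x
        have e1 := Subgroup.mem_normalizer_iff.mp (hFnorm j (hdA hg)) x
        have e2 := Subgroup.mem_normalizer_iff.mp (hAD (hdA hg)) x
        simp only [Subgroup.mem_inf, e1, e2, SetLike.mem_coe]
  refine exists_chain τ hflag ?_
  intro L hL hL2 hLc hLi
  exact list_prod_ne_zero τ hτ hq R T hRq hRc
    (fun y hy r hr => (Subgroup.mem_normalizer_iff.mp (hAR (hTA hy)) r).mp hr) hscal hfT L hL hL2 hLc hLi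

end Cfsg.Agent.Lib.BryD.Local
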