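/-
Bryukhanova's theorem, derived length version (forum topic bry-s4259): the setup and its first consequences.
-/
import Cfsg.Agent.Lib.BryD.Basic
import Cfsg.Agent.Lib.Bry.Basic

set_option autoImplicit false

namespace Cfsg.Agent.Lib.BryD.Struct

open Module Cfsg.Agent.Lib.Bry.Basic Cfsg.Agent.Lib.HallHigman.Irr Cfsg.Agent.Lib.Gross.ConfigAux
  Cfsg.Agent.Lib.Coprime.Action
open scoped commutatorElement

universe u v w

/-- The configuration of the core claim (a weakening of `Bry.Setup.Setup`). -/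
structure DS {K : Type u} [Field K] {V : Type v} [AddCommGroup V] [Module K V] {G : Type w} [Group G]
    (ρ : G →* End K V) (q : ℕ) (B T₀ D R₁ Ks : Subgroup G) : Prop where
  inj : Function.Injective ρ
  q_prime : q.Prime
  q_ne : q ≠ 2
  R₁_q : IsPGroup q R₁
  T₀_two : IsPGroup 2 T₀
  T₀_B : T₀ ≤ B
  nT₀ : B ≤ Subgroup.normalizer (T₀ : Set G)
  nD : B ≤ Subgroup.normalizer (D : Set G)
  nR₁ : B ≤ Subgroup.normalizer (R₁ : Set G)
  D_le : D ≤ T₀
  maxD : ∀ E : Subgroup G, E ≤ T₀ → B ≤ Subgroup.normalizer (E : Set G) → E ≤ D ∨ E = T₀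
  D_ne : D ≠ T₀
  minR : ∀ E : Subgroup G, E ≤ R₁ → B ≤ Subgroup.normalizer (E : Set G) → E ≠ R₁ →
    ∀ g ∈ T₀, ∀ a ∈ E, g * a = a * g
  ncR : ¬ ∀ g ∈ T₀, ∀ a ∈ R₁, g * a = a * g
  Ks_le : Ks ≤ B
  hKs : ⁅T₀, Ks⁆ = T₀
  Ks_D : ∀ s ∈ Ks, ∀ d ∈ D, s * d = d * s
  D_central : ∀ d ∈ D, ∀ g ∈ T₀, d * g = g * d
  T₀_sq : ∀ g ∈ T₀, g * g ∈ D
  T₀_cm : ∀ a ∈ T₀, ∀ b ∈ T₀, a * b * a⁻¹ * b⁻¹ ∈ D

section

variable {K : Type u} [Field K] {V : Type v} [AddCommGroup V] [Module K V] {G : Type w} [Group G] [Finite G]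
  {ρ : G →* End K V} {q : ℕ} {B T₀ D R₁ Ks : Subgroup G}

variable (S : DS ρ q B T₀ D R₁ Ks)
include S

theorem q_fact : Fact q.Prime := ⟨S.q_prime⟩

theorem T₀_norm_R₁ : T₀ ≤ Subgroup.normalizer (R₁ : Set G) := S.T₀_B.trans S.nR₁

theorem R₁_ne_bot : R₁ ≠ ⊥ := by
  rintro rfl
  apply S.ncR
  intro g _ a ha
  rw [(Subgroup.mem_bot.mp ha), one_mul, mul_one]

theorem coprime_T₀_R₁ : (Nat.card T₀).Coprime (Nat.card R₁) := by
  haveI := q_fact S
  haveI h2p : Fact (Nat.Prime 2) := ⟨Nat.prime_two⟩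
  exact IsPGroup.coprime_card_of_ne 2 q (Ne.symm S.q_ne) T₀ R₁ S.T₀_two S.R₁_q

/-- `R₁ = [R₁, T₀]`. -/
theorem comm_R₁_T₀ : ⁅R₁, T₀⁆ = R₁ := by
  classical
  haveI := q_fact S
  have hle : ⁅R₁, T₀⁆ ≤ R₁ := commutator_le_of_le_normalizer (T₀_norm_R₁ S)
  have hcc : ⁅⁅R₁, T₀⁆, T₀⁆ = ⁅R₁, T₀⁆ :=
    commutator_commutator_eq (T₀_norm_R₁ S) (coprime_T₀_R₁ S) (Or.inr (by
      haveI := S.R₁_q.isNilpotent
      infer_instance))
  by_contra hne
  have hc := S.minR _ hle (le_normalizer_commutator_of_le S.nR₁ S.nT₀) hne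
  have hbot : ⁅R₁, T₀⁆ = ⊥ := by
    rw [← hcc, eq_bot_iff, Subgroup.commutator_le]
    intro a ha g hg
    rw [Subgroup.mem_bot, commutatorElement_eq_one_iff_commute]
    exact (hc g hg a ha).symm
  apply S.ncR
  intro g hg a ha
  have h1 : ⁅a, g⁆ ∈ ⁅R₁, T₀⁆ := Subgroup.commutator_mem_commutator ha hg
  rw [hbot, Subgroup.mem_bot, commutatorElement_eq_one_iff_commute] at h1
  exact h1.symm.eq

theorem Z1_ne : Z1 R₁ ≠ R₁ := by
  classical
  haveI := q_fact S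
  haveI : Nontrivial R₁ := (Subgroup.bot_or_nontrivial R₁).resolve_left (R₁_ne_bot S)
  intro h
  have h2 : frattini R₁ = ⊤ := by
    apply Subgroup.map_injective R₁.subtype_injective
    rw [← MonoidHom.range_eq_map, Subgroup.range_subtype]
    exact h
  have h3 : (frattini R₁) ≠ ⊤ := by
    obtain ⟨M, hM⟩ := (inferInstance : IsCoatomic (Subgroup R₁)).eq_top_or_exists_le_coatom ⊥ |>.resolve_left bot_ne_top
    intro h4
    have h5 : frattini R₁ ≤ M := by
      exact (Order.radical_le_coatom hM.1)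
    rw [h4] at h5
    exact hM.1.1 (top_le_iff.mp h5)
  exact h3 h2

/-- `T₀` centralizes `Z1`. -/
theorem T₀_Z1 : ∀ g ∈ T₀, ∀ c ∈ Z1 R₁, g * c = c * g :=
  S.minR _ Z1_le (le_normalizer_Z1 S.nR₁) (Z1_ne S)

/-- `Z1` is central in `R₁`. -/
theorem Z1_central : ∀ c ∈ Z1 R₁, ∀ a ∈ R₁, c * a = a * c := by
  classical
  haveI := q_fact S
  have h1 : ⁅⁅R₁, T₀⁆, Z1 R₁⁆ ≤ (⊥ : Subgroup G) := by
    have hN : ∀ X : Subgroup G, X ≤ Subgroup.normalizer ((⊥ : Subgroup G) : Set G) := by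
      intro X a _
      rw [Subgroup.normalizer_eq_top]
      trivial
    refine Cfsg.Agent.Lib.Coprime.Generation2.three_subgroups_rel R₁ T₀ (Z1 R₁) ⊥ ?_ ?_ (hN _) (hN _) (hN _)
    · rw [Subgroup.commutator_le]
      intro a ha r _
      have : a = 1 := by
        obtain ha' := (show ⁅T₀, Z1 R₁⁆ ≤ ⊥ from by
          rw [Subgroup.commutator_le]
          intro g hg c hc
          rw [Subgroup.mem_bot, commutatorElement_eq_one_iff_commute]
          exact T₀_Z1 S g hg c hc) ha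
        exact Subgroup.mem_bot.mp ha'
      rw [this]
      simp
    · rw [Subgroup.commutator_le]
      intro a ha g hg
      have ha' : a ∈ Z1 R₁ := by
        have h5 : ⁅Z1 R₁, R₁⁆ ≤ Z1 R₁ := commutator_le_of_le_normalizer (fun r hr =>
          mem_normalizer_Z1 (Subgroup.le_normalizer hr))
        exact h5 ha
      rw [Subgroup.mem_bot, commutatorElement_eq_one_iff_commute]
      exact (T₀_Z1 S g hg a ha').symm
  rw [comm_R₁_T₀ S] at h1
  intro c hc a ha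
  have h2 : ⁅a, c⁆ ∈ (⊥ : Subgroup G) := h1 (Subgroup.commutator_mem_commutator ha hc)
  rw [Subgroup.mem_bot, commutatorElement_eq_one_iff_commute] at h2
  exact h2.symm.eq

/-- `R₁` has class at most two. -/
theorem R₁_class2 : ∀ a ∈ R₁, ∀ b ∈ R₁, ∀ c ∈ R₁, (a * b * a⁻¹ * b⁻¹) * c = c * (a * b * a⁻¹ * b⁻¹) := by
  intro a ha b hb c hc
  haveI := q_fact S
  exact Z1_central S _ (comm_mem_Z1 S.R₁_q ha hb) c hc

/-- Commutators of `T₀` lie in `D`. -/
theorem comm_le_D : (⁅T₀, T₀⁆ : Subgroup G) ≤ D := by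
  rw [Subgroup.commutator_le]
  intro a ha b hb
  rw [commutatorElement_def]
  exact S.T₀_cm a ha b hb

/-- Commutators of `T₀` are central in `T₀`. -/
theorem comm_central : ∀ d ∈ (⁅T₀, T₀⁆ : Subgroup G), ∀ g ∈ T₀, d * g = g * d :=
  fun d hd g hg => S.D_central d (comm_le_D S hd) g hg

/-- Squares of commutators vanish. -/
theorem comm_sq : ∀ d ∈ (⁅T₀, T₀⁆ : Subgroup G), d * d = 1 := by
  intro d hd
  have hle : (⁅T₀, T₀⁆ : Subgroup G) ≤
      { carrier := {d | d ∈ D ∧ d * d = 1}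
        mul_mem' := by
          rintro a b ⟨ha, ha'⟩ ⟨hb, hb'⟩
          refine ⟨D.mul_mem ha hb, ?_⟩
          have hc : a * b = b * a := S.D_central a ha b (S.D_le hb)
          calc a * b * (a * b) = a * (b * a) * b := by group
            _ = a * (a * b) * b := by rw [hc]
            _ = (a * a) * (b * b) := by group
            _ = 1 := by rw [ha', hb', one_mul]
        one_mem' := ⟨D.one_mem, mul_one 1⟩
        inv_mem' := by
          rintro a ⟨ha, ha'⟩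
          refine ⟨D.inv_mem ha, ?_⟩
          rw [← mul_inv_rev, ha', inv_one] } := by
    rw [Subgroup.commutator_le]
    intro a ha b hb
    rw [commutatorElement_def]
    have hc := S.T₀_cm a ha b hb
    refine ⟨hc, ?_⟩
    set c := a * b * a⁻¹ * b⁻¹ with hcdef
    have hcc : ∀ g ∈ T₀, c * g = g * c := S.D_central c hc
    have h1 : a * b * a⁻¹ = c * b := by
      rw [hcdef]
      group
    have h2 : (a * a) * b * (a * a)⁻¹ = c * c * b := by
      calc (a * a) * b * (a * a)⁻¹ = a * (a * b * a⁻¹) * a⁻¹ := by group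
        _ = a * (c * b) * a⁻¹ := by rw [h1]
        _ = a * c * b * a⁻¹ := by group
        _ = c * a * b * a⁻¹ := by rw [hcc a ha]
        _ = c * (a * b * a⁻¹) := by group
        _ = c * (c * b) := by rw [h1]
        _ = _ := by group
    have h3 := S.D_central _ (S.T₀_sq a ha) b hb
    have h4 : (a * a) * b * (a * a)⁻¹ = b := by
      rw [h3, mul_inv_cancel_right]
    rw [h4] at h2
    exact (mul_eq_right.mp h2.symm)
  exact (hle hd).2

/-- Squares of `T₀` are commutators. -/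
theorem sq_mem_comm : ∀ a ∈ T₀, a * a ∈ (⁅T₀, T₀⁆ : Subgroup G) := by
  have hcm : ∀ a ∈ T₀, ∀ b ∈ T₀, a * b * a⁻¹ * b⁻¹ ∈ (⁅T₀, T₀⁆ : Subgroup G) := by
    intro a ha b hb
    have := Subgroup.commutator_mem_commutator ha hb
    rwa [commutatorElement_def] at this
  have hconj : ∀ b ∈ T₀, ∀ d ∈ (⁅T₀, T₀⁆ : Subgroup G), b * d * b⁻¹ ∈ (⁅T₀, T₀⁆ : Subgroup G) := by
    intro b hb d hd
    rw [← comm_central S d hd b hb, mul_inv_cancel_right]
    exact hd
  let S₂ : Subgroup G :=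
    { carrier := {u | u ∈ T₀ ∧ u * u ∈ (⁅T₀, T₀⁆ : Subgroup G)}
      mul_mem' := by
        rintro a b ⟨ha, ha'⟩ ⟨hb, hb'⟩
        refine ⟨T₀.mul_mem ha hb, ?_⟩
        have e : (a * b) * (a * b) = (a * (b * a * b⁻¹ * a⁻¹) * a⁻¹) * (a * a) * (b * b) := by group
        rw [e]
        exact Subgroup.mul_mem _ (Subgroup.mul_mem _ (hconj a ha _ (hcm b hb a ha)) ha') hb'
      one_mem' := ⟨T₀.one_mem, by rw [mul_one]; exact Subgroup.one_mem _⟩
      inv_mem' := by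
        rintro a ⟨ha, ha'⟩
        refine ⟨T₀.inv_mem ha, ?_⟩
        have h1 := Subgroup.inv_mem _ ha'
        have e : (a * a)⁻¹ = a⁻¹ * a⁻¹ := by group
        rwa [e] at h1 }
  have hle : ⁅T₀, Ks⁆ ≤ S₂ := by
    rw [Subgroup.commutator_le]
    intro a ha s hs
    have hsB := S.Ks_le hs
    have hb : s * a⁻¹ * s⁻¹ ∈ T₀ := conj_mem_of_mem_normalizer (S.nT₀ hsB) (T₀.inv_mem ha)
    rw [commutatorElement_def]
    have e0 : a * s * a⁻¹ * s⁻¹ = a * (s * a⁻¹ * s⁻¹) := by group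
    rw [e0]
    refine ⟨T₀.mul_mem ha hb, ?_⟩
    set b := s * a⁻¹ * s⁻¹ with hbdef
    have hsq : a * a ∈ D := S.T₀_sq a ha
    have hbb : (a * a) * (b * b) = 1 := by
      have h1 := S.Ks_D s hs _ hsq
      have e1 : b * b = s * (a * a)⁻¹ * s⁻¹ := by
        rw [hbdef]
        group
      have h2 : s * (a * a)⁻¹ * s⁻¹ = (a * a)⁻¹ := by
        have h3 : Commute s (a * a) := h1
        rw [h3.inv_right.eq, mul_inv_cancel_right]
      rw [e1, h2, mul_inv_cancel]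
    have e : (a * b) * (a * b) = (a * (b * a * b⁻¹ * a⁻¹) * a⁻¹) * ((a * a) * (b * b)) := by group
    rw [e, hbb, mul_one]
    exact hconj a ha _ (hcm b hb a ha)
  rw [S.hKs] at hle
  exact fun a ha => (hle ha).2

end

end Cfsg.Agent.Lib.BryD.Struct
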