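/-
Bryukhanova's theorem, derived length version (forum topic bry-s4259).
MODULE R: the local theorem applied on one homogeneous component.
-/
import Cfsg.Agent.Lib.BryD.Local
import Cfsg.Agent.Lib.BryD.Struct

set_option autoImplicit false

namespace Cfsg.Agent.Lib.BryD.Restrict

open Module Cfsg.Agent.Lib.BryD.Basic Cfsg.Agent.Lib.BryD.Struct
open scoped commutatorElement

universe u v w

/-- A `2`-group acting linearly in characteristic `2` fixes a nonzero vector of every nonzero invariant subspace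
(over any field). -/
theorem exists_fixed_vec {K : Type u} [Field K] [CharP K 2] {V : Type v} [AddCommGroup V] [Module K V]
    {G : Type w} [Group G] [Finite G] (ρ : G →* End K V) (N : Subgroup G) (hN : IsPGroup 2 N)
    (U : Submodule K V) (hinv : ∀ n ∈ N, ∀ u ∈ U, ρ n u ∈ U) (hU : U ≠ ⊥) :
    ∃ v ∈ U, v ≠ 0 ∧ ∀ n ∈ N, ρ n v = v := by
  classical
  haveI : Fact (Nat.Prime 2) := ⟨Nat.prime_two⟩
  obtain ⟨w, hwU, hw0⟩ := Submodule.exists_mem_ne_zero_of_ne_bot hU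
  let A : AddSubgroup V := AddSubgroup.closure (Set.range fun n : N => ρ n w)
  have hAU : A ≤ U.toAddSubgroup := by
    rw [AddSubgroup.closure_le]
    rintro _ ⟨n, rfl⟩
    exact hinv n n.2 w hwU
  have hwA : w ∈ A := AddSubgroup.subset_closure ⟨1, by simp⟩
  have hAinv : ∀ n ∈ N, ∀ a ∈ A, ρ n a ∈ A := by
    intro n hn a ha
    induction ha using AddSubgroup.closure_induction with
    | mem x hx =>
      obtain ⟨m, rfl⟩ := hx
      refine AddSubgroup.subset_closure ⟨⟨n, hn⟩ * m, ?_⟩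
      simp [map_mul]
    | zero => simp
    | add a b _ _ ha hb => rw [map_add]; exact A.add_mem ha hb
    | neg a _ ha => rw [map_neg]; exact A.neg_mem ha
  have h2 : ∀ v : V, v + v = 0 := by
    intro v
    rw [← two_smul K v, CharTwo.two_eq_zero, zero_smul]
  haveI hfg : AddGroup.FG A := by
    rw [AddGroup.fg_iff_addSubgroup_fg]
    exact ⟨(Set.finite_range fun n : N => ρ n w).toFinset, by simp [A]⟩
  haveI hfin : Finite A := by
    apply AddCommGroup.finite_of_fg_isAddTorsion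
    intro a
    refine isOfFinAddOrder_iff_nsmul_eq_zero.mpr ⟨2, by norm_num, ?_⟩
    apply Subtype.ext
    simp [two_nsmul, h2]
  letI act : MulAction N A :=
    { smul := fun n a => ⟨ρ n a, hAinv n n.2 a a.2⟩
      one_smul := fun a => Subtype.ext (by change ρ ((1 : N) : G) a = a; simp)
      mul_smul := fun m n a => Subtype.ext (by change ρ ((m * n : N) : G) a = ρ m (ρ n a); simp [map_mul]) }
  have hfix0 : (0 : A) ∈ MulAction.fixedPoints N A := by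
    intro n
    apply Subtype.ext
    change ρ n (0 : V) = 0
    simp
  have hdvd : 2 ∣ Nat.card A := by
    have h1 : addOrderOf (⟨w, hwA⟩ : A) = 2 := by
      apply addOrderOf_eq_prime
      · apply Subtype.ext
        simp [two_nsmul, h2]
      · intro h
        exact hw0 (congrArg Subtype.val h)
    rw [← h1]
    exact addOrderOf_dvd_natCard _
  obtain ⟨b, hb, hb0⟩ := hN.exists_fixed_point_of_prime_dvd_card_of_fixed_point A hdvd hfix0
  refine ⟨b.1, hAU b.2, fun h => hb0 (Subtype.ext (by simpa using h.symm)), fun n hn => ?_⟩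
  exact congrArg Subtype.val (hb ⟨n, hn⟩)

theorem chainProd_congr' {K : Type u} [Field K] {V : Type v} [AddCommGroup V] [Module K V]
    {G₁ : Type*} [Group G₁] {G₂ : Type*} [Group G₂] (ρ₁ : G₁ →* End K V) (ρ₂ : G₂ →* End K V)
    (u₁ : ℕ → G₁) (u₂ : ℕ → G₂) (n : ℕ) (h : ∀ j < n, ρ₁ (u₁ j) = ρ₂ (u₂ j)) :
    chainProd ρ₁ u₁ n = chainProd ρ₂ u₂ n := by
  induction n with
  | zero => simp
  | succ n ih =>
    rw [chainProd_succ, chainProd_succ, h n (Nat.lt_succ_self n), ih (fun j hj => h j (Nat.lt_succ_of_lt hj))]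

theorem mem_normalizer_of_conj {Γ : Type*} [Group Γ] {A' H' : Subgroup Γ} (h : ∀ y ∈ A', ∀ x ∈ H', y * x * y⁻¹ ∈ H') :
    A' ≤ Subgroup.normalizer (H' : Set Γ) := by
  intro y hy
  rw [Subgroup.mem_normalizer_iff]
  intro x
  refine ⟨h y hy x, fun hx => ?_⟩
  have := h y⁻¹ (A'.inv_mem hy) _ hx
  simpa [mul_assoc] using this

theorem exists_factor {X : Type*} [Group X] [Finite X] {M : Type v} [Monoid M] (σ : X →* M) :
    ∃ (Γ : Type v) (_ : Group Γ) (_ : Finite Γ) (π : X →* Γ) (τ : Γ →* M),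
      Function.Surjective π ∧ Function.Injective τ ∧ ∀ g, τ (π g) = σ g := by
  let σ' : X →* Mˣ := MonoidHom.toHomUnits σ
  haveI : Finite σ'.range := Finite.of_surjective _ σ'.rangeRestrict_surjective
  refine ⟨σ'.range, inferInstance, inferInstance, σ'.rangeRestrict, (Units.coeHom M).comp σ'.range.subtype,
    σ'.rangeRestrict_surjective, ?_, fun _ => rfl⟩
  intro a b h
  exact Subtype.ext (Units.ext h)

variable {K : Type u} [Field K] [CharP K 2] {V : Type v} [AddCommGroup V] [Module K V] [FiniteDimensional K V]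
  {G : Type w} [Group G] [Finite G] {ρ : G →* End K V} {q : ℕ} {B T₀ D R₁ Ks : Subgroup G}

/-- **The local chain on a component `C`** (on which `A_m = dser P m` acts). `hbad`: `z` does not act on `R₁ / ker C`
as an element of `T^m ∩ [T₀, T₀]`. -/
theorem exists_local (S : DS ρ q B T₀ D R₁ Ks) (P : Subgroup G) (hP2 : IsPGroup 2 P) (hT₀P : T₀ ≤ P) (hPB : P ≤ B)
    (C : Submodule K V) (hC0 : C ≠ ⊥) (hCR : ∀ r ∈ R₁, ∀ v ∈ C, ρ r v ∈ C)
    (hCa : ∀ W : Submodule K V, W ≤ C → W ≠ ⊥ → (∀ r ∈ R₁, ∀ v ∈ W, ρ r v ∈ W) →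
      ∀ r ∈ R₁, (∀ v ∈ W, ρ r v = v) → ∀ v ∈ C, ρ r v = v)
    (hCb : ∀ c ∈ R₁, (∀ r ∈ R₁, ∀ v ∈ C, ρ (c * r * c⁻¹ * r⁻¹) v = v) → ∃ l : K, ∀ v ∈ C, ρ c v = l • v)
    (m k : ℕ) (hk : 1 ≤ k) (hA : ∀ g ∈ dser P m, ∀ v ∈ C, ρ g v ∈ C)
    (z : G) (hz : z ∈ tser P T₀ (m + k - 1))
    (hbad : ¬ ∃ d ∈ tser P T₀ m ⊓ ⁅T₀, T₀⁆, ∀ r ∈ R₁, ∀ v ∈ C, ρ (z * r * z⁻¹) v = ρ (d * r * d⁻¹) v) :
    ∃ y : ℕ → G, (∀ j < k, y j ∈ tser P T₀ (m + j)) ∧ ∃ w ∈ C, chainProd ρ y k w ≠ 0 := by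
  classical
  haveI := q_fact S
  haveI : Fact (Nat.Prime 2) := ⟨Nat.prime_two⟩
  have hPn_T₀ : ∀ g ∈ P, ∀ x ∈ T₀, g * x * g⁻¹ ∈ T₀ := fun g hg x hx =>
    (Subgroup.mem_normalizer_iff.mp (S.nT₀ (hPB hg)) x).mp hx
  have hPn_R : ∀ g ∈ P, ∀ x ∈ R₁, g * x * g⁻¹ ∈ R₁ := fun g hg x hx =>
    (Subgroup.mem_normalizer_iff.mp (S.nR₁ (hPB hg)) x).mp hx
  have hT₀n : P ≤ Subgroup.normalizer (T₀ : Set G) := hPB.trans S.nT₀
  -- notation
  set A := dser P m with hAdef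
  set T := tser P T₀ m with hTdef
  have hAP : A ≤ P := dser_le P m
  have hTA : T ≤ A := tser_le_dser hT₀P m
  have hTT₀ : T ≤ T₀ := Local.tser_anti P T₀ hT₀n (Nat.zero_le m)
  have hTconj : ∀ g ∈ P, ∀ x ∈ T, g * x * g⁻¹ ∈ T := fun g hg =>
    Local.tser_conj P T₀ hg (hPn_T₀ g hg) m
  have hCDconj : ∀ g ∈ P, ∀ x ∈ (⁅T₀, T₀⁆ : Subgroup G), g * x * g⁻¹ ∈ (⁅T₀, T₀⁆ : Subgroup G) := fun g hg x hx =>
    Local.comm_conj (hPn_T₀ g hg) (hPn_T₀ g hg) hx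
  -- the kernel `N`
  let N : Subgroup G :=
    { carrier := {t | t ∈ T ∧ ∀ r ∈ R₁, ∀ v ∈ C, ρ (t * r * t⁻¹) v = ρ r v}
      mul_mem' := by
        rintro t s ⟨ht, ht'⟩ ⟨hs, hs'⟩
        refine ⟨T.mul_mem ht hs, fun r hr v hv => ?_⟩
        have e : t * s * r * (t * s)⁻¹ = t * (s * r * s⁻¹) * t⁻¹ := by group
        rw [e, ht' _ (hPn_R s (hAP (hTA hs)) r hr) v hv, hs' r hr v hv]
      one_mem' := ⟨T.one_mem, fun r _ v _ => by simp⟩
      inv_mem' := by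
        rintro t ⟨ht, ht'⟩
        refine ⟨T.inv_mem ht, fun r hr v hv => ?_⟩
        have h1 := hPn_R t⁻¹ (P.inv_mem (hAP (hTA ht))) r hr
        have h2 := ht' _ h1 v hv
        have e : t * (t⁻¹ * r * t⁻¹⁻¹) * t⁻¹ = r := by group
        rw [e] at h2
        exact h2.symm }
  have hNmem : ∀ t, t ∈ N ↔ t ∈ T ∧ ∀ r ∈ R₁, ∀ v ∈ C, ρ (t * r * t⁻¹) v = ρ r v := fun t => Iff.rfl
  have hNT : N ≤ T := fun t ht => ((hNmem t).mp ht).1
  have hNconj : ∀ a ∈ A, ∀ t ∈ N, a * t * a⁻¹ ∈ N := by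
    intro a ha t ht
    obtain ⟨ht1, ht2⟩ := (hNmem t).mp ht
    refine (hNmem _).mpr ⟨hTconj a (hAP ha) t ht1, fun r hr v hv => ?_⟩
    have ha' : a⁻¹ ∈ A := A.inv_mem ha
    have hr' : a⁻¹ * r * a⁻¹⁻¹ ∈ R₁ := hPn_R _ (hAP ha') r hr
    have hv' : ρ a⁻¹ v ∈ C := hA _ ha' v hv
    have h1 := ht2 _ hr' _ hv'
    have e1 : a * t * a⁻¹ * r * (a * t * a⁻¹)⁻¹ = a * (t * (a⁻¹ * r * a⁻¹⁻¹) * t⁻¹) * a⁻¹ := by group
    rw [e1, map_mul, map_mul, Module.End.mul_apply, Module.End.mul_apply, h1, ← Module.End.mul_apply,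
      ← Module.End.mul_apply, ← map_mul, ← map_mul]
    congr 2
    group
  -- the fixed space `W`
  let W : Submodule K V :=
    { carrier := {v | v ∈ C ∧ ∀ n ∈ N, ρ n v = v}
      add_mem' := by
        rintro a b ⟨ha, ha'⟩ ⟨hb, hb'⟩
        exact ⟨C.add_mem ha hb, fun n hn => by rw [map_add, ha' n hn, hb' n hn]⟩
      zero_mem' := ⟨C.zero_mem, fun n _ => map_zero _⟩
      smul_mem' := by
        rintro c a ⟨ha, ha'⟩
        exact ⟨C.smul_mem c ha, fun n hn => by rw [map_smul, ha' n hn]⟩ }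
  have hWmem : ∀ v, v ∈ W ↔ v ∈ C ∧ ∀ n ∈ N, ρ n v = v := fun v => Iff.rfl
  have hWC : W ≤ C := fun v hv => ((hWmem v).mp hv).1
  have hW0 : W ≠ ⊥ := by
    obtain ⟨v, hv, hv0, hfix⟩ := exists_fixed_vec ρ N (hP2.to_le ((hNT.trans hTA).trans hAP)) C
      (fun n hn u hu => hA n (hTA (hNT hn)) u hu) hC0
    intro hb
    have : v ∈ W := (hWmem v).mpr ⟨hv, hfix⟩
    rw [hb, Submodule.mem_bot] at this
    exact hv0 this
  have hWA : ∀ a ∈ A, ∀ v ∈ W, ρ a v ∈ W := by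
    intro a ha v hv
    obtain ⟨hv1, hv2⟩ := (hWmem v).mp hv
    refine (hWmem _).mpr ⟨hA a ha v hv1, fun n hn => ?_⟩
    have h1 := hv2 _ (hNconj a⁻¹ (A.inv_mem ha) n hn)
    have e : n * a = a * (a⁻¹ * n * a⁻¹⁻¹) := by group
    rw [← Module.End.mul_apply, ← map_mul, e, map_mul, Module.End.mul_apply, h1]
  have hWR : ∀ r ∈ R₁, ∀ v ∈ W, ρ r v ∈ W := by
    intro r hr v hv
    obtain ⟨hv1, hv2⟩ := (hWmem v).mp hv
    refine (hWmem _).mpr ⟨hCR r hr v hv1, fun n hn => ?_⟩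
    obtain ⟨hn1, hn2⟩ := (hNmem n).mp hn
    have e : n * r = (n * r * n⁻¹) * n := by group
    rw [← Module.End.mul_apply, ← map_mul, e, map_mul, Module.End.mul_apply, hv2 n hn, hn2 r hr v hv1]
  -- the group `X`
  let X : Subgroup G := R₁ ⊔ A
  have hRX : R₁ ≤ X := le_sup_left
  have hAX : A ≤ X := le_sup_right
  have hTX : T ≤ X := hTA.trans hAX
  have hXW : ∀ g ∈ X, ∀ v ∈ W, ρ g v ∈ W := by
    let St : Subgroup G :=
      { carrier := {g | (∀ v ∈ W, ρ g v ∈ W) ∧ ∀ v ∈ W, ρ g⁻¹ v ∈ W}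
        mul_mem' := by
          rintro a b ⟨ha, ha'⟩ ⟨hb, hb'⟩
          refine ⟨fun v hv => ?_, fun v hv => ?_⟩
          · rw [map_mul]; exact ha _ (hb v hv)
          · rw [mul_inv_rev, map_mul]; exact hb' _ (ha' v hv)
        one_mem' := ⟨fun v hv => by simpa using hv, fun v hv => by simpa using hv⟩
        inv_mem' := by
          rintro a ⟨ha, ha'⟩
          exact ⟨ha', fun v hv => by simpa using ha v hv⟩ }
    have hle : X ≤ St := sup_le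
      (fun r hr => ⟨hWR r hr, hWR r⁻¹ (R₁.inv_mem hr)⟩)
      (fun a ha => ⟨hWA a ha, hWA a⁻¹ (A.inv_mem ha)⟩)
    intro g hg
    exact (hle hg).1
  -- restriction
  let σ : X →* End K W :=
    { toFun := fun g => (ρ g.1).restrict (hXW g.1 g.2)
      map_one' := by ext v; simp
      map_mul' := fun a b => by ext v; simp [map_mul] }
  have hσ : ∀ (g : X) (w : W), ((σ g w : W) : V) = ρ g.1 w := fun _ _ => rfl
  have hσ1 : ∀ g : X, σ g = 1 ↔ ∀ v ∈ W, ρ g.1 v = v := by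
    intro g
    constructor
    · intro h v hv
      have := LinearMap.congr_fun h ⟨v, hv⟩
      have h2 := congrArg Subtype.val this
      simpa [hσ] using h2
    · intro h
      ext v
      rw [hσ]
      exact h v.1 v.2
  obtain ⟨Γ, _, _, π, τ, hπs, hτ, hτπ⟩ := exists_factor σ
  have hπ1 : ∀ g : X, π g = 1 ↔ ∀ v ∈ W, ρ g.1 v = v := by
    intro g
    rw [← hσ1, ← hτπ]
    constructor
    · intro h; rw [h, map_one]
    · intro h; exact hτ (by rw [h, map_one])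
  -- the images
  let bar : Subgroup G → Subgroup Γ := fun H => (H.subgroupOf X).map π
  have hbar : ∀ H y, y ∈ bar H ↔ ∃ g : X, g.1 ∈ H ∧ π g = y := by
    intro H y
    simp only [bar, Subgroup.mem_map, Subgroup.mem_subgroupOf]
  have hpbar : ∀ (p : ℕ) (H : Subgroup G), IsPGroup p H → IsPGroup p (bar H) := fun p H hH =>
    (hH.comap_of_injective X.subtype X.subtype_injective).map π
  have hsub : ∀ j, (tser A T j).subgroupOf X = tser (A.subgroupOf X) (T.subgroupOf X) j := by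
    intro j
    apply Subgroup.map_injective X.subtype_injective
    rw [tser_map, Subgroup.map_subgroupOf_eq_of_le hAX, Subgroup.map_subgroupOf_eq_of_le hTX,
      Subgroup.map_subgroupOf_eq_of_le ((tser_le_dser hTA j).trans ((dser_le A j).trans hAX))]
  have htb : ∀ j, tser (bar A) (bar T) j = bar (tser A T j) := by
    intro j
    simp only [bar]
    rw [hsub, tser_map]
  have hconj : ∀ (H : Subgroup G), (∀ a ∈ A, ∀ x ∈ H, a * x * a⁻¹ ∈ H) →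
      bar A ≤ Subgroup.normalizer (bar H : Set Γ) := by
    intro H hH
    apply mem_normalizer_of_conj
    intro y hy x hx
    obtain ⟨a, ha, rfl⟩ := (hbar _ _).mp hy
    obtain ⟨b, hb, rfl⟩ := (hbar _ _).mp hx
    refine (hbar _ _).mpr ⟨a * b * a⁻¹, hH _ ha _ hb, by simp [map_mul]⟩
  have hcomm_triv : ∀ g r : X, r.1 ∈ R₁ → g.1 * r.1 * g.1⁻¹ ∈ R₁ → π g * π r = π r * π g →
      ∀ v ∈ C, ρ (g.1 * r.1 * g.1⁻¹ * r.1⁻¹) v = v := by
    intro g r hr hg h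
    have h1 : π (g * r * g⁻¹ * r⁻¹) = 1 := by
      simp only [map_mul, map_inv]
      rw [h]
      group
    have h2 := (hπ1 _).mp h1
    exact hCa W hWC hW0 hWR _ (R₁.mul_mem hg (R₁.inv_mem hr)) h2
  let D₀ : Subgroup G := T ⊓ ⁅T₀, T₀⁆
  haveI : Nontrivial W := Submodule.nontrivial_iff_ne_bot.mpr hW0
  have hRc : ∀ a ∈ bar R₁, ∀ b ∈ bar R₁, ∀ c ∈ bar R₁,
      (a * b * a⁻¹ * b⁻¹) * c = c * (a * b * a⁻¹ * b⁻¹) := by
    intro a ha b hb c hc
    obtain ⟨a₀, ha₀, rfl⟩ := (hbar _ _).mp ha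
    obtain ⟨b₀, hb₀, rfl⟩ := (hbar _ _).mp hb
    obtain ⟨c₀, hc₀, rfl⟩ := (hbar _ _).mp hc
    have h := R₁_class2 S a₀.1 ha₀ b₀.1 hb₀ c₀.1 hc₀
    have h' : (a₀ * b₀ * a₀⁻¹ * b₀⁻¹) * c₀ = c₀ * (a₀ * b₀ * a₀⁻¹ * b₀⁻¹) := Subtype.ext h
    simpa [map_mul, map_inv] using congrArg π h'
  have hscal : ∀ c ∈ bar R₁, (∀ r ∈ bar R₁, c * r = r * c) → ∃ l : K, τ c = l • (1 : End K W) := by
    intro c hc hcomm
    obtain ⟨c₀, hc₀, rfl⟩ := (hbar _ _).mp hc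
    have h1 : ∀ r ∈ R₁, ∀ v ∈ C, ρ (c₀.1 * r * c₀.1⁻¹ * r⁻¹) v = v := fun r hr v hv =>
      hcomm_triv c₀ ⟨r, hRX hr⟩ hr (R₁.mul_mem (R₁.mul_mem hc₀ hr) (R₁.inv_mem hc₀))
        (hcomm _ ((hbar _ _).mpr ⟨⟨r, hRX hr⟩, hr, rfl⟩)) v hv
    obtain ⟨l, hl⟩ := hCb c₀.1 hc₀ h1
    refine ⟨l, ?_⟩
    rw [hτπ]
    apply LinearMap.ext
    intro w
    apply Subtype.ext
    rw [hσ]
    simpa using hl w.1 (hWC w.2)
  have hle_bar : ∀ H₁ H₂ : Subgroup G, H₁ ≤ H₂ → bar H₁ ≤ bar H₂ := by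
    intro H₁ H₂ h y hy
    obtain ⟨g, hg, rfl⟩ := (hbar _ _).mp hy
    exact (hbar _ _).mpr ⟨g, h hg, rfl⟩
  have hDc : ∀ d ∈ bar D₀, ∀ x ∈ bar T, d * x = x * d := by
    intro d hd x hx
    obtain ⟨d₀, hd₀, rfl⟩ := (hbar _ _).mp hd
    obtain ⟨x₀, hx₀, rfl⟩ := (hbar _ _).mp hx
    have h' : d₀ * x₀ = x₀ * d₀ := Subtype.ext (comm_central S d₀.1 hd₀.2 x₀.1 (hTT₀ hx₀))
    simpa [map_mul] using congrArg π h'
  have hD2 : ∀ d ∈ bar D₀, d * d = 1 := by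
    intro d hd
    obtain ⟨d₀, hd₀, rfl⟩ := (hbar _ _).mp hd
    have h' : d₀ * d₀ = 1 := Subtype.ext (comm_sq S d₀.1 hd₀.2)
    simpa [map_mul] using congrArg π h'
  have hsq : ∀ x ∈ bar T, x * x ∈ bar D₀ := by
    intro x hx
    obtain ⟨x₀, hx₀, rfl⟩ := (hbar _ _).mp hx
    exact (hbar _ _).mpr ⟨x₀ * x₀, ⟨T.mul_mem hx₀ hx₀, sq_mem_comm S x₀.1 (hTT₀ hx₀)⟩, by simp [map_mul]⟩
  have hcm : ∀ x ∈ bar T, ∀ y ∈ bar T, x * y * x⁻¹ * y⁻¹ ∈ bar D₀ := by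
    intro x hx y hy
    obtain ⟨x₀, hx₀, rfl⟩ := (hbar _ _).mp hx
    obtain ⟨y₀, hy₀, rfl⟩ := (hbar _ _).mp hy
    refine (hbar _ _).mpr ⟨x₀ * y₀ * x₀⁻¹ * y₀⁻¹,
      ⟨T.mul_mem (T.mul_mem (T.mul_mem hx₀ hy₀) (T.inv_mem hx₀)) (T.inv_mem hy₀), ?_⟩, by simp [map_mul]⟩
    have := Subgroup.commutator_mem_commutator (hTT₀ hx₀) (hTT₀ hy₀)
    rwa [commutatorElement_def] at this
  have hfT : ∀ y ∈ bar T, (∀ r ∈ bar R₁, y * r = r * y) → y = 1 := by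
    intro y hy hc
    obtain ⟨t₀, ht₀, rfl⟩ := (hbar _ _).mp hy
    have h1 : ∀ r ∈ R₁, ∀ v ∈ C, ρ (t₀.1 * r * t₀.1⁻¹ * r⁻¹) v = v := fun r hr v hv =>
      hcomm_triv t₀ ⟨r, hRX hr⟩ hr (hPn_R _ (hAP (hTA ht₀)) _ hr)
        (hc _ ((hbar _ _).mpr ⟨⟨r, hRX hr⟩, hr, rfl⟩)) v hv
    have hN : t₀.1 ∈ N := (hNmem _).mpr ⟨ht₀, fun r hr v hv => by
      have h2 := h1 r hr (ρ r v) (hCR r hr v hv)
      rw [← Module.End.mul_apply, ← map_mul] at h2
      have e : t₀.1 * r * t₀.1⁻¹ * r⁻¹ * r = t₀.1 * r * t₀.1⁻¹ := by group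
      rwa [e] at h2⟩
    exact (hπ1 t₀).mpr (fun v hv => ((hWmem v).mp hv).2 _ hN)
  have hne : ¬ tser (bar A) (bar T) (k - 1) ≤ bar D₀ := by
    intro hle
    have hzX : z ∈ tser A T (k - 1) := by
      have h1 := tser_add P T₀ m (k - 1)
      have h2 : m + (k - 1) = m + k - 1 := by omega
      rw [h2] at h1
      rw [h1]
      exact hz
    have hzXX : z ∈ X := hAX (dser_le A _ (tser_le_dser hTA _ hzX))
    have hm : π ⟨z, hzXX⟩ ∈ tser (bar A) (bar T) (k - 1) := by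
      rw [htb]
      exact (hbar _ _).mpr ⟨⟨z, hzXX⟩, hzX, rfl⟩
    obtain ⟨g₀, hg₀, he⟩ := (hbar _ _).mp (hle hm)
    apply hbad
    refine ⟨g₀.1, hg₀, fun r hr v hv => ?_⟩
    have hgP : g₀.1 ∈ P := hAP (hTA hg₀.1)
    have hzP : z ∈ P := hAP (dser_le A _ (tser_le_dser hTA _ hzX))
    have hr1 : g₀.1 * r * g₀.1⁻¹ ∈ R₁ := hPn_R _ hgP _ hr
    have hr2 : z * r * z⁻¹ ∈ R₁ := hPn_R _ hzP _ hr
    have h1 : π (⟨z, hzXX⟩ * ⟨r, hRX hr⟩ * (⟨z, hzXX⟩ : X)⁻¹ * (g₀ * ⟨r, hRX hr⟩ * g₀⁻¹)⁻¹) = 1 := by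
      simp only [map_mul, map_inv]
      rw [← he]
      group
    have h2 := (hπ1 _).mp h1
    have h3 := hCa W hWC hW0 hWR (z * r * z⁻¹ * (g₀.1 * r * g₀.1⁻¹)⁻¹)
      (R₁.mul_mem hr2 (R₁.inv_mem hr1)) h2 (ρ (g₀.1 * r * g₀.1⁻¹) v) (hCR _ hr1 v hv)
    rw [← Module.End.mul_apply, ← map_mul, inv_mul_cancel_right] at h3
    exact h3
  obtain ⟨y', hy', hch⟩ := Local.exists_chain_ne_zero τ hτ S.q_ne (bar R₁) (bar A) (bar T) (bar D₀)
    (hpbar q R₁ S.R₁_q) hRc hscal (hpbar 2 A (hP2.to_le hAP))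
    (hconj R₁ fun a ha x hx => hPn_R a (hAP ha) x hx) (hle_bar _ _ hTA)
    (hconj T fun a ha x hx => hTconj a (hAP ha) x hx)
    (hconj D₀ fun a ha x hx => ⟨hTconj a (hAP ha) x hx.1, hCDconj a (hAP ha) x hx.2⟩)
    (hle_bar _ _ inf_le_left) hDc hD2 hsq hcm hfT k hk hne
  have hlift : ∀ j, ∃ t : X, j < k → t.1 ∈ tser A T j ∧ π t = y' j := by
    intro j
    by_cases hj : j < k
    · have h1 := hy' j hj
      rw [htb] at h1
      obtain ⟨g, hg, he⟩ := (hbar _ _).mp h1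
      exact ⟨g, fun _ => ⟨hg, he⟩⟩
    · exact ⟨1, fun h => absurd h hj⟩
  choose t ht using hlift
  refine ⟨fun j => (t j).1, fun j hj => ?_, ?_⟩
  · have h1 := (ht j hj).1
    have h2 := tser_add P T₀ m j
    rw [← h2]
    exact h1
  · have e1 : chainProd τ y' k = chainProd σ t k :=
      chainProd_congr' τ σ y' t k (fun j hj => by rw [← (ht j hj).2, hτπ])
    rw [e1] at hch
    have e2 : ∀ n, ∀ w : W, ((chainProd σ t n w : W) : V) = chainProd ρ (fun j => (t j).1) n w := by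
      intro n
      induction n with
      | zero => intro w; simp
      | succ n ih =>
        intro w
        rw [chainProd_succ, chainProd_succ]
        simp only [Module.End.mul_apply, LinearMap.sub_apply, Module.End.one_apply, Submodule.coe_sub]
        rw [hσ, ih w]
    have h3 : ∃ w : W, chainProd σ t k w ≠ 0 := by
      by_contra hcon
      push_neg at hcon
      exact hch (LinearMap.ext hcon)
    obtain ⟨w, hw⟩ := h3
    refine ⟨w.1, hWC w.2, fun h => hw (Subtype.ext ?_)⟩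
    rw [e2]
    exact h

end Cfsg.Agent.Lib.BryD.Restrict
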