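/-
Bryukhanova's theorem, derived length version (forum topic bry-s4259).
MODULE C: the core claim.
-/
import Cfsg.Agent.Lib.BryD.Restrict
import Cfsg.Agent.Lib.BryD.Iso
import Cfsg.Agent.Lib.BryD.Moves

set_option autoImplicit false

namespace Cfsg.Agent.Lib.BryD.Core

open Module Cfsg.Agent.Lib.BryD.Basic Cfsg.Agent.Lib.BryD.Struct Cfsg.Agent.Lib.HallHigman.Irr
  Cfsg.Agent.Lib.Gross.ConfigAux Cfsg.Agent.Lib.Coprime.Action
open scoped commutatorElement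

universe u v w

section Wit

variable {K : Type u} [Field K] {V : Type v} [AddCommGroup V] [Module K V] {G : Type w} [Group G]
  {ρ : G →* End K V} {R₁ : Subgroup G} {C : Submodule K V}

theorem map_map_rho (ρ : G →* End K V) (C : Submodule K V) (g h : G) :
    (C.map (ρ g)).map (ρ h) = C.map (ρ (h * g)) := by
  rw [map_mul]
  exact (Submodule.map_comp _ _ _).symm

theorem map_inv_of_map {g : G} (hg : C.map (ρ g) = C) : C.map (ρ g⁻¹) = C := by
  have h := map_map_rho ρ C g g⁻¹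
  rw [hg, inv_mul_cancel, map_one] at h
  rw [h]
  exact Submodule.map_id C

theorem mem_of_map {g : G} (hg : C.map (ρ g) = C) {v : V} (hv : v ∈ C) : ρ g v ∈ C := by
  have h := Submodule.mem_map_of_mem (f := ρ g) hv
  rwa [hg] at h

/-- `g` and `d` stabilize `C`, and act in the same way on `R₁` modulo the kernel of `C`. -/
def Wit (ρ : G →* End K V) (R₁ : Subgroup G) (C : Submodule K V) (g d : G) : Prop :=
  C.map (ρ g) = C ∧ C.map (ρ d) = C ∧ ∀ r ∈ R₁, ∀ v ∈ C, ρ (g * r * g⁻¹) v = ρ (d * r * d⁻¹) v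

theorem Wit.one : Wit ρ R₁ C 1 1 := by
  refine ⟨?_, ?_, fun r _ v _ => rfl⟩ <;> · rw [map_one]; exact Submodule.map_id C

theorem Wit.mul {g d h e : G} (H1 : Wit ρ R₁ C g d) (H2 : Wit ρ R₁ C h e)
    (hh : h ∈ Subgroup.normalizer (R₁ : Set G)) : Wit ρ R₁ C (g * h) (d * e) := by
  refine ⟨?_, ?_, ?_⟩
  · rw [← map_map_rho, H2.1, H1.1]
  · rw [← map_map_rho, H2.2.1, H1.2.1]
  · intro r hr v hv
    have hr' : h * r * h⁻¹ ∈ R₁ := conj_mem_of_mem_normalizer hh hr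
    have hv' : ρ d⁻¹ v ∈ C := mem_of_map (map_inv_of_map H1.2.1) hv
    calc ρ (g * h * r * (g * h)⁻¹) v = ρ (g * (h * r * h⁻¹) * g⁻¹) v := by
          congr 2; group
      _ = ρ (d * (h * r * h⁻¹) * d⁻¹) v := H1.2.2 _ hr' v hv
      _ = ρ d (ρ (h * r * h⁻¹) (ρ d⁻¹ v)) := by simp only [map_mul, Module.End.mul_apply]
      _ = ρ d (ρ (e * r * e⁻¹) (ρ d⁻¹ v)) := by rw [H2.2.2 r hr _ hv']
      _ = ρ (d * e * r * (d * e)⁻¹) v := by
          simp only [map_mul, Module.End.mul_apply, mul_inv_rev]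

theorem Wit.inv {g d : G} (H : Wit ρ R₁ C g d) (hg : g ∈ Subgroup.normalizer (R₁ : Set G)) :
    Wit ρ R₁ C g⁻¹ d⁻¹ := by
  refine ⟨map_inv_of_map H.1, map_inv_of_map H.2.1, ?_⟩
  intro r hr v hv
  have hr' : g⁻¹ * r * g ∈ R₁ := inv_conj_mem_of_mem_normalizer hg hr
  have hv' : ρ d v ∈ C := mem_of_map H.2.1 hv
  have h1 := H.2.2 _ hr' _ hv'
  have h2 : g * (g⁻¹ * r * g) * g⁻¹ = r := by group
  rw [h2] at h1
  have h3 : ρ d⁻¹ (ρ d v) = v := by
    rw [← Module.End.mul_apply, ← map_mul, inv_mul_cancel, map_one, Module.End.one_apply]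
  calc ρ (g⁻¹ * r * g⁻¹⁻¹) v = ρ (g⁻¹ * r * g) v := by rw [inv_inv]
    _ = ρ d⁻¹ (ρ (d * (g⁻¹ * r * g) * d⁻¹) (ρ d v)) := by
        simp only [map_mul, Module.End.mul_apply, h3]
        simp only [← Module.End.mul_apply, ← map_mul]
        simp only [← mul_assoc, inv_mul_cancel, one_mul, mul_one, map_mul, Module.End.mul_apply]
    _ = ρ d⁻¹ (ρ r (ρ d v)) := by rw [h1]
    _ = ρ (d⁻¹ * r * d⁻¹⁻¹) v := by
        simp only [map_mul, Module.End.mul_apply, inv_inv]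

theorem Wit.conj {C' : Submodule K V} {g d : G} (H : Wit ρ R₁ C' g d) (b : G)
    (hb : b ∈ Subgroup.normalizer (R₁ : Set G)) :
    Wit ρ R₁ (C'.map (ρ b)) (b * g * b⁻¹) (b * d * b⁻¹) := by
  refine ⟨?_, ?_, ?_⟩
  · rw [map_map_rho, show b * g * b⁻¹ * b = b * g by group, ← map_map_rho, H.1]
  · rw [map_map_rho, show b * d * b⁻¹ * b = b * d by group, ← map_map_rho, H.2.1]
  · rintro r hr _ ⟨v', hv', rfl⟩
    have hr' : b⁻¹ * r * b ∈ R₁ := inv_conj_mem_of_mem_normalizer hb hr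
    have h1 := H.2.2 _ hr' _ hv'
    have e1 : ∀ x : G, ρ (b * x * b⁻¹ * r * (b * x * b⁻¹)⁻¹) (ρ b v')
        = ρ b (ρ (x * (b⁻¹ * r * b) * x⁻¹) v') := by
      intro x
      simp only [SetLike.coe_sort_coe, ← Module.End.mul_apply, ← map_mul]
      congr 2
      group
    change ρ (b * g * b⁻¹ * r * (b * g * b⁻¹)⁻¹) (ρ b v') = ρ (b * d * b⁻¹ * r * (b * d * b⁻¹)⁻¹) (ρ b v')
    rw [e1, e1, h1]

end Wit

section Chain

variable {K : Type u} [Field K] {V : Type v} [AddCommGroup V] [Module K V] {G : Type w} [Group G]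

theorem chainProd_comp {Γ : Type*} [Group Γ] (ρ : G →* End K V) (f : Γ →* G) (u : ℕ → Γ) (n : ℕ) :
    chainProd (ρ.comp f) u n = chainProd ρ (fun j => f (u j)) n := by
  induction n with
  | zero => rfl
  | succ n ih => simp only [chainProd_succ, ih, MonoidHom.comp_apply]

theorem chainProd_congr (ρ : G →* End K V) {u u' : ℕ → G} {n : ℕ} (h : ∀ j < n, u j = u' j) :
    chainProd ρ u n = chainProd ρ u' n := by
  induction n with
  | zero => rfl
  | succ n ih =>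
    simp only [chainProd_succ]
    rw [h n (Nat.lt_succ_self n), ih (fun j hj => h j (Nat.lt_succ_of_lt hj))]

theorem chainProd_mem (ρ : G →* End K V) (u : ℕ → G) (W : Submodule K V) (n : ℕ)
    (hW : ∀ j < n, ∀ v ∈ W, ρ (u j) v ∈ W) {v : V} (hv : v ∈ W) : chainProd ρ u n v ∈ W := by
  induction n with
  | zero => simpa using hv
  | succ n ih =>
    have h := ih (fun j hj => hW j (Nat.lt_succ_of_lt hj))
    simp only [chainProd_succ, Module.End.mul_apply, LinearMap.sub_apply, Module.End.one_apply]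
    exact W.sub_mem (hW n (Nat.lt_succ_self n) _ h) h

end Chain

section Series

variable {G : Type w} [Group G]

theorem P_norm_dser (P : Subgroup G) (n : ℕ) : P ≤ Subgroup.normalizer (dser P n : Set G) := by
  induction n with
  | zero => exact Subgroup.le_normalizer
  | succ n ih => exact le_normalizer_commutator_of_le ih ih

theorem P_norm_tser {P T₀ : Subgroup G} (hT : P ≤ Subgroup.normalizer (T₀ : Set G)) (n : ℕ) :
    P ≤ Subgroup.normalizer (tser P T₀ n : Set G) := by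
  induction n with
  | zero => exact hT
  | succ n ih => exact le_normalizer_commutator_of_le ih (P_norm_dser P n)

theorem tser_succ_le {P T₀ : Subgroup G} (hT : P ≤ Subgroup.normalizer (T₀ : Set G)) (n : ℕ) :
    tser P T₀ (n + 1) ≤ tser P T₀ n :=
  commutator_le_of_le_normalizer ((dser_le P n).trans (P_norm_tser hT n))

theorem tser_le {P T₀ : Subgroup G} (hT : P ≤ Subgroup.normalizer (T₀ : Set G)) (n : ℕ) :
    tser P T₀ n ≤ T₀ := by
  induction n with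
  | zero => exact le_rfl
  | succ n ih => exact (tser_succ_le hT n).trans ih

end Series

section Main

variable {K : Type u} [Field K] [IsAlgClosed K] [CharP K 2] {V : Type v} [AddCommGroup V] [Module K V]
  [FiniteDimensional K V] {G : Type w} [Group G] [Finite G] {ρ : G →* End K V} {q : ℕ}
  {B T₀ D R₁ Ks : Subgroup G}

/-- The action of `P` on a family of subspaces by the representation. -/
@[reducible] def actOn (ρ : G →* End K V) (P : Subgroup G) (𝓒 : Set (Submodule K V))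
    (h : ∀ g ∈ P, ∀ C ∈ 𝓒, C.map (ρ g) ∈ 𝓒) : MulAction ↥P ↥𝓒 where
  smul g ω := ⟨ω.1.map (ρ g), h g g.2 _ ω.2⟩
  one_smul ω := Subtype.ext (by
    change ω.1.map (ρ 1) = ω.1
    rw [map_one]
    exact Submodule.map_id _)
  mul_smul g k ω := Subtype.ext (by
    change ω.1.map (ρ ((g * k : ↥P) : G)) = (ω.1.map (ρ k)).map (ρ g)
    rw [map_map_rho]
    rfl)

theorem moves_op (P : Subgroup G) (hP2 : IsPGroup 2 P) (𝓒 : Set (Submodule K V))
    (hmap : ∀ g ∈ P, ∀ C ∈ 𝓒, C.map (ρ g) ∈ 𝓒) (θ : Submodule K V) (hθ : θ ∈ 𝓒) (m : ℕ)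
    (hm : m = 0 ∨ ∃ g ∈ dser P (m - 1), θ.map (ρ g) ≠ θ) :
    ∃ u : ℕ → G, (∀ j < m, u j ∈ dser P j) ∧ ∀ v ∈ θ, chainProd ρ u m v - v ∈ sSup (𝓒 \ {θ}) := by
  classical
  letI := actOn ρ P 𝓒 hmap
  have hmt : (⊤ : Subgroup ↥P).map P.subtype = P := by
    rw [← MonoidHom.range_eq_map, Subgroup.range_subtype]
  let θ' : ↥𝓒 := ⟨θ, hθ⟩
  have hm' : m = 0 ∨ ∃ g ∈ dser (⊤ : Subgroup ↥P) (m - 1), g • θ' ≠ θ' := by
    rcases hm with h | ⟨g, hg, hne⟩
    · exact Or.inl h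
    · right
      have hg' : g ∈ (dser (⊤ : Subgroup ↥P) (m - 1)).map P.subtype := by
        rw [dser_map, hmt]; exact hg
      obtain ⟨g', hg', rfl⟩ := hg'
      exact ⟨g', hg', fun h => hne (congrArg Subtype.val h)⟩
  obtain ⟨u, H, hu, hH1, hH2, hH3⟩ :=
    Moves.exists_moves (⊤ : Subgroup ↥P) (hP2.to_subgroup ⊤) θ' m hm'
  refine ⟨fun j => (u j : G), ?_, ?_⟩
  · intro j hj
    have h := Subgroup.mem_map_of_mem P.subtype (hu j hj)
    rwa [dser_map, hmt] at h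
  · intro v hv
    have h := Moves.chainProd_sub_mem (ρ.comp P.subtype) (fun ω : ↥𝓒 => ω.1)
      (fun g ω v hv => Submodule.mem_map_of_mem hv) θ' (sSup (𝓒 \ {θ}))
      (fun ω hω => le_sSup ⟨ω.2, fun h => hω (Subtype.ext h)⟩) m u H hH1 hH2 hH3 v hv
    rwa [chainProd_comp] at h

/-- The complement of a stabilized component is invariant. -/
theorem compl_inv (𝓒 : Set (Submodule K V)) {g : G}
    (hmap : ∀ C ∈ 𝓒, C.map (ρ g) ∈ 𝓒) (θ : Submodule K V) (hg : θ.map (ρ g) = θ) (v : V)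
    (hv : v ∈ sSup (𝓒 \ {θ})) : ρ g v ∈ sSup (𝓒 \ {θ}) := by
  have hle : sSup (𝓒 \ {θ}) ≤ (sSup (𝓒 \ {θ})).comap (ρ g) := by
    refine sSup_le ?_
    rintro C' ⟨hC', hne⟩ w hw
    have hne' : C'.map (ρ g) ∉ ({θ} : Set (Submodule K V)) := by
      intro h
      apply hne
      rw [Set.mem_singleton_iff] at h ⊢
      have h2 := map_map_rho ρ C' g g⁻¹
      rw [h, map_inv_of_map hg, inv_mul_cancel, map_one] at h2
      exact (h2.trans (Submodule.map_id C')).symm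
    have hmem : C'.map (ρ g) ≤ sSup (𝓒 \ {θ}) := le_sSup ⟨hmap C' hC', hne'⟩
    exact hmem (Submodule.mem_map_of_mem hw)
  exact hle hv

/-- The key step of the core claim. -/
theorem mem_good (S : DS ρ q B T₀ D R₁ Ks) (P : Subgroup G) (hP2 : IsPGroup 2 P) (hT₀P : T₀ ≤ P)
    (hPB : P ≤ B) (d : ℕ) (hd : 1 ≤ d) (hC : ChainCond ρ P d)
    (𝓒 : Set (Submodule K V)) (h0 : ⊥ ∉ 𝓒) (hind : sSupIndep 𝓒)
    (hR : ∀ C ∈ 𝓒, ∀ r ∈ R₁, ∀ v ∈ C, ρ r v ∈ C)
    (hmap : ∀ g ∈ Subgroup.normalizer (R₁ : Set G), ∀ C ∈ 𝓒, C.map (ρ g) ∈ 𝓒)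
    (hCa : ∀ C ∈ 𝓒, ∀ W : Submodule K V, W ≤ C → W ≠ ⊥ → (∀ r ∈ R₁, ∀ v ∈ W, ρ r v ∈ W) →
        ∀ r ∈ R₁, (∀ v ∈ W, ρ r v = v) → ∀ v ∈ C, ρ r v = v)
    (hCb : ∀ C ∈ 𝓒, ∀ c ∈ R₁, (∀ r ∈ R₁, ∀ v ∈ C, ρ (c * r * c⁻¹ * r⁻¹) v = v) → ∃ l : K, ∀ v ∈ C, ρ c v = l • v)
    (θ : Submodule K V) (hθ : θ ∈ 𝓒) (z : G) (hz : z ∈ tser P T₀ (d - 1)) :
    ∃ d' ∈ (⁅T₀, T₀⁆ : Subgroup G), Wit ρ R₁ θ z d' := by
  classical
  have hPR : P ≤ Subgroup.normalizer (R₁ : Set G) := hPB.trans S.nR₁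
  have hPmap : ∀ g ∈ P, ∀ C ∈ 𝓒, C.map (ρ g) ∈ 𝓒 := fun g hg => hmap g (hPR hg)
  have hθ0 : θ ≠ ⊥ := fun h => h0 (h ▸ hθ)
  have hdisj : Disjoint θ (sSup (𝓒 \ {θ})) := hind hθ
  obtain ⟨v₀, hv₀, hv₀0⟩ := (Submodule.ne_bot_iff θ).mp hθ0
  -- the stable levels
  let St : ℕ → Prop := fun j => ∀ g ∈ dser P j, θ.map (ρ g) = θ
  have hex : ∃ j, j < d ∧ St j := by
    by_contra hno
    push Not at hno
    have h1 : ¬ St (d - 1) := hno (d - 1) (by omega)
    have hm : d = 0 ∨ ∃ g ∈ dser P (d - 1), θ.map (ρ g) ≠ θ := by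
      right
      simpa [St] using h1
    obtain ⟨u, hu, huv⟩ := moves_op P hP2 𝓒 hPmap θ hθ d hm
    have h2 := huv v₀ hv₀
    rw [hC u hu] at h2
    have h3 : v₀ ∈ sSup (𝓒 \ {θ}) := by
      have h4 := (sSup (𝓒 \ {θ})).neg_mem h2
      simpa using h4
    exact hv₀0 ((Submodule.disjoint_def.mp hdisj) v₀ hv₀ h3)
  classical
  let m := Nat.find hex
  have hmd : m < d := (Nat.find_spec hex).1
  have hmS : St m := (Nat.find_spec hex).2
  have hmin : m = 0 ∨ ∃ g ∈ dser P (m - 1), θ.map (ρ g) ≠ θ := by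
    rcases Nat.eq_zero_or_pos m with h | h
    · exact Or.inl h
    · right
      have h1 : ¬ St (m - 1) := fun h2 => Nat.find_min hex (m := m - 1) (by omega) ⟨by omega, h2⟩
      simpa [St] using h1
  -- `z` stabilizes `θ`.
  have hzA : z ∈ dser P m :=
    dser_anti P (by omega : m ≤ d - 1) (tser_le_dser hT₀P _ hz)
  have hzθ : θ.map (ρ z) = θ := hmS z hzA
  by_contra hno
  have hbad : ¬ ∃ d' ∈ tser P T₀ m ⊓ ⁅T₀, T₀⁆,
      ∀ r ∈ R₁, ∀ v ∈ θ, ρ (z * r * z⁻¹) v = ρ (d' * r * d'⁻¹) v := by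
    rintro ⟨d', hd', h⟩
    exact hno ⟨d', hd'.2, hzθ, hmS d' (tser_le_dser hT₀P _ hd'.1), h⟩
  have hz' : z ∈ tser P T₀ (m + (d - m) - 1) := by
    rwa [show m + (d - m) - 1 = d - 1 by omega]
  obtain ⟨y, hy, w, hw, hne⟩ := Restrict.exists_local S P hP2 hT₀P hPB θ hθ0 (hR θ hθ) (hCa θ hθ) (hCb θ hθ)
    m (d - m) (by omega) (fun g hg v hv => mem_of_map (hmS g hg) hv) z hz' hbad
  -- all `y j` stabilize `θ`
  have hyS : ∀ j < d - m, y j ∈ dser P m := fun j hj =>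
    dser_anti P (Nat.le_add_right m j) (tser_le_dser hT₀P _ (hy j hj))
  obtain ⟨u, hu, huv⟩ := moves_op P hP2 𝓒 hPmap θ hθ m hmin
  -- the total chain
  let ũ : ℕ → G := fun j => if j < m then u j else y (j - m)
  have hũ : ∀ j < d, ũ j ∈ dser P j := by
    intro j hj
    by_cases hjm : j < m
    · simp only [ũ, if_pos hjm]
      exact hu j hjm
    · simp only [ũ, if_neg hjm]
      have h1 := hy (j - m) (by omega)
      rw [show m + (j - m) = j by omega] at h1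
      exact tser_le_dser hT₀P _ h1
  have hzero := hC ũ hũ
  have h1 : chainProd ρ ũ d = chainProd ρ y (d - m) * chainProd ρ u m := by
    conv_lhs => rw [show d = m + (d - m) by omega]
    rw [chainProd_add]
    congr 1
    · apply chainProd_congr
      intro j _
      simp [ũ]
    · apply chainProd_congr
      intro j hj
      simp [ũ, hj]
  rw [h1] at hzero
  have h2 : chainProd ρ y (d - m) (chainProd ρ u m w) = 0 := by
    rw [← Module.End.mul_apply, hzero]; rfl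
  have h3 : chainProd ρ u m w = w + (chainProd ρ u m w - w) := by abel
  rw [h3, map_add] at h2
  have hθinv : ∀ j < d - m, ∀ v ∈ θ, ρ (y j) v ∈ θ := fun j hj v hv =>
    mem_of_map (hmS _ (hyS j hj)) hv
  have hCtinv : ∀ j < d - m, ∀ v ∈ sSup (𝓒 \ {θ}), ρ (y j) v ∈ sSup (𝓒 \ {θ}) := fun j hj v hv =>
    compl_inv 𝓒 (hPmap _ (dser_le P m (hyS j hj))) θ (hmS _ (hyS j hj)) v hv
  have h4 := chainProd_mem ρ y θ (d - m) hθinv hw
  have h5 := chainProd_mem ρ y (sSup (𝓒 \ {θ})) (d - m) hCtinv (huv w hw)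
  have h6 : chainProd ρ y (d - m) w ∈ sSup (𝓒 \ {θ}) := by
    rw [eq_neg_of_add_eq_zero_left h2]
    exact Submodule.neg_mem _ h5
  exact hne ((Submodule.disjoint_def.mp hdisj) _ h4 h6)

/-- If all of `T₀` acts on each component as its commutator subgroup, then `T₀` centralizes `R₁`. -/
theorem top_false (S : DS ρ q B T₀ D R₁ Ks) (𝓒 : Set (Submodule K V)) (hsup : sSup 𝓒 = ⊤)
    (hI : ∀ g ∈ T₀, ∀ C ∈ 𝓒, ∃ d' ∈ (⁅T₀, T₀⁆ : Subgroup G), Wit ρ R₁ C g d') : False := by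
  have hT₀R : T₀ ≤ Subgroup.normalizer (R₁ : Set G) := S.T₀_B.trans S.nR₁
  have hcm : (⁅T₀, T₀⁆ : Subgroup G) ≤ T₀ := commutator_le_of_le_normalizer Subgroup.le_normalizer
  have step1 : ∀ C ∈ 𝓒, ∀ x ∈ (⁅T₀, T₀⁆ : Subgroup G), Wit ρ R₁ C x 1 := by
    intro C hC
    let W : Subgroup G :=
      { carrier := {x | x ∈ Subgroup.normalizer (R₁ : Set G) ∧ Wit ρ R₁ C x 1}
        mul_mem' := by
          rintro a b ⟨ha, Ha⟩ ⟨hb, Hb⟩
          refine ⟨mul_mem ha hb, ?_⟩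
          have h := Ha.mul Hb hb
          rwa [mul_one] at h
        one_mem' := ⟨one_mem _, Wit.one⟩
        inv_mem' := by
          rintro a ⟨ha, Ha⟩
          refine ⟨inv_mem ha, ?_⟩
          have h := Ha.inv ha
          rwa [inv_one] at h }
    have hle : (⁅T₀, T₀⁆ : Subgroup G) ≤ W := by
      rw [Subgroup.commutator_le]
      intro a ha b hb
      obtain ⟨da, hda, Ha⟩ := hI a ha C hC
      obtain ⟨db, hdb, Hb⟩ := hI b hb C hC
      have hna := hT₀R ha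
      have hnb := hT₀R hb
      have H := ((Ha.mul Hb hnb).mul (Ha.inv hna) (inv_mem hna)).mul (Hb.inv hnb) (inv_mem hnb)
      have e : da * db * da⁻¹ * db⁻¹ = 1 := by
        rw [comm_central S da hda db (hcm hdb)]
        group
      rw [e] at H
      refine ⟨?_, ?_⟩
      · rw [commutatorElement_def]
        exact mul_mem (mul_mem (mul_mem hna hnb) (inv_mem hna)) (inv_mem hnb)
      · rw [commutatorElement_def]
        exact H
    exact fun x hx => (hle hx).2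
  have step2 : ∀ g ∈ T₀, ∀ r ∈ R₁, ρ (g * r * g⁻¹) = ρ r := by
    intro g hg r hr
    have hle : (⊤ : Submodule K V) ≤ LinearMap.eqLocus (ρ (g * r * g⁻¹)) (ρ r) := by
      rw [← hsup]
      refine sSup_le ?_
      intro C hC v hv
      obtain ⟨d', hd', H⟩ := hI g hg C hC
      have h1 := H.2.2 r hr v hv
      have h2 := (step1 C hC d' hd').2.2 r hr v hv
      rw [one_mul, inv_one, mul_one] at h2
      exact h1.trans h2
    ext v
    exact hle (Submodule.mem_top (x := v))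
  apply S.ncR
  intro g hg a ha
  have h := S.inj (step2 g hg a ha)
  exact (mul_inv_eq_iff_eq_mul.mp h)

/-- **The core claim.** -/
theorem core (S : DS ρ q B T₀ D R₁ Ks) (P : Subgroup G) (hP2 : IsPGroup 2 P) (hT₀P : T₀ ≤ P) (hPB : P ≤ B)
    (d : ℕ) (hd : 1 ≤ d) (hC : ChainCond ρ P d) : tser P T₀ (d - 1) ≤ D := by
  classical
  haveI := q_fact S
  have hodd : Odd (Nat.card R₁) := by
    obtain ⟨n, hn⟩ := IsPGroup.iff_card.mp S.R₁_q
    rw [hn]
    exact Odd.pow (S.q_prime.odd_of_ne_two S.q_ne)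
  obtain ⟨𝓒, h0, hind, hsup, hR, hmap, hCa, hCb⟩ := Iso.exists_components ρ R₁ hodd
  have hT₀R : T₀ ≤ Subgroup.normalizer (R₁ : Set G) := S.T₀_B.trans S.nR₁
  have hBc : B ≤ Subgroup.normalizer ((⁅T₀, T₀⁆ : Subgroup G) : Set G) :=
    le_normalizer_commutator_of_le S.nT₀ S.nT₀
  let I : Subgroup G :=
    { carrier := {g | g ∈ T₀ ∧ ∀ C ∈ 𝓒, ∃ d' ∈ (⁅T₀, T₀⁆ : Subgroup G), Wit ρ R₁ C g d'}
      mul_mem' := by
        rintro a b ⟨ha, Ha⟩ ⟨hb, Hb⟩
        refine ⟨mul_mem ha hb, fun C hC => ?_⟩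
        obtain ⟨da, hda, Hda⟩ := Ha C hC
        obtain ⟨db, hdb, Hdb⟩ := Hb C hC
        exact ⟨da * db, mul_mem hda hdb, Hda.mul Hdb (hT₀R hb)⟩
      one_mem' := ⟨one_mem _, fun C _ => ⟨1, one_mem _, Wit.one⟩⟩
      inv_mem' := by
        rintro a ⟨ha, Ha⟩
        refine ⟨inv_mem ha, fun C hC => ?_⟩
        obtain ⟨da, hda, Hda⟩ := Ha C hC
        exact ⟨da⁻¹, inv_mem hda, Hda.inv (hT₀R ha)⟩ }
  have hIT : I ≤ T₀ := fun g hg => hg.1
  have hIB : B ≤ Subgroup.normalizer (I : Set G) := by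
    have key : ∀ b ∈ B, ∀ g ∈ I, b * g * b⁻¹ ∈ I := by
      rintro b hb g ⟨hg, Hg⟩
      refine ⟨conj_mem_of_mem_normalizer (S.nT₀ hb) hg, fun C hC => ?_⟩
      have hbR := S.nR₁ hb
      have hC' : C.map (ρ b⁻¹) ∈ 𝓒 := hmap _ (inv_mem hbR) C hC
      obtain ⟨d', hd', H⟩ := Hg _ hC'
      have h1 := H.conj b hbR
      have h2 : (C.map (ρ b⁻¹)).map (ρ b) = C := by
        rw [map_map_rho, mul_inv_cancel, map_one]
        exact Submodule.map_id C
      rw [h2] at h1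
      exact ⟨_, conj_mem_of_mem_normalizer (hBc hb) hd', h1⟩
    intro b hb
    refine mem_normalizer_of_forall (key b hb) (fun g hg => ?_)
    have h := key b⁻¹ (inv_mem hb) g hg
    rwa [inv_inv] at h
  have hle : tser P T₀ (d - 1) ≤ I := fun z hz =>
    ⟨tser_le (hPB.trans S.nT₀) _ hz, fun θ hθ =>
      mem_good S P hP2 hT₀P hPB d hd hC 𝓒 h0 hind hR hmap hCa hCb θ hθ z hz⟩
  rcases S.maxD I hIT hIB with h | h
  · exact hle.trans h
  · refine (top_false S 𝓒 hsup (fun g hg C hC => ?_)).elim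
    have hg' : g ∈ I := h ▸ hg
    exact hg'.2 C hC

end Main

end Cfsg.Agent.Lib.BryD.Core
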