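/-
Bryukhanova's theorem, derived length version (forum topic bry-s4259).
MODULE F: the frame around the core claim (adapt `Lib/Bry/Frame.lean`).
-/
import Cfsg.Agent.Lib.BryD.Core
import Cfsg.Agent.Lib.Bry.Frame

set_option autoImplicit false
set_option linter.unusedSectionVars false
set_option linter.unusedVariables false
set_option linter.style.haveILetI false

namespace Cfsg.Agent.Lib.BryD.Frame

open Cfsg
open Module Cfsg.Agent.Lib.BryD.Basic Cfsg.Agent.Lib.BryD.Struct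
  Cfsg.Agent.Lib.Core.Basic Cfsg.Agent.Lib.Core.PSolvable
  Cfsg.Agent.Lib.Core.PSolvable2 Cfsg.Agent.Lib.Core.PLength Cfsg.Agent.Lib.Core.Series
  Cfsg.Agent.Lib.HallHigman.Irr Cfsg.Agent.Lib.Gross.ConfigAux Cfsg.Agent.Lib.Coprime.Action
  Cfsg.Agent.Lib.HallHigman.Exponent Cfsg.Agent.Lib.HallHigman.Core
open scoped commutatorElement

universe w

section Chain

/-- Chains in a section: `chainProd` on the image of `t` is the image of an iterated commutator. -/
theorem chain_section {K : Type*} [Field K] {V : Type*} [AddCommGroup V] [Module K V] {X : Type*} [Group X]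
    (T : Subgroup X) [hTn : T.Normal] (ρ₁ : X →* End K V) (ϖ : T → V)
    (hadd : ∀ a b, ϖ (a * b) = ϖ a + ϖ b)
    (hact : ∀ (g : X) (t t' : T), t'.1 = g * t.1 * g⁻¹ → ρ₁ g (ϖ t) = ϖ t') (P : Subgroup X) (c : ℕ → X) (t : T) :
    ∀ n, (∀ j < n, c j ∈ dser P j) → ∃ t' : T, t'.1 ∈ tser P T n ∧ chainProd ρ₁ c n (ϖ t) = ϖ t' := by
  have hϖ1 : ϖ 1 = 0 := by
    have := hadd 1 1
    rw [mul_one] at this
    simpa using this
  have hϖinv : ∀ t, ϖ t⁻¹ = - ϖ t := by
    intro t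
    have := hadd t⁻¹ t
    rw [inv_mul_cancel, hϖ1] at this
    exact (eq_neg_of_add_eq_zero_left this.symm)
  intro n
  induction n with
  | zero =>
    intro _
    exact ⟨t, t.2, rfl⟩
  | succ n ih =>
    intro hc
    obtain ⟨t₁, ht₁, h₁⟩ := ih (fun j hj => hc j (Nat.lt_succ_of_lt hj))
    have hmem : c n * t₁.1 * (c n)⁻¹ ∈ T := hTn.conj_mem t₁.1 t₁.2 (c n)
    let t₂ : T := ⟨_, hmem⟩
    refine ⟨t₂ * t₁⁻¹, ?_, ?_⟩
    · have h1 : ⁅t₁.1, c n⁆ ∈ ⁅tser P T n, dser P n⁆ :=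
        Subgroup.commutator_mem_commutator ht₁ (hc n (Nat.lt_succ_self n))
      have h2 := Subgroup.inv_mem _ h1
      rw [commutatorElement_inv] at h2
      rw [tser_succ]
      simpa [commutatorElement_def] using h2
    · rw [chainProd_succ, Module.End.mul_apply, h₁, LinearMap.sub_apply, hact (c n) t₁ t₂ rfl, hadd,
        hϖinv, Module.End.one_apply]
      abel

/-- `chainProd` only depends on the images in a quotient. -/
theorem chainProd_comp {K : Type*} [Field K] {V : Type*} [AddCommGroup V] [Module K V] {X Y : Type*} [Group X]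
    [Group Y] (π : X →* Y) (ρa : Y →* End K V) (ρ₁ : X →* End K V) (h : ∀ c, ρa (π c) = ρ₁ c) (c : ℕ → X)
    (u : ℕ → Y) (n : ℕ) (hcu : ∀ j < n, π (c j) = u j) : chainProd ρ₁ c n = chainProd ρa u n := by
  induction n with
  | zero => rfl
  | succ n ih =>
    rw [chainProd_succ, chainProd_succ, ih (fun j hj => hcu j (Nat.lt_succ_of_lt hj)),
      ← hcu n (Nat.lt_succ_self n), h]

end Chain

section Main

variable {G : Type w} [Group G] [Finite G] [Group.IsSolvable G]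

/-- The section attached to a nontrivial element of `A = G / O_{2',2}(G)`. -/
theorem exists_rep_for (hO2 : pCore 2 G = ⊥) {V : Type w} [AddCommGroup V] [Module (ZMod 2) V]
    [FiniteDimensional (ZMod 2) V] (ρ : G →* End (ZMod 2) V) (hρ : Function.Injective ρ) (d : ℕ)
    (hC : ∀ P : Subgroup G, IsPGroup 2 P → ChainCond ρ P (d + 1))
    (a : (G ⧸ pPrimeCore 2 G) ⧸ pCore 2 (G ⧸ pPrimeCore 2 G)) (ha : a ≠ 1) :
    ∃ (W : Type w) (_ : AddCommGroup W) (_ : Module (ZMod 2) W) (_ : FiniteDimensional (ZMod 2) W)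
      (ρa : ((G ⧸ pPrimeCore 2 G) ⧸ pCore 2 (G ⧸ pPrimeCore 2 G)) →* End (ZMod 2) W),
      ρa a ≠ 1 ∧ ∀ Q : Subgroup ((G ⧸ pPrimeCore 2 G) ⧸ pCore 2 (G ⧸ pPrimeCore 2 G)),
        IsPGroup 2 Q → ChainCond ρa Q d := by
  classical
  haveI h2p : Fact (Nat.Prime 2) := ⟨Nat.prime_two⟩
  -- base change
  let K := AlgebraicClosure (ZMod 2)
  let bc := Module.End.baseChangeHom (ZMod 2) K V
  let ρ' : G →* End K (TensorProduct (ZMod 2) K V) := (bc.toMonoidHom).comp ρ
  have hρ' : Function.Injective ρ' := fun h₁ h₂ h => hρ (LinearMap.baseChangeHom_injective (ZMod 2) V K h)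
  have hC' : ∀ P : Subgroup G, IsPGroup 2 P → ChainCond ρ' P (d + 1) := by
    intro P hP u hu
    have h1 := hC P hP u hu
    have h2 : ∀ n, chainProd ρ' u n = bc (chainProd ρ u n) := by
      intro n
      induction n with
      | zero => simp only [chainProd_zero, map_one]
      | succ n ih =>
        rw [chainProd_succ, chainProd_succ, ih, map_mul, map_sub, map_one]
        rfl
    rw [h2, h1, map_zero]
  -- the quotients
  let N := pPrimeCore 2 G
  let T : Subgroup (G ⧸ N) := pCore 2 (G ⧸ N)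
  let f₁ : G →* G ⧸ N := QuotientGroup.mk' N
  let f₂ : (G ⧸ N) →* (G ⧸ N) ⧸ T := QuotientGroup.mk' T
  let π : G →* (G ⧸ N) ⧸ T := f₂.comp f₁
  have hπs : Function.Surjective π := (QuotientGroup.mk'_surjective T).comp (QuotientGroup.mk'_surjective N)
  have hπker : ∀ g, π g = 1 ↔ g ∈ pPrimePCore 2 G := fun g => QuotientGroup.eq_one_iff _
  let M := pPrimePCore 2 G
  haveI hMn : M.Normal := pPrimePCore_normal
  obtain ⟨P⟩ : Nonempty (Sylow 2 M) := inferInstance
  let U : Subgroup G := (P : Subgroup M).map M.subtype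
  have hU : IsPGroup 2 U := P.isPGroup'.map _
  have hFr : Subgroup.normalizer (U : Set G) ⊔ M = ⊤ := Sylow.normalizer_sup_eq_top P
  let B : Subgroup G := Subgroup.normalizer (U : Set G)
  have hUB : U ≤ B := Subgroup.le_normalizer
  have hlift : ∀ g : G, ∃ g₀ ∈ B, π g₀ = π g := by
    intro g
    have hg : g ∈ B ⊔ M := by
      rw [show B ⊔ M = ⊤ from hFr]
      trivial
    obtain ⟨a, ha, b, hb, rfl⟩ := Subgroup.mem_sup_of_normal_right.mp hg
    exact ⟨a, ha, by rw [map_mul, (hπker b).mpr hb, mul_one]⟩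
  have hTU : U.map f₁ = T := by
    have hr : (f₁.comp M.subtype).range = T := by
      rw [MonoidHom.range_comp, Subgroup.range_subtype]
      exact map_mk_pPrimePCore
    have h1 := Cfsg.Agent.Lib.Gross.Key.map_sylow_eq (f₁.comp M.subtype) T pCore_isPGroup hr P
    rw [← h1]
    exact Subgroup.map_map _ _ _
  have hUN : U ⊓ N = ⊥ := inf_eq_bot_of_isPGroup_of_coprime hU pPrimeCore_coprime
  -- elements of `B` in the kernel
  have hdec : ∀ c ∈ B, π c = 1 → ∃ u ∈ U, ∃ d ∈ B, c = u * d ∧ d ∈ N ∧ ∀ u' ∈ U, d * u' = u' * d := by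
    intro c hcB hc
    have h1 : f₁ c ∈ T := (QuotientGroup.eq_one_iff _).mp hc
    rw [← hTU] at h1
    obtain ⟨u, hu, hue⟩ := h1
    have hdN : u⁻¹ * c ∈ N := by
      rw [← QuotientGroup.eq]
      exact hue
    refine ⟨u, hu, u⁻¹ * c, B.mul_mem (B.inv_mem (hUB hu)) hcB, by group, hdN, fun u' hu' => ?_⟩
    set d := u⁻¹ * c with hd
    have hdB : d ∈ B := B.mul_mem (B.inv_mem (hUB hu)) hcB
    have h2 : d * u' * d⁻¹ * u'⁻¹ ∈ U :=
      U.mul_mem (conj_mem_of_mem_normalizer hdB hu') (U.inv_mem hu')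
    have hNn : N.Normal := inferInstance
    have h3 : d * u' * d⁻¹ * u'⁻¹ ∈ N := by
      have h4 := hNn.conj_mem _ (N.inv_mem hdN) u'
      have e : d * u' * d⁻¹ * u'⁻¹ = d * (u' * d⁻¹ * u'⁻¹) := by group
      rw [e]
      exact N.mul_mem hdN h4
    have h4 : d * u' * d⁻¹ * u'⁻¹ ∈ U ⊓ N := ⟨h2, h3⟩
    rw [hUN, Subgroup.mem_bot] at h4
    have h5 : d * u' * d⁻¹ = u' := mul_inv_eq_one.mp h4
    exact mul_inv_eq_iff_eq_mul.mp h5
  -- the normal closure of `a`
  let L : Subgroup ((G ⧸ N) ⧸ T) := Subgroup.normalClosure {a}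
  haveI hLn : L.Normal := inferInstance
  have haL : a ∈ L := Subgroup.subset_normalClosure rfl
  have hL2 : ¬ IsPGroup 2 L := by
    intro h
    have h1 : L ≤ pCore 2 ((G ⧸ N) ⧸ T) := le_pCore hLn h
    have h2 : pCore 2 ((G ⧸ N) ⧸ T) = ⊥ := pCore_quotient_eq_bot
    rw [h2] at h1
    exact ha (h1 haL)
  have hodd : ∃ s₀ ∈ L, s₀ ≠ 1 ∧ Odd (orderOf s₀) := by
    unfold IsPGroup at hL2
    push Not at hL2
    obtain ⟨x, hx⟩ := hL2
    obtain ⟨a₀, b₀, hab, -, ⟨k, hk⟩, hbo, -, hbz⟩ :=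
      Cfsg.Agent.Lib.Core.Residual.exists_pPart_pPrimePart 2 (x : (G ⧸ N) ⧸ T) (isOfFinOrder_of_finite _)
    refine ⟨b₀, (Subgroup.zpowers_le.mpr x.2) hbz, ?_, Nat.coprime_two_right.mp hbo⟩
    rintro rfl
    rw [mul_one] at hab
    apply hx k
    apply Subtype.ext
    rw [Subgroup.coe_pow, ← hab, hk]
    rfl
  obtain ⟨s₀, hs₀L, hs₀1, hs₀o⟩ := hodd
  obtain ⟨g₀, rfl⟩ := hπs s₀
  obtain ⟨g₁, hg₁B, hg₁⟩ := hlift g₀
  obtain ⟨s, hsz, hso, hsπ⟩ := Cfsg.Agent.Lib.Bry.Frame.exists_odd_lift π g₁ (m := orderOf (π g₀)) hs₀o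
    (by rw [hg₁, pow_orderOf_eq_one])
  have hsB : s ∈ B := (Subgroup.zpowers_le.mpr hg₁B) hsz
  have hsπ' : π s = π g₀ := hsπ.trans hg₁
  -- the odd elements
  let 𝒮 : Set G := {s | s ∈ B ∧ Odd (orderOf s) ∧ π s ∈ L}
  have h𝒮B : 𝒮 ⊆ B := fun s hs => hs.1
  have h𝒮odd : ∀ s ∈ 𝒮, Odd (orderOf s) := fun s hs => hs.2.1
  have h𝒮conj : ∀ b ∈ B, ∀ s ∈ 𝒮, b * s * b⁻¹ ∈ 𝒮 := by
    rintro b hb s ⟨h1, h2, h3⟩
    refine ⟨B.mul_mem (B.mul_mem hb h1) (B.inv_mem hb), ?_, ?_⟩
    · have h4 : orderOf (b * s * b⁻¹) = orderOf s :=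
        orderOf_injective (MulAut.conj b).toMonoidHom (MulEquiv.injective _) s
      rw [h4]
      exact h2
    · rw [map_mul, map_mul, map_inv]
      exact hLn.conj_mem _ h3 _
  have hnc : ¬ ∀ s ∈ 𝒮, ∀ u ∈ U, s * u = u * s := by
    intro h
    have h1 : f₁ s ∈ Subgroup.centralizer (T : Set (G ⧸ N)) := by
      rw [Subgroup.mem_centralizer_iff]
      intro τ hτ
      rw [SetLike.mem_coe, ← hTU] at hτ
      obtain ⟨u, hu, rfl⟩ := hτ
      have h2 := h s ⟨hsB, hso, by rw [hsπ']; exact hs₀L⟩ u hu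
      rw [← map_mul, ← map_mul, h2]
    have h2 := centralizer_pCore_le_of_isPSolvable (p := 2) (G := G ⧸ N) isPSolvable_of_isSolvable
      pPrimeCore_quotient_eq_bot h1
    apply hs₀1
    rw [← hsπ']
    exact (QuotientGroup.eq_one_iff _).mpr h2
  obtain ⟨T₀, D, hT₀U, hDT, hDne, hT₀N, hDN, hmaxD, hKsT₀, hKsD, hcent, hUT, hsq, hcm, hT₀nc⟩ :=
    Cfsg.Agent.Lib.Bry.Frame.exists_frame B U 𝒮 hU hUB le_rfl h𝒮B h𝒮odd h𝒮conj hnc
  have hT₀2 : IsPGroup 2 T₀ := hU.to_le hT₀U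
  have hT₀ne : T₀ ≠ ⊥ := by
    rintro rfl
    exact hDne (le_bot_iff.mp hDT)
  obtain ⟨q, R₁, hq, hq2, hR₁q, hR₁N, hminR, hncR⟩ := Cfsg.Agent.Lib.Bry.Frame.exists_R₁ hO2 B T₀ hT₀2 hT₀ne
  have S : DS ρ' q B T₀ D R₁ (Subgroup.closure 𝒮) :=
    { inj := hρ'
      q_prime := hq
      q_ne := hq2
      R₁_q := hR₁q
      T₀_two := hT₀2
      T₀_B := hT₀U.trans hUB
      nT₀ := hT₀N
      nD := hDN
      nR₁ := hR₁N
      D_le := hDT
      maxD := hmaxD
      D_ne := hDne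
      minR := hminR
      ncR := hncR
      Ks_le := (Subgroup.closure_le _).mpr h𝒮B
      hKs := hKsT₀
      Ks_D := hKsD
      D_central := hcent
      T₀_sq := hsq
      T₀_cm := hcm }
  -- the section
  let Tb : Subgroup B := T₀.subgroupOf B
  let Db : Subgroup B := D.subgroupOf B
  haveI hTbn : Tb.Normal := Subgroup.normal_subgroupOf_of_le_normalizer hT₀N
  haveI hDbn : Db.Normal := Subgroup.normal_subgroupOf_of_le_normalizer hDN
  have hDTb : Db ≤ Tb := fun x hx => hDT hx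
  obtain ⟨W, i1, i2, i3, ρ₁, ϖ, hadd, hsurj, h0, hact⟩ :=
    Cfsg.Agent.Lib.HallHigman.Section.exists_section_module (p := 2) Db Tb hDTb
      (fun a ha b hb => hcm a.1 ha b.1 hb)
      (fun a ha => by
        change ((a ^ 2 : B) : G) ∈ D
        rw [Subgroup.coe_pow, pow_two]
        exact hsq a.1 ha)
  have hϖ1 : ϖ 1 = 0 := by
    have := hadd 1 1
    rw [mul_one] at this
    simpa using this
  have hϖinv : ∀ t, ϖ t⁻¹ = - ϖ t := by
    intro t
    have := hadd t⁻¹ t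
    rw [inv_mul_cancel, hϖ1] at this
    exact (eq_neg_of_add_eq_zero_left this.symm)
  have hϖcomm : ∀ (c : B) (t : Tb) (t' : Tb), t'.1 = c * t.1 * c⁻¹ →
      ρ₁ c (ϖ t) - ϖ t = ϖ (t' * t⁻¹) := by
    intro c t t' ht'
    rw [hact c t t' ht', hadd, hϖinv]
    abel
  have htriv : ∀ c : B, (∀ t ∈ T₀, c.1 * t * c.1⁻¹ * t⁻¹ ∈ D) → ρ₁ c = 1 := by
    intro c hc
    ext v
    obtain ⟨t, rfl⟩ := hsurj v
    have hmem : c * t.1 * c⁻¹ ∈ Tb := hTbn.conj_mem t.1 t.2 c
    have h1 := hϖcomm c t ⟨_, hmem⟩ rfl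
    have h2 : ϖ (⟨_, hmem⟩ * t⁻¹) = 0 := (h0 _).mpr (hc t.1.1 t.2)
    rw [h2, sub_eq_zero] at h1
    rw [h1]
    rfl
  have hnontriv : ∀ c : B, ρ₁ c = 1 → ∀ t ∈ T₀, c.1 * t * c.1⁻¹ * t⁻¹ ∈ D := by
    intro c hc t ht
    let t₀ : Tb := ⟨⟨t, hUB (hT₀U ht)⟩, ht⟩
    have hmem : c * t₀.1 * c⁻¹ ∈ Tb := hTbn.conj_mem t₀.1 t₀.2 c
    have h1 := hϖcomm c t₀ ⟨_, hmem⟩ rfl
    rw [hc, Module.End.one_apply, sub_self] at h1
    exact (h0 _).mp h1.symm
  -- the descent to the quotient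
  let π' : B →* (G ⧸ N) ⧸ T := π.comp B.subtype
  have hπ's : Function.Surjective π' := by
    intro y
    obtain ⟨g, rfl⟩ := hπs y
    obtain ⟨g₂, hg₂B, hg₂⟩ := hlift g
    exact ⟨⟨g₂, hg₂B⟩, hg₂⟩
  have hker : π'.ker ≤ ρ₁.ker := by
    intro c hc
    rw [MonoidHom.mem_ker] at hc ⊢
    obtain ⟨u, hu, d, hdB, he, hdN, hdc⟩ := hdec c.1 c.2 hc
    refine htriv c (fun t ht => ?_)
    have h1 := hUT u hu t ht
    rw [he]
    have e : (u * d) * t * (u * d)⁻¹ * t⁻¹ = u * (d * t) * d⁻¹ * u⁻¹ * t⁻¹ := by group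
    rw [e, hdc t (hT₀U ht)]
    have e2 : u * (t * d) * d⁻¹ * u⁻¹ * t⁻¹ = u * t * u⁻¹ * t⁻¹ := by group
    rw [e2]
    exact h1
  let e₀ : (B ⧸ π'.ker) ≃* ((G ⧸ N) ⧸ T) := QuotientGroup.quotientKerEquivOfSurjective π' hπ's
  let ρa : ((G ⧸ N) ⧸ T) →* End (ZMod 2) W :=
    (QuotientGroup.lift π'.ker ρ₁ hker).comp e₀.symm.toMonoidHom
  have hρa : ∀ c : B, ρa (π' c) = ρ₁ c := by
    intro c
    have h1 : e₀.symm (π' c) = (c : B ⧸ π'.ker) := (e₀.symm_apply_eq).mpr rfl
    change QuotientGroup.lift π'.ker ρ₁ hker (e₀.symm (π' c)) = ρ₁ c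
    rw [h1]
    rfl
  refine ⟨W, i1, i2, i3, ρa, ?_, ?_⟩
  · intro hρ1
    have hkL : L ≤ ρa.ker := by
      refine Subgroup.normalClosure_le_normal ?_
      rintro _ rfl
      exact hρ1
    apply hT₀nc
    intro s hs
    refine Cfsg.Agent.Lib.Bry.Frame.comm_of_section hT₀2 hs.2.1 (hT₀N hs.1) (X := D) (fun t ht => ?_)
      (fun d hd => hKsD s (Subgroup.subset_closure hs) d hd) 
    have h1 : ρ₁ ⟨s, hs.1⟩ = 1 := by
      rw [← hρa]
      exact hkL hs.2.2
    exact hnontriv _ h1 t ht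
  · intro Q hQ u hu
    let X : Subgroup B := Q.comap π'
    obtain ⟨P₀⟩ : Nonempty (Sylow 2 X) := inferInstance
    have hr : (π'.comp X.subtype).range = Q := by
      rw [MonoidHom.range_comp, Subgroup.range_subtype]
      exact Subgroup.map_comap_eq_self_of_surjective hπ's Q
    have h1 := Cfsg.Agent.Lib.Gross.Key.map_sylow_eq (π'.comp X.subtype) Q hQ hr P₀
    let P₀' : Subgroup B := (P₀ : Subgroup X).map X.subtype
    have hP₀' : IsPGroup 2 P₀' := P₀.isPGroup'.map _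
    have hP₀'Q : P₀'.map π' = Q := by
      rw [← h1]
      exact Subgroup.map_map _ _ _
    let Ub : Subgroup B := U.subgroupOf B
    haveI hUbn : Ub.Normal := Subgroup.normal_subgroupOf_of_le_normalizer le_rfl
    have hUb : IsPGroup 2 Ub := hU.comap_of_injective B.subtype Subtype.val_injective
    let P₂b : Subgroup B := Ub ⊔ P₀'
    have hP₂b : IsPGroup 2 P₂b := hUb.to_sup_of_normal_left hP₀'
    have hUbπ : Ub.map π' = ⊥ := by
      rw [eq_bot_iff]
      rintro _ ⟨c, hc, rfl⟩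
      have h2 : f₁ c.1 ∈ T := by
        rw [← hTU]
        exact ⟨c.1, hc, rfl⟩
      exact (QuotientGroup.eq_one_iff _).mpr h2
    have hP₂Q : P₂b.map π' = Q := by
      rw [Subgroup.map_sup, hP₀'Q, hUbπ, bot_sup_eq]
    have hdQ : ∀ j, (dser P₂b j).map π' = dser Q j := by
      intro j
      rw [dser_map, hP₂Q]
    have hl : ∀ j, ∃ c : B, j < d → c ∈ dser P₂b j ∧ π' c = u j := by
      intro j
      by_cases hj : j < d
      · have h2 := hu j hj
        rw [← hdQ j] at h2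
        obtain ⟨c, hc, hce⟩ := h2
        exact ⟨c, fun _ => ⟨hc, hce⟩⟩
      · exact ⟨1, fun h => absurd h hj⟩
    choose c hc using hl
    let P₂ : Subgroup G := P₂b.map B.subtype
    have hP₂ : IsPGroup 2 P₂ := hP₂b.map _
    have hT₀P₂ : T₀ ≤ P₂ := by
      intro t ht
      refine ⟨⟨t, hUB (hT₀U ht)⟩, ?_, rfl⟩
      exact Subgroup.mem_sup_left (show (⟨t, hUB (hT₀U ht)⟩ : B) ∈ Ub from hT₀U ht)
    have hP₂B : P₂ ≤ B := Subgroup.map_subtype_le _
    have hcore := Cfsg.Agent.Lib.BryD.Core.core S P₂ hP₂ hT₀P₂ hP₂B (d + 1) (by omega) (hC' P₂ hP₂)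
    rw [Nat.add_sub_cancel] at hcore
    have hTb : Tb.map B.subtype = T₀ := by
      rw [Subgroup.subgroupOf_map_subtype]
      exact inf_eq_left.mpr (hT₀U.trans hUB)
    have hts : (tser P₂b Tb d).map B.subtype = tser P₂ T₀ d := by
      rw [tser_map, hTb]
    have e : chainProd ρa u d = chainProd ρ₁ c d :=
      (chainProd_comp π' ρa ρ₁ hρa c u d (fun j hj => (hc j hj).2)).symm
    rw [e]
    ext v
    obtain ⟨t, rfl⟩ := hsurj v
    obtain ⟨t', ht', he⟩ := chain_section Tb ρ₁ ϖ hadd hact P₂b c t d (fun j hj => (hc j hj).1)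
    rw [he]
    refine (h0 _).mpr (hcore ?_)
    rw [← hts]
    exact ⟨t'.1, ht', rfl⟩

end Main

section Product

/-- Nontrivial modules for every nontrivial element assemble into a faithful module. -/
theorem exists_faithful_product {A : Type w} [Group A] [Finite A] (d : ℕ)
    (h : ∀ a : A, a ≠ 1 → ∃ (W : Type w) (_ : AddCommGroup W) (_ : Module (ZMod 2) W)
      (_ : FiniteDimensional (ZMod 2) W) (ρa : A →* End (ZMod 2) W),
      ρa a ≠ 1 ∧ ∀ Q : Subgroup A, IsPGroup 2 Q → ChainCond ρa Q d) :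
    ∃ (V : Type w) (_ : AddCommGroup V) (_ : Module (ZMod 2) V) (_ : FiniteDimensional (ZMod 2) V)
      (ρ : A →* End (ZMod 2) V), Function.Injective ρ ∧ ∀ Q : Subgroup A, IsPGroup 2 Q → ChainCond ρ Q d := by
  classical
  let I := {a : A // a ≠ 1}
  choose W i1 i2 i3 ρa hne hnorm using (fun i : I => h i.1 i.2)
  letI : ∀ i, AddCommGroup (W i) := i1
  letI : ∀ i, Module (ZMod 2) (W i) := i2
  haveI : ∀ i, FiniteDimensional (ZMod 2) (W i) := i3
  let ρ : A →* End (ZMod 2) (∀ i, W i) :=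
    { toFun := fun x => LinearMap.pi (fun i => (ρa i x).comp (LinearMap.proj i))
      map_one' := by
        ext i w j
        simp only [LinearMap.coe_comp, Function.comp_apply, LinearMap.pi_apply, LinearMap.coe_proj,
          LinearMap.coe_single, Function.eval, map_one, Module.End.one_apply]
      map_mul' := by
        intro x y
        ext i w j
        simp only [LinearMap.coe_comp, Function.comp_apply, LinearMap.pi_apply, LinearMap.coe_proj,
          LinearMap.coe_single, Function.eval, map_mul, Module.End.mul_apply] }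
  have hρ : ∀ x v i, ρ x v i = ρa i x (v i) := fun x v i => rfl
  have hpow : ∀ (u : ℕ → A) (k : ℕ) (v : ∀ i, W i) (i : I),
      (chainProd ρ u k) v i = (chainProd (ρa i) u k) (v i) := by
    intro u k
    induction k with
    | zero =>
      intro v i
      rfl
    | succ k ih =>
      intro v i
      rw [chainProd_succ, chainProd_succ, Module.End.mul_apply, Module.End.mul_apply, LinearMap.sub_apply,
        LinearMap.sub_apply, Pi.sub_apply, hρ, ih, Module.End.one_apply, Module.End.one_apply, ih]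
  refine ⟨∀ i, W i, inferInstance, inferInstance, inferInstance, ρ, ?_, ?_⟩
  · intro x y hxy
    by_contra hne'
    have hz : x⁻¹ * y ≠ 1 := by
      intro h1
      exact hne' (inv_mul_eq_one.mp h1)
    let i : I := ⟨x⁻¹ * y, hz⟩
    have h1 : ρ (x⁻¹ * y) = 1 := by
      rw [map_mul, ← hxy, ← map_mul, inv_mul_cancel, map_one]
    apply hne i
    ext w
    have h2 := congrArg (fun t : End (ZMod 2) (∀ i, W i) => t (Pi.single i w) i) h1
    simp only [hρ, Module.End.one_apply, Pi.single_eq_same] at h2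
    exact h2
  · intro Q hQ u hu
    ext i w j
    have h1 := hpow u d (LinearMap.single (ZMod 2) W i w) j
    rw [hnorm j Q hQ u hu] at h1
    simpa using h1

end Product

section Induction

/-- **The induction.** -/
theorem main (f : ℕ) : ∀ (G : Type w) [Group G] [Finite G] [Group.IsSolvable G], pCore 2 G = ⊥ →
    ∀ (V : Type w) [AddCommGroup V] [Module (ZMod 2) V] [FiniteDimensional (ZMod 2) V]
      (ρ : G →* End (ZMod 2) V), Function.Injective ρ →
      (∀ P : Subgroup G, IsPGroup 2 P → ChainCond ρ P (f + 1)) → PLengthLE 2 f G := by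
  classical
  have h2p : Fact (Nat.Prime 2) := ⟨Nat.prime_two⟩
  induction f with
  | zero =>
    intro G _ _ _ hO2 V _ _ _ ρ hρ hC
    rw [pLengthLE_zero_iff, Nat.coprime_comm, Nat.Prime.coprime_iff_not_dvd Nat.prime_two]
    intro hd
    obtain ⟨x, hx⟩ := exists_prime_orderOf_dvd_card' (G := G) 2 hd
    have hx1 : x ^ 2 ^ 1 = 1 := by
      have h0 := pow_orderOf_eq_one x
      rw [hx] at h0
      simpa using h0
    have h1 := hC (Subgroup.zpowers x) (Cfsg.Agent.Lib.Gross.ConfigAux.isPGroup_zpowers hx1) (fun _ => x)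
      (fun j hj => by
        obtain rfl : j = 0 := by omega
        exact Subgroup.mem_zpowers x)
    have h2 : ρ x = 1 := by
      simpa [sub_eq_zero] using h1
    have h3 : x = 1 := hρ (by rw [h2, map_one])
    rw [h3, orderOf_one] at hx
    omega
  | succ f ih =>
    intro G _ _ _ hO2 V _ _ _ ρ hρ hC
    have h2 : PLengthLE 2 (1 + f) G := by
      apply Cfsg.Agent.Lib.Gross.Final.of_quot
      obtain ⟨W, i1, i2, i3, ρW, hinj, hnorm⟩ := exists_faithful_product (f + 1)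
        (fun a ha => exists_rep_for hO2 ρ hρ (f + 1) hC a ha)
      exact ih _ pCore_quotient_eq_bot W ρW hinj hnorm
    rwa [add_comm] at h2

/-- The image of the derived series of `P` in `G` is `dser P`. -/
theorem map_derivedSeries_eq_dser {G : Type w} [Group G] (P : Subgroup G) (n : ℕ) :
    (derivedSeries (P : Subgroup G) n).map P.subtype = dser P n := by
  induction n with
  | zero =>
    rw [derivedSeries_zero, dser_zero, ← MonoidHom.range_eq_map, Subgroup.range_subtype]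
  | succ n ih =>
    rw [derivedSeries_succ, dser_succ, Subgroup.map_commutator, ih]

/-- The faithful module of `G / O_{2',2}(G)`. -/
theorem exists_rep_of_dser {G : Type w} [Group G] [Finite G] [Fact (Nat.Prime 2)] (hS : IsPSolvable 2 G) (d : ℕ)
    (h : ∀ P : Sylow 2 G, derivedSeries (P : Subgroup G) d = ⊥) :
    ∃ (V : Type w) (_ : AddCommGroup V) (_ : Module (ZMod 2) V) (_ : FiniteDimensional (ZMod 2) V)
      (ρ : ((G ⧸ pPrimeCore 2 G) ⧸ pCore 2 (G ⧸ pPrimeCore 2 G)) →* End (ZMod 2) V), Function.Injective ρ ∧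
      ∀ Q : Subgroup ((G ⧸ pPrimeCore 2 G) ⧸ pCore 2 (G ⧸ pPrimeCore 2 G)), IsPGroup 2 Q → ChainCond ρ Q d := by
  classical
  let N := pPrimeCore 2 G
  let f := QuotientGroup.mk' N
  have hf : Function.Surjective f := QuotientGroup.mk'_surjective N
  have hS₁ : IsPSolvable 2 (G ⧸ N) := isPSolvable_of_surjective f hf hS
  have hred : pPrimeCore 2 (G ⧸ N) = ⊥ := pPrimeCore_quotient_eq_bot
  let T := pCore 2 (G ⧸ N)
  let f₂ := QuotientGroup.mk' T
  have hf₂ : Function.Surjective f₂ := QuotientGroup.mk'_surjective T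
  obtain ⟨V, i1, i2, i3, ρ, π, hinj, hadd, hsurj, hact, -⟩ :=
    Cfsg.Agent.Lib.HallHigman.Exponent.exists_faithful_module hS₁ hred
  refine ⟨V, i1, i2, i3, ρ, hinj, ?_⟩
  intro Q hQ u hu
  let P' : Subgroup (G ⧸ N) := Q.comap f₂
  have hker : IsPGroup 2 f₂.ker := by
    rw [QuotientGroup.ker_mk']
    exact pCore_isPGroup
  have hP' : IsPGroup 2 P' := hQ.comap_of_ker_isPGroup f₂ hker
  have hTP' : T ≤ P' := by
    intro t ht
    change f₂ t ∈ Q
    have h1 : f₂ t = 1 := (QuotientGroup.eq_one_iff _).mpr ht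
    rw [h1]
    exact Q.one_mem
  have hP'Q : P'.map f₂ = Q := Subgroup.map_comap_eq_self_of_surjective hf₂ Q
  have hdQ : ∀ j, (dser P' j).map f₂ = dser Q j := by
    intro j
    rw [dser_map, hP'Q]
  have hl : ∀ j, ∃ c : G ⧸ N, j < d → c ∈ dser P' j ∧ f₂ c = u j := by
    intro j
    by_cases hj : j < d
    · have h2 := hu j hj
      rw [← hdQ j] at h2
      obtain ⟨c, hc, hce⟩ := h2
      exact ⟨c, fun _ => ⟨hc, hce⟩⟩
    · exact ⟨1, fun h => absurd h hj⟩
  choose c hc using hl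
  -- `dser P' d` is trivial
  obtain ⟨S', hS'⟩ := hP'.exists_le_sylow
  obtain ⟨S, rfl⟩ := Sylow.mapSurjective_surjective hf 2 S'
  have hd0 : dser P' d = ⊥ := by
    rw [eq_bot_iff]
    refine (dser_mono hS' d).trans ?_
    change dser ((S : Subgroup G).map f) d ≤ ⊥
    rw [← dser_map, ← map_derivedSeries_eq_dser, h S, Subgroup.map_bot, Subgroup.map_bot]
  have e : chainProd ρ u d = chainProd (ρ.comp f₂) c d :=
    (chainProd_comp f₂ ρ (ρ.comp f₂) (fun _ => rfl) c u d (fun j hj => (hc j hj).2)).symm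
  rw [e]
  have hact' : ∀ (g : G ⧸ N) (t t' : T), t'.1 = g * t.1 * g⁻¹ → (ρ.comp f₂) g (π t) = π t' := hact
  have hπ1 : π 1 = 0 := by
    have := hadd 1 1
    rw [mul_one] at this
    simpa using this
  ext v
  obtain ⟨t, rfl⟩ := hsurj v
  obtain ⟨t', ht', he⟩ := chain_section T (ρ.comp f₂) π hadd hact' P' c t d (fun j hj => (hc j hj).1)
  rw [he]
  have h3 : t'.1 ∈ dser P' d := tser_le_dser hTP' d ht'
  rw [hd0, Subgroup.mem_bot] at h3
  have h4 : t' = 1 := Subtype.ext h3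
  rw [h4, hπ1]
  rfl

end Induction

/-- **Bryukhanova's theorem, derived length version**, for solvable groups. -/
theorem bryukhanovaD {G : Type w} [Group G] [Finite G] [Group.IsSolvable G] (d : ℕ)
    (h : ∀ P : Sylow 2 G, derivedSeries (P : Subgroup G) d = ⊥) : PLengthLE 2 d G := by
  classical
  have h2p : Fact (Nat.Prime 2) := ⟨Nat.prime_two⟩
  cases d with
  | zero =>
    rw [pLengthLE_zero_iff, Nat.coprime_comm, Nat.Prime.coprime_iff_not_dvd Nat.prime_two]
    intro hd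
    obtain ⟨x, hx⟩ := exists_prime_orderOf_dvd_card' (G := G) 2 hd
    have hx1 : x ^ 2 ^ 1 = 1 := by
      have h0 := pow_orderOf_eq_one x
      rw [hx] at h0
      simpa using h0
    obtain ⟨S, hS⟩ := (Cfsg.Agent.Lib.Gross.ConfigAux.isPGroup_zpowers hx1).exists_le_sylow
    have h1 := h S
    rw [derivedSeries_zero] at h1
    have h2 : (⟨x, hS (Subgroup.mem_zpowers x)⟩ : (S : Subgroup G)) ∈ (⊥ : Subgroup (S : Subgroup G)) := by
      rw [← h1]
      trivial
    have h3 : x = 1 := congrArg Subtype.val (Subgroup.mem_bot.mp h2)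
    rw [h3, orderOf_one] at hx
    omega
  | succ e =>
    have h2 : PLengthLE 2 (1 + e) G := by
      apply Cfsg.Agent.Lib.Gross.Final.of_quot
      obtain ⟨V, i1, i2, i3, ρ, hinj, hC⟩ := exists_rep_of_dser (G := G) isPSolvable_of_isSolvable (e + 1) h
      exact main e _ pCore_quotient_eq_bot V ρ hinj hC
    rwa [add_comm] at h2

end Cfsg.Agent.Lib.BryD.Frame
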